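import Mathlib
import Cfsg.Agent.Lib.Helper64.AutStmt

/-! Piece BURN of S4411: a finite group whose `p`-elements are central is `p`-solvable. -/

set_option autoImplicit false

namespace Cfsg.Agent.Lib.Helper15.AutBURN

open Cfsg Cfsg.Agent.Lib.Helper64.AutStmt

universe u

theorem main : Burn.{u} := by
  intro p _ K _ _ hcent
  have hp : p.Prime := Fact.out
  obtain ⟨P⟩ : Nonempty (Sylow p K) := inferInstance
  have hPn : (P : Subgroup K).Normal := by
    constructor
    intro n hn g
    obtain ⟨k, hk⟩ := P.isPGroup' ⟨n, hn⟩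
    have hk' : n ^ p ^ k = 1 := by
      have := congrArg Subtype.val hk
      simpa using this
    have hc := hcent n ⟨k, hk'⟩ g
    rw [hc, mul_inv_cancel_right]
    exact hn
  obtain ⟨m, hm⟩ := IsPGroup.iff_card.mp P.isPGroup'
  refine ⟨2, ![⊥, (P : Subgroup K), ⊤], rfl, rfl, ?_, ?_, ?_⟩
  · rw [Fin.monotone_iff_le_succ]
    intro i
    fin_cases i
    · exact bot_le
    · exact le_top
  · intro i
    fin_cases i
    · exact Subgroup.normal_bot
    · exact hPn
    · exact Subgroup.normal_top
  · intro i
    fin_cases i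
    · left
      refine ⟨m, ?_⟩
      show (⊥ : Subgroup K).relIndex (P : Subgroup K) = p ^ m
      rw [Subgroup.relIndex_bot_left, hm]
    · right
      show ((P : Subgroup K).relIndex ⊤).Coprime p
      rw [Subgroup.relIndex_top_right]
      exact ((Nat.Prime.coprime_iff_not_dvd hp).mpr (Sylow.not_dvd_index P)).symm

end Cfsg.Agent.Lib.Helper15.AutBURN
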