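import Mathlib
import Cfsg.Agent.S0890
import Cfsg.Agent.Lib.Helper78.ProjLift
import Cfsg.Agent.Lib.Helper78.Gallagher
import Cfsg.Agent.Lib.Helper78.CliffordCorr
import Cfsg.Agent.Lib.Helper26.GenChar
import Cfsg.Agent.Lib.Helper3.MGroup
import Cfsg.Agent.Lib.CT.FrobRec
import Cfsg.Agent.Lib.CT.NormOne
import Cfsg.Agent.Lib.CT.Clifford
import Cfsg.Agent.Lib.CT.Ops
import Cfsg.Agent.Lib.CT.Kernel
import Cfsg.Agent.Lib.CT.LinChar
import Cfsg.Agent.Lib.CT.IndChar

/-!
Toolbox for Berger's theorem (quasi-primitive characters of solvable groups are primitive):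
decomposition lemmas for characters, the lifting group of an invariant character with the
Gallagher factorisation, inflation of induced functions, restriction to a supplement of a
subgroup acting by scalars.
-/

set_option autoImplicit false
set_option linter.style.haveILetI false
set_option linter.unusedSectionVars false

namespace Cfsg.Agent.Lib.Helper15.Berger

open Cfsg Cfsg.Agent.Lib.CT Cfsg.Agent.Lib.CT.Wedderburn Cfsg.Agent.Lib.CT.NormOne
  Cfsg.Agent.Lib.CT.Clifford Cfsg.Agent.Lib.CT.FrobRec Cfsg.Agent.Lib.CT.Ops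
  Cfsg.Agent.Lib.CT.Orth
open scoped ComplexConjugate

universe u v

section Decomp

variable {X : Type u} [Group X] [Fintype X]

theorem classInner_map_sum {Y : Type v} [Group Y] [Fintype Y] [Fintype (IrrCharacter X)]
    (T : (X → ℂ) →ₗ[ℂ] (Y → ℂ)) (m : IrrCharacter X → ℕ) (Φ : X → ℂ)
    (hexp : Φ = ∑ τ : IrrCharacter X, (m τ : ℂ) • (τ : X → ℂ)) (σ : Y → ℂ) :
    classInner (T Φ) σ = ∑ τ : IrrCharacter X, (m τ : ℂ) * classInner (T (τ : X → ℂ)) σ := by
  rw [hexp, map_sum, classInner_sum_left]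
  apply Finset.sum_congr rfl
  intro τ _
  rw [map_smul, classInner_smul_left]

theorem mult_ne_zero [Fintype (IrrCharacter X)] {Φ θ : X → ℂ} (hθ : IsIrrCharacter X θ)
    (hcon : classInner Φ θ ≠ 0) (m : IrrCharacter X → ℕ)
    (hm : ∀ ψ : IrrCharacter X, classInner Φ (ψ : X → ℂ) = m ψ) : m ⟨θ, hθ⟩ ≠ 0 := by
  intro h0
  apply hcon
  have := hm ⟨θ, hθ⟩
  rw [h0] at this
  simpa using this

/-- A constituent stays a constituent under an additive map preserving characters. -/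
theorem map_constituent {Y : Type v} [Group Y] [Fintype Y]
    (T : (X → ℂ) →ₗ[ℂ] (Y → ℂ)) (hT : ∀ τ, IsIrrCharacter X τ → IsCharacter Y (T τ))
    {Φ θ : X → ℂ} (hΦ : IsCharacter X Φ) (hθ : IsIrrCharacter X θ) (hcon : classInner Φ θ ≠ 0)
    (hθ1 : T θ 1 ≠ 0) : classInner (T Φ) (T θ) ≠ 0 := by
  classical
  haveI : Finite (IrrCharacter X) := finite_irrCharacter X
  haveI : Fintype (IrrCharacter X) := Fintype.ofFinite _
  obtain ⟨m, hm, hexp⟩ := exists_mult_sum hΦ
  have hc : ∀ τ : IrrCharacter X, ∃ c : ℕ, classInner (T τ.1) (T θ) = c := fun τ =>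
    classInner_char_nat (hT _ τ.2) (hT _ hθ)
  choose c hc using hc
  have h1 : classInner (T Φ) (T θ) = ((∑ τ, m τ * c τ : ℕ) : ℂ) := by
    rw [classInner_map_sum T m Φ hexp]
    push_cast
    apply Finset.sum_congr rfl
    intro τ _
    rw [hc]
  rw [h1]
  have hmθ : m ⟨θ, hθ⟩ ≠ 0 := mult_ne_zero hθ hcon m hm
  have hcθ : c ⟨θ, hθ⟩ ≠ 0 := by
    intro h0
    have h2 := Cfsg.Agent.Lib.Helper78.Gallagher.classInner_self_ne_zero (hT _ hθ) hθ1
    have h3 := hc ⟨θ, hθ⟩
    rw [h0] at h3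
    apply h2
    simpa using h3
  have h2 : m ⟨θ, hθ⟩ * c ⟨θ, hθ⟩ ≤ ∑ τ, m τ * c τ :=
    Finset.single_le_sum (f := fun τ => m τ * c τ) (fun _ _ => Nat.zero_le _) (Finset.mem_univ _)
  have h3 : 0 < m ⟨θ, hθ⟩ * c ⟨θ, hθ⟩ :=
    Nat.mul_pos (Nat.pos_of_ne_zero hmθ) (Nat.pos_of_ne_zero hcθ)
  have h4 : (∑ τ, m τ * c τ) ≠ 0 := by omega
  exact_mod_cast h4

/-- If the image of a character under an additive map preserving characters is irreducible,
the character is irreducible. -/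
theorem irr_of_map_irr {Y : Type v} [Group Y] [Fintype Y]
    (T : (X → ℂ) →ₗ[ℂ] (Y → ℂ))
    (hT : ∀ τ, IsIrrCharacter X τ → IsCharacter Y (T τ) ∧ T τ 1 ≠ 0)
    {ψ : X → ℂ} (hψ : IsCharacter X ψ) (h : IsIrrCharacter Y (T ψ)) : IsIrrCharacter X ψ := by
  classical
  haveI : Finite (IrrCharacter X) := finite_irrCharacter X
  haveI : Fintype (IrrCharacter X) := Fintype.ofFinite _
  obtain ⟨m, hm, hexp⟩ := exists_mult_sum hψ
  have hnorm := classInner_self_eq_sum m hm hexp
  apply irr_of_inner_self_eq_one hψ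
  rw [hnorm]
  have hc : ∀ χ χ' : IrrCharacter X, ∃ c : ℕ, classInner (T χ.1) (T χ'.1) = c := fun χ χ' =>
    classInner_char_nat (hT _ χ.2).1 (hT _ χ'.2).1
  choose c hc using hc
  have hdiag : ∀ χ, 1 ≤ c χ χ := by
    intro χ
    have h1 := Cfsg.Agent.Lib.Helper78.Gallagher.classInner_self_ne_zero (hT _ χ.2).1 (hT _ χ.2).2
    rw [hc] at h1
    have : c χ χ ≠ 0 := by
      intro h0
      apply h1
      rw [h0]; simp
    omega
  have h2 : classInner (T ψ) (T ψ) = ((∑ χ, ∑ χ', m χ * m χ' * c χ χ' : ℕ) : ℂ) := by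
    rw [classInner_map_sum T m ψ hexp]
    push_cast
    apply Finset.sum_congr rfl
    intro χ _
    conv_lhs => rw [hexp, map_sum]
    rw [Cfsg.Agent.Lib.Helper26.GenChar.classInner_sum_right, Finset.mul_sum]
    apply Finset.sum_congr rfl
    intro χ' _
    rw [map_smul, Cfsg.Agent.Lib.Helper26.GenChar.classInner_smul_right, hc]
    simp
    ring
  rw [inner_self_eq_one_of_irr h] at h2
  have h3 : (∑ χ, ∑ χ', m χ * m χ' * c χ χ' : ℕ) = 1 := by exact_mod_cast h2.symm
  have h4 : ∑ χ, m χ * m χ ≤ ∑ χ, ∑ χ', m χ * m χ' * c χ χ' := by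
    apply Finset.sum_le_sum
    intro χ _
    calc m χ * m χ ≤ m χ * m χ * c χ χ := Nat.le_mul_of_pos_right _ (hdiag χ)
      _ ≤ ∑ χ', m χ * m χ' * c χ χ' :=
        Finset.single_le_sum (f := fun χ' => m χ * m χ' * c χ χ') (fun _ _ => Nat.zero_le _)
          (Finset.mem_univ χ)
  have h5 : ∑ χ, m χ * m χ ≠ 0 := by
    intro h0
    have h6 : classInner ψ ψ = 0 := by rw [hnorm, h0]; simp
    have hz := Cfsg.Agent.Lib.Helper26.GenChar.eq_zero_of_classInner_self_eq_zero h6
    have h7 := irr_apply_one_ne_zero h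
    rw [hz, map_zero] at h7
    exact h7 rfl
  have h8 : ∑ χ, m χ * m χ = 1 := by omega
  rw [h8]; simp

/-- If the image of a character has a constituent `σ`, then some constituent of the character
has an image with constituent `σ`. -/
theorem exists_constituent_of_map {Y : Type v} [Group Y] [Fintype Y]
    (T : (X → ℂ) →ₗ[ℂ] (Y → ℂ)) {Φ : X → ℂ} (hΦ : IsCharacter X Φ) (σ : Y → ℂ)
    (h : classInner (T Φ) σ ≠ 0) :
    ∃ τ : IrrCharacter X, classInner Φ τ.1 ≠ 0 ∧ classInner (T τ.1) σ ≠ 0 := by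
  classical
  haveI : Finite (IrrCharacter X) := finite_irrCharacter X
  haveI : Fintype (IrrCharacter X) := Fintype.ofFinite _
  obtain ⟨m, hm, hexp⟩ := exists_mult_sum hΦ
  rw [classInner_map_sum T m Φ hexp] at h
  obtain ⟨τ, _, hτ⟩ := Finset.exists_ne_zero_of_sum_ne_zero h
  refine ⟨τ, ?_, ?_⟩
  · rw [hm]
    intro h0
    apply hτ
    rw [h0, zero_mul]
  · intro h0
    apply hτ
    rw [h0, mul_zero]

/-- An irreducible constituent of a character whose restriction (along `f`) is a multiple of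
an irreducible `φ` restricts to a multiple of `φ`. -/
theorem constituent_restrict {Y : Type v} [Group Y] [Fintype Y] (f : Y →* X)
    {Φ θ : X → ℂ} (hΦ : IsCharacter X Φ) (hθ : IsIrrCharacter X θ) (hcon : classInner Φ θ ≠ 0)
    {φ : Y → ℂ} (hφ : IsIrrCharacter Y φ) (c : ℂ) (hres : ∀ y, Φ (f y) = c * φ y) :
    ∀ y, θ (f y) * φ 1 = θ 1 * φ y := by
  classical
  haveI : Finite (IrrCharacter X) := finite_irrCharacter X
  haveI : Fintype (IrrCharacter X) := Fintype.ofFinite _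
  haveI : Finite (IrrCharacter Y) := finite_irrCharacter Y
  haveI : Fintype (IrrCharacter Y) := Fintype.ofFinite _
  obtain ⟨m, hm, hexp⟩ := exists_mult_sum hΦ
  have hmθ : m ⟨θ, hθ⟩ ≠ 0 := mult_ne_zero hθ hcon m hm
  have hΘ : IsCharacter Y (fun y => θ (f y)) := isCharacter_comp_hom f (isCharacter_of_irr hθ)
  obtain ⟨n, hn, hexpΘ⟩ := exists_mult_sum hΘ
  let T : (X → ℂ) →ₗ[ℂ] (Y → ℂ) := LinearMap.funLeft ℂ ℂ f
  have hTapp : ∀ F : X → ℂ, T F = fun y => F (f y) := fun F => rfl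
  have hzero : ∀ σ : IrrCharacter Y, σ ≠ ⟨φ, hφ⟩ → n σ = 0 := by
    intro σ hσ
    have hc : ∀ τ : IrrCharacter X, ∃ c : ℕ, classInner (T τ.1) σ.1 = c := fun τ =>
      classInner_char_nat (isCharacter_comp_hom f (isCharacter_of_irr τ.2))
        (isCharacter_of_irr σ.2)
    choose cc hcc using hc
    have h1 : classInner (T Φ) σ.1 = ((∑ τ, m τ * cc τ : ℕ) : ℂ) := by
      rw [classInner_map_sum T m Φ hexp]
      push_cast
      apply Finset.sum_congr rfl
      intro τ _
      rw [hcc]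
    have h2 : classInner (T Φ) σ.1 = 0 := by
      have h3 : T Φ = c • φ := by
        funext y
        rw [hTapp]
        simp [hres]
      rw [h3, classInner_smul_left]
      have h4 := irr_orthonormal (⟨φ, hφ⟩ : IrrCharacter Y) σ
      rw [if_neg (Ne.symm hσ)] at h4
      simp only at h4
      rw [h4, mul_zero]
    rw [h2] at h1
    have h3 : (∑ τ, m τ * cc τ) = 0 := by exact_mod_cast h1.symm
    have h4 := (Finset.sum_eq_zero_iff.mp h3) ⟨θ, hθ⟩ (Finset.mem_univ _)
    have h5 : cc ⟨θ, hθ⟩ = 0 := by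
      rcases Nat.mul_eq_zero.mp h4 with h | h
      · exact absurd h hmθ
      · exact h
    have h6 : classInner (fun y => θ (f y)) σ.1 = (n σ : ℂ) := hn σ
    have h7 : classInner (fun y => θ (f y)) σ.1 = 0 := by
      have h8 := hcc ⟨θ, hθ⟩
      rw [h5] at h8
      simpa [hTapp] using h8
    rw [h7] at h6
    exact_mod_cast h6.symm
  have hΘeq : (fun y => θ (f y)) = (n ⟨φ, hφ⟩ : ℂ) • φ := by
    conv_lhs => rw [hexpΘ]
    rw [Finset.sum_eq_single (⟨φ, hφ⟩ : IrrCharacter Y)]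
    · intro σ _ hσ
      rw [hzero σ hσ]; simp
    · intro h
      exact absurd (Finset.mem_univ _) h
  intro y
  have h1 := congrFun hΘeq y
  have h2 := congrFun hΘeq 1
  simp only [Pi.smul_apply, smul_eq_mul, map_one] at h1 h2
  rw [h1, h2]; ring

/-- A character with an irreducible constituent of at least its own degree equals it. -/
theorem eq_of_constituent_of_degree_le {Φ θ : X → ℂ} (hΦ : IsCharacter X Φ)
    (hθ : IsIrrCharacter X θ) (hcon : classInner Φ θ ≠ 0) (hdeg : (Φ 1).re ≤ (θ 1).re) :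
    Φ = θ := by
  classical
  haveI : Finite (IrrCharacter X) := finite_irrCharacter X
  haveI : Fintype (IrrCharacter X) := Fintype.ofFinite _
  obtain ⟨m, hm, hexp⟩ := exists_mult_sum hΦ
  have hmθ : m ⟨θ, hθ⟩ ≠ 0 := mult_ne_zero hθ hcon m hm
  have hd : ∀ τ : IrrCharacter X, ∃ d : ℕ, 0 < d ∧ τ.1 1 = d := fun τ =>
    irr_exists_apply_one_pos τ.2
  choose d hdpos hd using hd
  have hΦ1 : Φ 1 = ((∑ τ, m τ * d τ : ℕ) : ℂ) := by
    conv_lhs => rw [hexp]
    simp [Finset.sum_apply, hd]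
  have hle : (∑ τ, m τ * d τ) ≤ d ⟨θ, hθ⟩ := by
    have h1 : (Φ 1).re = ((∑ τ, m τ * d τ : ℕ) : ℝ) := by rw [hΦ1]; simp
    have h2 : (θ 1).re = (d ⟨θ, hθ⟩ : ℝ) := by
      have := hd ⟨θ, hθ⟩
      simp only at this
      rw [this]; simp
    rw [h1, h2] at hdeg
    exact_mod_cast hdeg
  have hsplit : m ⟨θ, hθ⟩ * d ⟨θ, hθ⟩ + ∑ τ ∈ Finset.univ.erase ⟨θ, hθ⟩, m τ * d τ =
      ∑ τ, m τ * d τ :=
    Finset.add_sum_erase _ (fun τ => m τ * d τ) (Finset.mem_univ _)
  have hm1 : m ⟨θ, hθ⟩ = 1 := by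
    have h0 := hdpos ⟨θ, hθ⟩
    have h3 : m ⟨θ, hθ⟩ * d ⟨θ, hθ⟩ ≤ d ⟨θ, hθ⟩ := by omega
    have h4 : m ⟨θ, hθ⟩ ≤ 1 := by
      by_contra hh
      push Not at hh
      nlinarith
    omega
  have hrest : ∑ τ ∈ Finset.univ.erase ⟨θ, hθ⟩, m τ * d τ = 0 := by
    rw [hm1] at hsplit
    omega
  have hzero : ∀ τ, τ ≠ ⟨θ, hθ⟩ → m τ = 0 := by
    intro τ hτ
    have := (Finset.sum_eq_zero_iff.mp hrest) τ (Finset.mem_erase.mpr ⟨hτ, Finset.mem_univ _⟩)
    rcases Nat.mul_eq_zero.mp this with h | h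
    · exact h
    · exact absurd h (hdpos τ).ne'
  conv_lhs => rw [hexp]
  rw [Finset.sum_eq_single (⟨θ, hθ⟩ : IrrCharacter X)]
  · rw [hm1]; simp
  · intro τ _ hτ
    rw [hzero τ hτ]; simp
  · intro h
    exact absurd (Finset.mem_univ _) h

/-- A nonzero character with a unique irreducible constituent is a multiple of it. -/
theorem exists_smul_of_unique_constituent {Φ : X → ℂ} (hΦ : IsCharacter X Φ) (h1 : Φ 1 ≠ 0)
    (huniq : ∀ τ τ' : IrrCharacter X, classInner Φ τ.1 ≠ 0 → classInner Φ τ'.1 ≠ 0 → τ = τ') :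
    ∃ (β : IrrCharacter X) (m : ℕ), m ≠ 0 ∧ Φ = (m : ℂ) • β.1 := by
  classical
  haveI : Finite (IrrCharacter X) := finite_irrCharacter X
  haveI : Fintype (IrrCharacter X) := Fintype.ofFinite _
  obtain ⟨m, hm, hexp⟩ := exists_mult_sum hΦ
  have hex : ∃ β, m β ≠ 0 := by
    by_contra hh
    push Not at hh
    apply h1
    rw [hexp]
    simp [Finset.sum_apply, hh]
  obtain ⟨β, hβ⟩ := hex
  refine ⟨β, m β, hβ, ?_⟩
  conv_lhs => rw [hexp]
  rw [Finset.sum_eq_single β]
  · intro τ _ hτ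
    have : m τ = 0 := by
      by_contra h0
      apply hτ
      apply huniq τ β
      · rw [hm]; exact_mod_cast h0
      · rw [hm]; exact_mod_cast hβ
    rw [this]; simp
  · intro h
    exact absurd (Finset.mem_univ _) h

/-- Degree bound for a constituent lying over a linear character. -/
theorem degree_le_of_constituent {Y : Type v} [Group Y] [Fintype Y] (f : Y →* X)
    {Φ δ : X → ℂ} (hΦ : IsCharacter X Φ) (hδ : IsIrrCharacter X δ) (hcon : classInner Φ δ ≠ 0)
    {ν : Y → ℂ} (hν : IsIrrCharacter Y ν)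
    (hδν : ∀ y, δ (f y) = δ 1 * ν y) (r : ℂ)
    (hres : classInner (fun y => Φ (f y)) ν = r) :
    ∃ N d : ℕ, r = N ∧ δ 1 = d ∧ d ≤ N := by
  classical
  haveI : Finite (IrrCharacter X) := finite_irrCharacter X
  haveI : Fintype (IrrCharacter X) := Fintype.ofFinite _
  obtain ⟨m, hm, hexp⟩ := exists_mult_sum hΦ
  have hmδ : m ⟨δ, hδ⟩ ≠ 0 := mult_ne_zero hδ hcon m hm
  let T : (X → ℂ) →ₗ[ℂ] (Y → ℂ) := LinearMap.funLeft ℂ ℂ f
  have hTapp : ∀ F : X → ℂ, T F = fun y => F (f y) := fun F => rfl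
  have hc : ∀ τ : IrrCharacter X, ∃ c : ℕ, classInner (T τ.1) ν = c := fun τ =>
    classInner_char_nat (isCharacter_comp_hom f (isCharacter_of_irr τ.2)) (isCharacter_of_irr hν)
  choose cc hcc using hc
  have h1 : classInner (T Φ) ν = ((∑ τ, m τ * cc τ : ℕ) : ℂ) := by
    rw [classInner_map_sum T m Φ hexp]
    push_cast
    apply Finset.sum_congr rfl
    intro τ _
    rw [hcc]
  obtain ⟨d, hdpos, hd⟩ := irr_exists_apply_one_pos hδ
  have hcδ : cc ⟨δ, hδ⟩ = d := by
    have h2 := hcc ⟨δ, hδ⟩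
    have h3 : T δ = (δ 1) • ν := by
      funext y
      rw [hTapp]
      simp [hδν]
    simp only at h2
    rw [h3, classInner_smul_left, inner_self_eq_one_of_irr hν, mul_one, hd] at h2
    exact_mod_cast h2.symm
  refine ⟨∑ τ, m τ * cc τ, d, ?_, hd, ?_⟩
  · rw [← hres]
    exact h1
  · calc d = 1 * cc ⟨δ, hδ⟩ := by rw [hcδ, one_mul]
      _ ≤ m ⟨δ, hδ⟩ * cc ⟨δ, hδ⟩ := Nat.mul_le_mul_right _ (Nat.one_le_iff_ne_zero.mpr hmδ)
      _ ≤ ∑ τ, m τ * cc τ :=
        Finset.single_le_sum (f := fun τ => m τ * cc τ) (fun _ _ => Nat.zero_le _)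
          (Finset.mem_univ _)

end Decomp


section Misc

variable {X : Type u} [Group X] [Fintype X]

theorem isCharacter_conj {χ : X → ℂ} (h : IsCharacter X χ) :
    IsCharacter X (fun g => conj (χ g)) := by
  have h1 := isCharacter_inv_arg h
  have h2 : (fun g => χ g⁻¹) = fun g => conj (χ g) := funext (fun g => char_apply_inv h g)
  rwa [h2] at h1

theorem classInner_mul_conj_swap (a b c : X → ℂ) :
    classInner (fun x => a x * conj (b x)) c = conj (classInner (fun x => b x * c x) a) := by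
  unfold classInner
  rw [map_mul, map_sum, map_inv₀, Complex.conj_natCast]
  congr 1
  apply Finset.sum_congr rfl
  intro x _
  rw [map_mul, map_mul, Complex.conj_conj]
  ring

/-- Sum over the source of a surjective homomorphism of a function of the image. -/
theorem sum_comp_surjective {Y : Type v} [Group Y] [Fintype Y] (π : X →* Y)
    (hπ : Function.Surjective π) (F : Y → ℂ) :
    ∑ x : X, F (π x) = (Nat.card π.ker : ℂ) * ∑ y : Y, F y := by
  classical
  rw [← Finset.sum_fiberwise (s := Finset.univ) (g := π) (f := fun x => F (π x)), Finset.mul_sum]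
  apply Finset.sum_congr rfl
  intro y _
  have h1 : ∀ x ∈ Finset.univ.filter (fun x => π x = y), F (π x) = F y := by
    intro x hx
    rw [(Finset.mem_filter.mp hx).2]
  rw [Finset.sum_congr rfl h1, Finset.sum_const, nsmul_eq_mul]
  congr 1
  have h2 := MonoidHom.card_fiber_eq_of_mem_range π (hπ y) (hπ 1)
  rw [h2]
  have h3 : Nat.card π.ker = (Finset.univ.filter (fun x => π x = 1)).card := by
    rw [Nat.card_eq_fintype_card, Fintype.card_subtype]
    congr 1
    ext x
    simp [MonoidHom.mem_ker]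
  rw [h3]

theorem card_comap_surjective {Y : Type v} [Group Y] (π : X →* Y)
    (hπ : Function.Surjective π) (H : Subgroup Y) :
    Nat.card (H.comap π) = Nat.card π.ker * Nat.card H := by
  have h1 : π.ker ≤ H.comap π := by
    intro x hx
    rw [Subgroup.mem_comap, MonoidHom.mem_ker.mp hx]
    exact H.one_mem
  have h2 := Cfsg.Agent.S0890.card_mul_relIndex' h1
  rw [← h2]
  congr 1
  rw [← MonoidHom.comap_bot, Subgroup.relIndex_comap,
    Subgroup.map_comap_eq_self_of_surjective hπ, Subgroup.relIndex_bot_left]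

/-- Induction commutes with inflation along a surjective homomorphism. -/
theorem indFun_comap {Y : Type u} [Group Y] [Fintype Y] (π : X →* Y)
    (hπ : Function.Surjective π) (H : Subgroup Y) (ϑ : H → ℂ) :
    indFun (H.comap π) (fun h : H.comap π => ϑ ⟨π h, h.2⟩) = fun g => indFun H ϑ (π g) := by
  classical
  funext g
  rw [indFun_apply, indFun_apply]
  have h1 : ∀ x : X, extendByZero (H.comap π) (fun h : H.comap π => ϑ ⟨π h, h.2⟩) (x⁻¹ * g * x) =
      extendByZero H ϑ ((π x)⁻¹ * π g * π x) := by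
    intro x
    by_cases hx : x⁻¹ * g * x ∈ H.comap π
    · have hx' : (π x)⁻¹ * π g * π x ∈ H := by
        have := Subgroup.mem_comap.mp hx
        simpa using this
      rw [extendByZero_apply_of_mem _ _ hx, extendByZero_apply_of_mem _ _ hx']
      congr 1
      apply Subtype.ext
      simp
    · have hx' : (π x)⁻¹ * π g * π x ∉ H := by
        intro h
        apply hx
        rw [Subgroup.mem_comap]
        simpa using h
      rw [extendByZero_apply_of_not_mem _ _ hx, extendByZero_apply_of_not_mem _ _ hx']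
  rw [Finset.sum_congr rfl (fun x _ => h1 x),
    sum_comp_surjective π hπ (fun y => extendByZero H ϑ (y⁻¹ * π g * y)),
    card_comap_surjective π hπ H]
  have hk : (Nat.card π.ker : ℂ) ≠ 0 := Nat.cast_ne_zero.mpr Nat.card_pos.ne'
  have hH : (Nat.card H : ℂ) ≠ 0 := Nat.cast_ne_zero.mpr Nat.card_pos.ne'
  push_cast
  field_simp

/-- A subrepresentation for a subgroup-like family supplementing a set of scalar elements. -/
theorem irr_comp_of_scalar {Y : Type v} [Group Y] (f : Y →* X) (K : Subgroup X)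
    (hsup : ∀ g : X, ∃ (n : Y) (k : X), k ∈ K ∧ g = f n * k)
    {χ : X → ℂ} (hχ : IsIrrCharacter X χ) (hK : ∀ k ∈ K, ‖χ k‖ = (χ 1).re) :
    IsIrrCharacter Y (fun y => χ (f y)) := by
  obtain ⟨n, ρ, hρ, rfl⟩ := hχ
  have hscal : ∀ k ∈ K, ∃ ω : ℂ, ρ k = ω • (1 : Module.End ℂ (Fin n → ℂ)) := fun k hk =>
    (Kernel.rep_norm_char_eq_iff ρ k).mp (hK k hk)
  let E : Subrepresentation ρ ≃o Subrepresentation (ρ.comp f) :=
    { toFun := fun U =>
        { toSubmodule := U.toSubmodule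
          apply_mem_toSubmodule := fun x v hv => U.apply_mem_toSubmodule (f x) hv }
      invFun := fun U =>
        { toSubmodule := U.toSubmodule
          apply_mem_toSubmodule := fun g v hv => by
            obtain ⟨y, k, hk, rfl⟩ := hsup g
            obtain ⟨ω, hω⟩ := hscal k hk
            rw [map_mul, Module.End.mul_apply, hω]
            simp only [LinearMap.smul_apply, Module.End.one_apply]
            exact U.apply_mem_toSubmodule y (U.toSubmodule.smul_mem ω hv) }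
      left_inv := fun U => rfl
      right_inv := fun U => rfl
      map_rel_iff' := Iff.rfl }
  exact ⟨n, ρ.comp f, (OrderIso.isSimpleOrder_iff E).mp hρ, rfl⟩

/-- If the induced character is irreducible, the character is irreducible. -/
theorem irr_of_indFun_irr (H : Subgroup X) {ψ : H → ℂ} (hψ : IsCharacter H ψ)
    (h : IsIrrCharacter X (indFun H ψ)) : IsIrrCharacter H ψ := by
  classical
  let T : (H → ℂ) →ₗ[ℂ] (X → ℂ) :=
    { toFun := fun θ => indFun H θ
      map_add' := fun a b => indFun_add H a b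
      map_smul' := fun c a => indFun_smul H c a }
  refine irr_of_map_irr T ?_ hψ h
  intro τ hτ
  refine ⟨IndChar.isCharacter_indFun H τ (isCharacter_of_irr hτ), ?_⟩
  show indFun H τ 1 ≠ 0
  rw [indFun_one]
  have h1 : (H.index : ℂ) ≠ 0 := Nat.cast_ne_zero.mpr (Subgroup.index_ne_zero_of_finite)
  exact mul_ne_zero h1 (irr_apply_one_ne_zero hτ)

end Misc

section Lift

open Cfsg.Agent.Lib.Helper78.ProjLift Cfsg.Agent.Lib.CT.MatCoeff in
/-- The lifting group of an invariant irreducible character `ϑ` of a normal subgroup `N` with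
`χ|N = e ϑ`: a finite group `Γ` over `G` in which the inflation of `ϑ` factors as `ν ζ|N~` with `ν`
linear and `ζ ∈ Irr Γ`, and the inflation of `χ` factors as `γ ζ` with `γ|N~ = e ν`. -/
theorem exists_lift {G : Type u} [Group G] [Fintype G] (N : Subgroup G) [hN : N.Normal]
    (χ : G → ℂ) (hχ : IsIrrCharacter G χ) (ϑ : N → ℂ) (hϑ : IsIrrCharacter N ϑ) (e : ℕ)
    (he : e ≠ 0) (hres : ∀ n : N, χ n = e * ϑ n) (P : Prop)
    (hP : ∀ (Γ : Type u) [Group Γ] [Fintype Γ] (π : Γ →* G) (ζ γ ν : Γ → ℂ),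
      Function.Surjective π → IsIrrCharacter Γ ζ → IsIrrCharacter Γ γ →
      IsCharacter (N.comap π) (fun m : N.comap π => ν m) → ν 1 = 1 →
      (∀ m : N.comap π, ν m * ζ m = ϑ ⟨π m, m.2⟩) →
      (∀ g : Γ, γ g * ζ g = χ (π g)) →
      (∀ m : N.comap π, γ m = γ 1 * ν m) → γ 1 = e → P) : P := by
  classical
  obtain ⟨d, σ, hσ, rfl⟩ := hϑ
  have hd : 0 < d := pos_dim σ
  have hd' : (d : ℂ) ≠ 0 := Nat.cast_ne_zero.mpr hd.ne'
  have hχcf : IsClassFunction G χ := char_isClassFunction (isCharacter_of_irr hχ)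
  have he' : (e : ℂ) ≠ 0 := Nat.cast_ne_zero.mpr he
  have hinv : ∀ (g : G) (n : N), σ.character (MulAut.conjNormal g n) = σ.character n := by
    intro g n
    have h1 := hres (MulAut.conjNormal g n)
    have h2 := hres n
    rw [MulAut.conjNormal_apply, hχcf, h2] at h1
    exact (mul_left_cancel₀ he' h1).symm
  have hsurj := proj_surjective N σ hinv
  have hfin : Finite (liftGroup N σ) := finite_liftGroup N σ
  letI : Fintype (liftGroup N σ) := Fintype.ofFinite _
  let M : Subgroup (liftGroup N σ) := N.comap (proj N σ)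
  have hM : M.Normal := inferInstance
  letI : Fintype M := Fintype.ofFinite _
  have hτ : (tau N σ).IsIrreducible := tau_irreducible N σ hsurj
  let η : liftGroup N σ → ℂ := (tau N σ).character
  have hη : IsIrrCharacter (liftGroup N σ) η := ⟨d, tau N σ, hτ, rfl⟩
  have hη1 : η 1 = d := by
    show (tau N σ).character 1 = d
    rw [Representation.char_one, Module.finrank_fin_fun]
  let fφ : M →* ℂ :=
    { toFun := phi N σ
      map_one' := phi_one N σ
      map_mul' := phi_mul N σ }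
  have hφ : IsIrrCharacter M (phi N σ) := LinChar.isIrrCharacter_of_hom fφ.toHomUnits
  have hφchar : IsCharacter M (phi N σ) := isCharacter_of_irr hφ
  have hφ1 : phi N σ 1 = 1 := phi_one N σ
  have hφinv : ∀ (g : liftGroup N σ) (m : M),
      phi N σ ⟨g * m * g⁻¹, hM.conj_mem (m : liftGroup N σ) m.2 g⟩ = phi N σ m :=
    fun g m => phi_conj N σ g m _
  let πM : M →* N := (proj N σ).subgroupComap N
  have hπM : Function.Surjective πM :=
    MonoidHom.subgroupComap_surjective_of_surjective _ _ hsurj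
  have hprod_eq : (fun m : M => phi N σ m * η m) = fun m : M => σ.character (πM m) := by
    funext m
    exact phi_mul_eta N σ m
  have hprod : IsIrrCharacter M (fun m : M => phi N σ m * η m) := by
    rw [hprod_eq]
    exact Ops.isIrrCharacter_comp_surjective πM hπM ⟨d, σ, hσ, rfl⟩
  obtain ⟨-, -, hG3⟩ := Cfsg.Agent.Lib.Helper78.Gallagher.gallagher_core M hM (phi N σ) hφ hφinv
    η hη hprod
  let χt : liftGroup N σ → ℂ := fun γ => χ (proj N σ γ)
  have hχt : IsIrrCharacter (liftGroup N σ) χt :=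
    Ops.isIrrCharacter_comp_surjective (proj N σ) hsurj hχ
  have hχtM : (fun m : M => χt m) = (e : ℂ) • (fun m : M => phi N σ m * η m) := by
    rw [hprod_eq]
    funext m
    exact hres (πM m)
  have hinner : classInner (indFun M (fun m : M => phi N σ m * η m)) χt ≠ 0 := by
    rw [FrobRec.frobenius_reciprocity M _ χt (char_isClassFunction (isCharacter_of_irr hχt)),
      hχtM, Clifford.classInner_conj_symm, Orth.classInner_smul_left]
    have h1 := irr_orthonormal (⟨_, hprod⟩ : IrrCharacter M) ⟨_, hprod⟩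
    rw [if_pos rfl] at h1
    rw [h1]
    simpa using he'
  obtain ⟨β, hβ1, hβ2⟩ := hG3 ⟨χt, hχt⟩ hinner
  have hβcf : IsClassFunction (liftGroup N σ) (β : liftGroup N σ → ℂ) :=
    char_isClassFunction (isCharacter_of_irr β.2)
  have hβM : classInner (fun m : M => (β : liftGroup N σ → ℂ) m) (phi N σ) ≠ 0 := by
    rw [FrobRec.frobenius_reciprocity M _ _ hβcf, Clifford.classInner_conj_symm] at hβ1
    intro h0
    apply hβ1
    rw [h0, map_zero]
  have hcl := Clifford.clifford M hM (β : liftGroup N σ → ℂ) β.2 (phi N σ) hφ hβM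
  have hconj : {ξ : M → ℂ | ∃ t : liftGroup N σ, ξ = fun m : M =>
      phi N σ ⟨t * m * t⁻¹, hM.conj_mem m m.2 t⟩} = {phi N σ} := by
    ext ξ
    simp only [Set.mem_ofPred_eq, Set.mem_singleton_iff]
    constructor
    · rintro ⟨t, rfl⟩
      funext m
      exact hφinv t m
    · rintro rfl
      refine ⟨1, ?_⟩
      funext m
      exact (hφinv 1 m).symm
  rw [hconj, finsum_mem_singleton] at hcl
  have hβ_one : (β : liftGroup N σ → ℂ) 1 =
      classInner (fun m : M => (β : liftGroup N σ → ℂ) m) (phi N σ) := by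
    have h2 := congrFun hcl 1
    simp only [Pi.smul_apply, smul_eq_mul] at h2
    rw [hφ1, mul_one] at h2
    exact h2
  have hβres : ∀ m : M, (β : liftGroup N σ → ℂ) m = (β : liftGroup N σ → ℂ) 1 * phi N σ m := by
    intro m
    have h2 := congrFun hcl m
    simp only [Pi.smul_apply, smul_eq_mul] at h2
    rw [hβ_one]
    exact h2
  obtain ⟨k, hk0, hk⟩ := irr_exists_apply_one_pos β.2
  have hke : k = e := by
    have h1 : ((β : liftGroup N σ → ℂ) * η) 1 = χt 1 := congrFun hβ2 1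
    have h2 : χt 1 = (e : ℂ) * d := by
      show χ (proj N σ 1) = _
      rw [map_one]
      have h3 := hres 1
      rw [Representation.char_one, Module.finrank_fin_fun] at h3
      exact h3
    rw [Pi.mul_apply, hk, hη1, h2] at h1
    exact_mod_cast mul_right_cancel₀ hd' h1
  let ν : liftGroup N σ → ℂ := fun g => if h : g ∈ M then phi N σ ⟨g, h⟩ else 0
  have hν : ∀ m : M, ν m = phi N σ m := by
    intro m
    show (if h : (m : liftGroup N σ) ∈ M then phi N σ ⟨m, h⟩ else 0) = _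
    rw [dif_pos m.2]
  have hνfun : (fun m : M => ν m) = phi N σ := funext hν
  refine hP (liftGroup N σ) (proj N σ) η (β : liftGroup N σ → ℂ) ν hsurj hη β.2 ?_ ?_ ?_ ?_ ?_ ?_
  · rw [hνfun]
    exact hφchar
  · have := hν 1
    rw [hφ1] at this
    exact this
  · intro m
    rw [hν m]
    exact phi_mul_eta N σ m
  · intro g
    exact congrFun hβ2 g
  · intro m
    rw [hν m]
    exact hβres m
  · rw [hk, hke]

end Lift


section Bound

variable {X : Type u} [Group X] [Fintype X]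

/-- Induction as a linear map. -/
noncomputable def indLin (H : Subgroup X) : (H → ℂ) →ₗ[ℂ] (X → ℂ) where
  toFun := fun θ => indFun H θ
  map_add' := fun a b => indFun_add H a b
  map_smul' := fun c a => indFun_smul H c a

theorem indLin_apply (H : Subgroup X) (θ : H → ℂ) : indLin H θ = indFun H θ := rfl

theorem exists_constituent {Φ : X → ℂ} (hΦ : IsCharacter X Φ) (h1 : Φ 1 ≠ 0) :
    ∃ β : IrrCharacter X, classInner Φ β.1 ≠ 0 := by
  classical
  haveI : Finite (IrrCharacter X) := finite_irrCharacter X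
  haveI : Fintype (IrrCharacter X) := Fintype.ofFinite _
  obtain ⟨m, hm, hexp⟩ := exists_mult_sum hΦ
  by_contra hh
  push Not at hh
  apply h1
  rw [hexp]
  have : ∀ β : IrrCharacter X, m β = 0 := by
    intro β
    have h2 := hm β
    rw [hh β] at h2
    exact_mod_cast h2.symm
  simp [Finset.sum_apply, this]

theorem sum_normSq_irr {η : X → ℂ} (hη : IsIrrCharacter X η) :
    ∑ k : X, ‖η k‖ ^ 2 = (Nat.card X : ℝ) := by
  have h := Cfsg.Agent.S0890.sum_norm_irr hη
  have h2 : ((∑ m : X, ‖η m‖ ^ 2 : ℝ) : ℂ) = (Nat.card X : ℂ) := by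
    rw [← h]
    push_cast
    apply Finset.sum_congr rfl
    intro m _
    rw [Complex.mul_conj']
  exact_mod_cast h2

theorem inner_aux (φ₀ ν a b : X → ℂ) (hφ₀ : IsIrrCharacter X φ₀)
    (hν : ∀ y, ν y * conj (ν y) = 1) (p q : ℂ) (ha : ∀ y, a y = p * φ₀ y)
    (hb : ∀ y, b y = q * (φ₀ y * conj (ν y))) (hq : conj q = q) :
    classInner (fun y => a y * conj (b y)) ν = p * q := by
  have h1 := inner_self_eq_one_of_irr hφ₀
  unfold classInner at h1 ⊢
  have h2 : ∀ y : X, a y * conj (b y) * conj (ν y) = p * q * (φ₀ y * conj (φ₀ y)) := by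
    intro y
    rw [ha, hb, map_mul, map_mul, Complex.conj_conj, hq]
    have := hν y
    linear_combination (p * φ₀ y * q * conj (φ₀ y)) * this
  rw [Finset.sum_congr rfl (fun y _ => h2 y), ← Finset.mul_sum, mul_left_comm, h1, mul_one]

open Classical in
/-- The norm of an irreducible character over a non-normal subgroup `A` is strictly smaller than
it is over `A K`, if the character is irreducible on the normal subgroup `K`. -/
theorem bound (Kt Ht Lt At : Subgroup X) [hKn : Kt.Normal]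
    (hHK : Ht ⊔ Kt = ⊤) (hLK : Lt ≤ Kt) (hAH : At ≤ Ht)
    (hHA : ∀ h ∈ Ht, ∀ a ∈ At, h * a * h⁻¹ ∈ At)
    (hcore : ∀ N : Subgroup X, N.Normal → N ≤ Ht → N ≤ Lt)
    (hAK : ¬ At ≤ Kt)
    (ζ : X → ℂ) (hζ : IsCharacter X ζ) (hζK : IsIrrCharacter Kt (fun k : Kt => ζ k)) :
    ∑ a : At, ‖ζ a‖ ^ 2 < (Nat.card (At ⊔ Kt : Subgroup X) : ℝ) := by
  set M : Subgroup X := At ⊔ Kt with hM
  have hKM : Kt ≤ M := le_sup_right
  have hAM : At ≤ M := le_sup_left
  have hζcf := char_isClassFunction hζ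
  have hζM : IsIrrCharacter M (fun m : M => ζ m) :=
    Cfsg.Agent.S0890.irr_of_comp_irr (Subgroup.inclusion hKM) (isCharacter_restrict M hζ) hζK
  have hsumM : ∑ g : X, (if g ∈ M then ‖ζ g‖ ^ 2 else 0) = (Nat.card M : ℝ) := by
    rw [Cfsg.Agent.S0890.sum_ite_mem_real M (fun g => ‖ζ g‖ ^ 2)]
    exact sum_normSq_irr hζM
  have hsumK : ∑ g : X, (if g ∈ Kt then ‖ζ g‖ ^ 2 else 0) = (Nat.card Kt : ℝ) := by
    rw [Cfsg.Agent.S0890.sum_ite_mem_real Kt (fun g => ‖ζ g‖ ^ 2)]
    exact sum_normSq_irr hζK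
  have hlt : Nat.card Kt < Nat.card M := by
    by_contra hh
    push Not at hh
    have := Subgroup.eq_of_le_of_card_ge hKM hh
    exact hAK (this ▸ hAM)
  have hex : ∃ g₀, g₀ ∈ M ∧ g₀ ∉ Kt ∧ ζ g₀ ≠ 0 := by
    by_contra hh
    push Not at hh
    have h1 : ∑ g : X, (if g ∈ M then ‖ζ g‖ ^ 2 else 0) =
        ∑ g : X, (if g ∈ Kt then ‖ζ g‖ ^ 2 else 0) := by
      apply Finset.sum_congr rfl
      intro g _
      by_cases hgK : g ∈ Kt
      · rw [if_pos hgK, if_pos (hKM hgK)]
      · rw [if_neg hgK]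
        by_cases hgM : g ∈ M
        · rw [if_pos hgM, hh g hgM hgK]
          simp
        · rw [if_neg hgM]
    rw [hsumM, hsumK] at h1
    have h2 : Nat.card M = Nat.card Kt := by exact_mod_cast h1
    omega
  obtain ⟨g₀, hg₀M, hg₀K, hg₀ζ⟩ := hex
  have hx₀ : ∃ x₀ ∈ Kt, x₀⁻¹ * g₀ * x₀ ∉ At := by
    by_contra hh
    push Not at hh
    apply hg₀K
    apply hLK
    apply hcore At.normalCore (Subgroup.normalCore_normal At)
      ((Subgroup.normalCore_le At).trans hAH)
    show ∀ b : X, b * g₀ * b⁻¹ ∈ At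
    intro y
    obtain ⟨h, hh', k, hk, rfl⟩ := Cfsg.Agent.S0890.mem_sup_normal Ht Kt y
      (by rw [hHK]; exact Subgroup.mem_top y)
    have h1 := hh k⁻¹ (Kt.inv_mem hk)
    rw [inv_inv] at h1
    have h2 := hHA h hh' _ h1
    have h3 : h * k * g₀ * (h * k)⁻¹ = h * (k * g₀ * k⁻¹) * h⁻¹ := by group
    rw [h3]
    exact h2
  obtain ⟨x₀, hx₀K, hx₀⟩ := hx₀
  have hL : ∀ x : X, ∑ g : X, (if x⁻¹ * g * x ∈ At then ‖ζ g‖ ^ 2 else 0) =
      ∑ a : At, ‖ζ a‖ ^ 2 := by
    intro x
    rw [← Cfsg.Agent.S0890.sum_ite_mem_real At (fun g => ‖ζ g‖ ^ 2)]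
    apply Fintype.sum_equiv (MulAut.conj x⁻¹).toEquiv
    intro g
    show _ = if x⁻¹ * g * x⁻¹⁻¹ ∈ At then ‖ζ (x⁻¹ * g * x⁻¹⁻¹)‖ ^ 2 else 0
    rw [hζcf g x⁻¹, inv_inv]
  have hle : ∀ x : Kt, ∀ g : X, (if (x : X)⁻¹ * g * x ∈ At then ‖ζ g‖ ^ 2 else 0) ≤
      (if g ∈ M then ‖ζ g‖ ^ 2 else 0) := by
    intro x g
    by_cases h : (x : X)⁻¹ * g * x ∈ At
    · have hgM : g ∈ M := by
        have h1 : g = x * ((x : X)⁻¹ * g * x) * (x : X)⁻¹ := by group
        rw [h1]
        exact M.mul_mem (M.mul_mem (hKM x.2) (hAM h)) (M.inv_mem (hKM x.2))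
      rw [if_pos h, if_pos hgM]
    · rw [if_neg h]
      split_ifs
      · positivity
      · exact le_refl _
  have hmain : ∑ x : Kt, ∑ g : X, (if (x : X)⁻¹ * g * x ∈ At then ‖ζ g‖ ^ 2 else 0) <
      ∑ x : Kt, ∑ g : X, (if g ∈ M then ‖ζ g‖ ^ 2 else 0) := by
    apply Finset.sum_lt_sum
    · intro x _
      exact Finset.sum_le_sum (fun g _ => hle x g)
    · refine ⟨⟨x₀, hx₀K⟩, Finset.mem_univ _, ?_⟩
      apply Finset.sum_lt_sum
      · intro g _
        exact hle _ g
      · refine ⟨g₀, Finset.mem_univ _, ?_⟩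
        rw [if_neg hx₀, if_pos hg₀M]
        have : 0 < ‖ζ g₀‖ := norm_pos_iff.mpr hg₀ζ
        positivity
  have hL' : ∑ x : Kt, ∑ g : X, (if (x : X)⁻¹ * g * x ∈ At then ‖ζ g‖ ^ 2 else 0) =
      ∑ x : Kt, ∑ a : At, ‖ζ a‖ ^ 2 := Finset.sum_congr rfl (fun x _ => hL (x : X))
  rw [hL', Finset.sum_const, Finset.sum_const, hsumM] at hmain
  simp only [Finset.card_univ, nsmul_eq_mul] at hmain
  have hpos : (0 : ℝ) < Fintype.card Kt := by exact_mod_cast Fintype.card_pos
  exact lt_of_mul_lt_mul_left hmain hpos.le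

end Bound


section QP

variable {Γ : Type u} [Group Γ] [Fintype Γ]

/-- Quasi-primitivity descends to the supplement `Ht` of `Kt` for the factor `γ` of `χ = γ ζ`. -/
theorem qp_restrict (Kt Ht : Subgroup Γ) [hKn : Kt.Normal] (hHK : Ht ⊔ Kt = ⊤)
    (ζ γ ν : Γ → ℂ) (hζ : IsCharacter Γ ζ) (hζK : IsIrrCharacter Kt (fun k : Kt => ζ k))
    (hγ : IsIrrCharacter Γ γ)
    (hν : IsCharacter Kt (fun k : Kt => ν k)) (hν1 : ν 1 = 1)
    (hprod : IsIrrCharacter Kt (fun k : Kt => ν k * ζ k))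
    (hγK : ∀ k ∈ Kt, γ k = γ 1 * ν k)
    (hqp : ∀ M : Subgroup Γ, M.Normal → Kt ≤ M →
      ∃ (ξ : M → ℂ) (f : ℕ), IsIrrCharacter M ξ ∧ (fun m : M => γ m * ζ m) = (f : ℂ) • ξ)
    (Nh : Subgroup Ht) [hNn : Nh.Normal] :
    ∃ (ξ : Nh → ℂ) (m : ℕ), IsIrrCharacter Nh ξ ∧
      (fun n : Nh => γ ((n : Ht) : Γ)) = (m : ℂ) • ξ := by
  classical
  obtain ⟨e, he0, he⟩ := irr_exists_apply_one_pos hγ
  have he' : (e : ℂ) ≠ 0 := Nat.cast_ne_zero.mpr he0.ne'
  have hγchar := isCharacter_of_irr hγ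
  have hγcf := char_isClassFunction hγchar
  set N : Subgroup Γ := Nh.map Ht.subtype with hN
  have hHN : ∀ h ∈ Ht, ∀ a ∈ N, h * a * h⁻¹ ∈ N := by
    intro h hh a ha
    obtain ⟨a', ha', rfl⟩ := ha
    exact ⟨⟨h, hh⟩ * a' * ⟨h, hh⟩⁻¹, hNn.conj_mem a' ha' _, by simp⟩
  set MN : Subgroup Γ := N ⊔ Kt with hMN
  have hMNn : MN.Normal := Cfsg.Agent.S0890.sup_normal Ht Kt N hHK hHN
  have hKM : Kt ≤ MN := le_sup_right
  have hNM : N ≤ MN := le_sup_left
  obtain ⟨ξt, f, hξt, hχM⟩ := hqp MN hMNn hKM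
  set Kh : Subgroup MN := Kt.subgroupOf MN with hKh
  have hKhn : Kh.Normal := inferInstance
  let eK : Kh ≃* Kt := Subgroup.subgroupOfEquivOfLe hKM
  let νh : Kh → ℂ := fun k => ν ((k : MN) : Γ)
  have hνhchar : IsCharacter Kh νh := isCharacter_comp_hom eK.toMonoidHom hν
  have hνh1 : νh 1 = 1 := hν1
  have hνh : IsIrrCharacter Kh νh := LinChar.isIrrCharacter_of_linear hνhchar hνh1
  have hνhinv : ∀ (g : MN) (n : Kh), νh ⟨g * n * g⁻¹, hKhn.conj_mem (n : MN) n.2 g⟩ = νh n := by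
    intro g n
    have hn : ((n : MN) : Γ) ∈ Kt := n.2
    have hgn : ((g * n * g⁻¹ : MN) : Γ) ∈ Kt := hKhn.conj_mem (n : MN) n.2 g
    have h1 := hγK _ hgn
    have h2 := hγK _ hn
    have h3 : γ ((g * n * g⁻¹ : MN) : Γ) = γ ((n : MN) : Γ) := by
      have h4 : ((g * n * g⁻¹ : MN) : Γ) = (g : Γ) * ((n : MN) : Γ) * (g : Γ)⁻¹ := by simp
      rw [h4]
      exact hγcf _ _
    rw [h1, h2, he] at h3
    exact mul_left_cancel₀ he' h3
  let ζM : MN → ℂ := fun m => ζ m
  have hζMchar : IsCharacter MN ζM := isCharacter_restrict MN hζ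
  have hζM : IsIrrCharacter MN ζM :=
    Cfsg.Agent.S0890.irr_of_comp_irr (Subgroup.inclusion hKM) hζMchar hζK
  have hprodh : IsIrrCharacter Kh (fun n : Kh => νh n * ζM n) :=
    isIrrCharacter_comp_mulEquiv eK hprod
  obtain ⟨hG1, hG2, -⟩ := Cfsg.Agent.Lib.Helper78.Gallagher.gallagher_core Kh hKhn νh hνh
    hνhinv ζM hζM hprodh
  let γM : MN → ℂ := fun m => γ m
  have hγMchar : IsCharacter MN γM := isCharacter_restrict MN hγchar
  have hγM1 : γM 1 ≠ 0 := by
    show γ 1 ≠ 0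
    rw [he]
    exact he'
  have hover : ∀ β : IrrCharacter MN, classInner γM β.1 ≠ 0 →
      ∀ k : Kh, β.1 k = β.1 1 * νh k := by
    intro β hβ k
    have h1 := constituent_restrict Kh.subtype hγMchar β.2 hβ hνh (e : ℂ) (fun y => by
      show γ ((y : MN) : Γ) = e * ν ((y : MN) : Γ)
      have h0 := hγK ((y : MN) : Γ) y.2
      rw [h0, he])
    have h2 := h1 k
    rw [hνh1, mul_one] at h2
    exact h2
  have hover2 : ∀ β : IrrCharacter MN, classInner γM β.1 ≠ 0 →
      classInner (indFun Kh νh) β.1 ≠ 0 := by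
    intro β hβ
    rw [frobenius_reciprocity Kh νh β.1 (char_isClassFunction (isCharacter_of_irr β.2))]
    have h1 : (fun h : Kh => β.1 h) = (β.1 1) • νh := by
      funext k
      simp [hover β hβ k]
    rw [h1, Cfsg.Agent.Lib.Helper26.GenChar.classInner_smul_right, inner_self_eq_one_of_irr hνh,
      mul_one]
    intro h0
    exact irr_apply_one_ne_zero β.2 ((map_eq_zero _).mp h0)
  let Tm : (MN → ℂ) →ₗ[ℂ] (MN → ℂ) := LinearMap.mulRight ℂ ζM
  have hTm : ∀ F : MN → ℂ, Tm F = F * ζM := fun F => rfl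
  have hχM' : Tm γM = (f : ℂ) • ξt := by
    rw [hTm, ← hχM]
    rfl
  have hkey : ∀ β : IrrCharacter MN, classInner γM β.1 ≠ 0 → β.1 * ζM = ξt := by
    intro β hβ
    obtain ⟨hirr, -⟩ := hG1 β (hover2 β hβ)
    have h1 : classInner (Tm γM) (Tm β.1) ≠ 0 :=
      map_constituent Tm (fun τ hτ => by
        rw [hTm]
        exact isCharacter_mul (isCharacter_of_irr hτ) hζMchar) hγMchar β.2 hβ (by
        rw [hTm]
        exact irr_apply_one_ne_zero hirr)
    rw [hχM', classInner_smul_left, hTm] at h1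
    have h2 := irr_orthonormal (⟨ξt, hξt⟩ : IrrCharacter MN) ⟨β.1 * ζM, hirr⟩
    by_contra hne
    rw [if_neg (fun h => hne (congrArg Subtype.val h).symm)] at h2
    apply h1
    simp only at h2
    rw [h2, mul_zero]
  obtain ⟨β₀, m, hm0, hγMeq⟩ := exists_smul_of_unique_constituent hγMchar hγM1
    (fun τ τ' hτ hτ' => hG2 τ τ' (hover2 τ hτ) (hover2 τ' hτ')
      ((hkey τ hτ).trans (hkey τ' hτ').symm))
  have hβ₀con : classInner γM β₀.1 ≠ 0 := by
    rw [hγMeq, classInner_smul_left, inner_self_eq_one_of_irr β₀.2, mul_one]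
    exact Nat.cast_ne_zero.mpr hm0
  let fN : Nh →* MN := (Ht.subtype.comp Nh.subtype).codRestrict MN
    (fun n => hNM (Subgroup.mem_map_of_mem Ht.subtype n.2))
  refine ⟨fun n => β₀.1 (fN n), m, ?_, ?_⟩
  · apply irr_comp_of_scalar fN Kh ?_ β₀.2 ?_
    · intro g
      obtain ⟨a, ha, k, hk, hak⟩ := Cfsg.Agent.S0890.mem_sup_normal N Kt (g : Γ) g.2
      obtain ⟨a', ha', rfl⟩ := ha
      refine ⟨⟨a', ha'⟩, ⟨k, hKM hk⟩, hk, ?_⟩
      apply Subtype.ext
      exact hak.symm
    · intro k hk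
      have h1 := hover β₀ hβ₀con ⟨k, hk⟩
      obtain ⟨d, hd0, hd⟩ := irr_exists_apply_one_pos β₀.2
      have h2 : β₀.1 k = β₀.1 1 * νh ⟨k, hk⟩ := h1
      rw [h2, norm_mul, LinChar.linear_norm hνhchar hνh1, mul_one, hd]
      simp
  · funext n
    exact congrFun hγMeq (fN n)

end QP


section Core

variable {Γ : Type u} [Group Γ] [Fintype Γ]

/-- The homogeneous case is impossible. -/
theorem hom_contra (Kt Ht Lt At : Subgroup Γ) [hKn : Kt.Normal] [hLn : Lt.Normal]
    (hHK : Ht ⊔ Kt = ⊤) (hHKL : Ht ⊓ Kt = Lt) (hLA : Lt ≤ At) (hAH : At ≤ Ht)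
    (hHA : ∀ h ∈ Ht, ∀ a ∈ At, h * a * h⁻¹ ∈ At)
    (hcore : ∀ N : Subgroup Γ, N.Normal → N ≤ Ht → N ≤ Lt)
    (hAL : ¬ At ≤ Lt)
    (hcop : Nat.Coprime (Lt.relIndex At) (Lt.relIndex Kt))
    (ζ : Γ → ℂ) (hζ : IsCharacter Γ ζ) (hζK : IsIrrCharacter Kt (fun k : Kt => ζ k))
    (φ' : Lt → ℂ) (hφ' : IsIrrCharacter Lt φ') (c' : ℂ) (hζL : ∀ l : Lt, ζ l = c' * φ' l)
    (e e₀ dζ dφ : ℕ) (he : 0 < e) (hdζ0 : 0 < dζ) (hdφ : φ' 1 = dφ) (hdζ : ζ 1 = dζ)
    (h1 : e * dζ = e₀ * dφ) (h2 : e₀ ^ 2 = Lt.relIndex Kt * e ^ 2)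
    (ω₀ : At → ℂ) (hω₀ : IsIrrCharacter At ω₀) (c₀ : ℕ) (hζA : ∀ a : At, ζ a = c₀ * ω₀ a) :
    False := by
  classical
  have hLK : Lt ≤ Kt := hHKL ▸ inf_le_right
  have hAK : ¬ At ≤ Kt := fun h => hAL (hHKL ▸ le_inf hAH h)
  obtain ⟨dω, hdω0, hdω⟩ := irr_exists_apply_one_pos hω₀
  have hdφ0 : 0 < dφ := by
    obtain ⟨d, hd0, hd⟩ := irr_exists_apply_one_pos hφ'
    rw [hdφ] at hd
    have : dφ = d := by exact_mod_cast hd
    omega
  have hdφ' : (dφ : ℂ) ≠ 0 := Nat.cast_ne_zero.mpr hdφ0.ne'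
  let jA : Lt →* At := Subgroup.inclusion hLA
  have hA1 : (dζ : ℂ) = c₀ * dω := by
    have := hζA 1
    rw [hdω] at this
    rw [← hdζ]
    exact this
  have hA1nat : dζ = c₀ * dω := by exact_mod_cast hA1
  have hc₀0 : c₀ ≠ 0 := by
    rintro rfl
    simp at hA1nat
    omega
  have hζAchar : IsCharacter At (fun a : At => ζ a) := isCharacter_restrict At hζ
  have hconA : classInner (fun a : At => ζ a) ω₀ ≠ 0 := by
    have : (fun a : At => ζ a) = (c₀ : ℂ) • ω₀ := funext hζA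
    rw [this, classInner_smul_left, inner_self_eq_one_of_irr hω₀, mul_one]
    exact Nat.cast_ne_zero.mpr hc₀0
  have hres := constituent_restrict jA hζAchar hω₀ hconA hφ' c' (fun y => hζL y)
  obtain ⟨s', hs'⟩ := classInner_char_nat (isCharacter_comp_hom jA (isCharacter_of_irr hω₀))
    (isCharacter_of_irr hφ')
  have hs'2 : (dω : ℂ) = s' * dφ := by
    have h3 : (fun y => ω₀ (jA y)) = ((dω : ℂ) / dφ) • φ' := by
      funext y
      have := hres y
      rw [hdφ, hdω] at this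
      simp only [Pi.smul_apply, smul_eq_mul]
      field_simp
      linear_combination this
    rw [h3, classInner_smul_left, inner_self_eq_one_of_irr hφ', mul_one] at hs'
    field_simp at hs'
    rw [hs']
    ring
  have hs'nat : dω = s' * dφ := by exact_mod_cast hs'2
  have hω₀L : ∀ y : Lt, ω₀ (jA y) = s' * φ' y := by
    intro y
    have := hres y
    rw [hdφ, hdω, hs'2] at this
    apply mul_right_cancel₀ hdφ'
    linear_combination this
  have hs'0 : s' ≠ 0 := by
    rintro rfl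
    simp at hs'nat
    omega
  have hdvd : s' ∣ Lt.relIndex At := by
    let eL : Lt.subgroupOf At ≃* Lt := Subgroup.subgroupOfEquivOfLe hLA
    exact Cfsg.Agent.Lib.Helper78.ProjLift.dvd_index_of_restrict_eq (Lt.subgroupOf At) ω₀ hω₀
      (fun n => φ' (eL n)) (isIrrCharacter_comp_mulEquiv eL hφ') s' hs'0 (fun n => hω₀L (eL n))
  have h3 : c₀ * s' * e = e₀ := by
    have h6 : (c₀ * s' * e) * dφ = e₀ * dφ := by
      rw [← h1, hA1nat, hs'nat]
      ring
    exact Nat.eq_of_mul_eq_mul_right hdφ0 h6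
  have h4 : (c₀ * s') ^ 2 = Lt.relIndex Kt := by
    rw [← h3] at h2
    have h5 : (c₀ * s') ^ 2 * e ^ 2 = Lt.relIndex Kt * e ^ 2 := by
      rw [← h2]
      ring
    exact Nat.eq_of_mul_eq_mul_right (by positivity) h5
  have hs'1 : s' = 1 := by
    have hd2 : s' ∣ Lt.relIndex Kt := by
      rw [← h4]
      exact Dvd.intro (s' * c₀ ^ 2) (by ring)
    exact (hcop.coprime_dvd_left hdvd).eq_one_of_dvd hd2
  have hc₀ : c₀ ^ 2 = Lt.relIndex Kt := by
    rw [← h4, hs'1]
    ring
  have hS : ∑ a : At, ‖ζ a‖ ^ 2 = (c₀ : ℝ) ^ 2 * Nat.card At := by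
    rw [← sum_normSq_irr hω₀, Finset.mul_sum]
    apply Finset.sum_congr rfl
    intro a _
    rw [hζA a, norm_mul, mul_pow]
    simp
  have hB := bound Kt Ht Lt At hHK hLK hAH hHA hcore hAK ζ hζ hζK
  have hcard : Nat.card (At ⊔ Kt : Subgroup Γ) = Lt.relIndex Kt * Nat.card At := by
    have hinf : At ⊓ Kt = Lt := le_antisymm (hHKL ▸ inf_le_inf_right Kt hAH) (le_inf hLA hLK)
    have e1 := Cfsg.Agent.S0890.card_mul_relIndex' (le_sup_right : Kt ≤ At ⊔ Kt)
    rw [Subgroup.relIndex_sup_right, ← Subgroup.inf_relIndex_left, hinf] at e1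
    have e2 := Cfsg.Agent.S0890.card_mul_relIndex' hLA
    have e3 := Cfsg.Agent.S0890.card_mul_relIndex' hLK
    rw [← e1, ← e2, ← e3]
    ring
  rw [hS, hcard] at hB
  have h5 : (c₀ : ℝ) ^ 2 = Lt.relIndex Kt := by exact_mod_cast hc₀
  rw [h5] at hB
  push_cast at hB
  exact lt_irrefl _ hB

end Core


section Main

/-- The quotient of a subgroup `M ≥ N` by `N` is solvable when `G ⧸ N` is. -/
theorem solvable_sub {G : Type*} [Group G] (N M : Subgroup G) [N.Normal]
    (hsolv : Group.IsSolvable (G ⧸ N)) : Group.IsSolvable (M ⧸ N.subgroupOf M) := by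
  have hle : N.subgroupOf M ≤ Subgroup.comap M.subtype N := fun x hx => hx
  have hf : Function.Injective
      (QuotientGroup.map (N.subgroupOf M) N M.subtype hle : M ⧸ N.subgroupOf M →* G ⧸ N) := by
    rw [← MonoidHom.ker_eq_bot_iff, QuotientGroup.ker_map]
    exact QuotientGroup.map_mk'_self (N.subgroupOf M)
  exact Group.isSolvable_of_isSolvable_injective hf

/-- The quotient by the preimage of a normal subgroup with solvable quotient is solvable. -/
theorem solvable_comap {G : Type*} {G' : Type*} [Group G] [Group G'] (π : G' →* G)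
    (N : Subgroup G) [N.Normal] (hsolv : Group.IsSolvable (G ⧸ N)) :
    Group.IsSolvable (G' ⧸ N.comap π) := by
  have hf : Function.Injective
      (QuotientGroup.map (N.comap π) N π le_rfl : G' ⧸ N.comap π →* G ⧸ N) := by
    rw [← MonoidHom.ker_eq_bot_iff, QuotientGroup.ker_map]
    exact QuotientGroup.map_mk'_self (N.comap π)
  exact Group.isSolvable_of_isSolvable_injective hf

theorem indFun_congr_subgroup {G : Type u} [Group G] [Fintype G] {U U' : Subgroup G}
    (h : U' = U) (ψ : U → ℂ) (ψ' : U' → ℂ) (hψ : ∀ t : U', ψ' t = ψ ⟨t, h ▸ t.2⟩) :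
    indFun U' ψ' = indFun U ψ := by
  subst h
  congr 1
  funext t
  exact hψ t

/-- A character induced from `U ≤ H` is induced from `H`. -/
theorem exists_ind_of_le {G : Type u} [Group G] [Fintype G] (U H : Subgroup G) (hUH : U ≤ H)
    (ψ : U → ℂ) (hψ : IsCharacter U ψ) :
    ∃ ϑ : H → ℂ, IsCharacter H ϑ ∧ indFun H ϑ = indFun U ψ := by
  classical
  let T : Subgroup H := U.subgroupOf H
  let eU : T ≃* U := Subgroup.subgroupOfEquivOfLe hUH
  let ψ' : T → ℂ := fun t => ψ (eU t)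
  have hψ' : IsCharacter T ψ' := isCharacter_comp_hom eU.toMonoidHom hψ
  refine ⟨indFun T ψ', IndChar.isCharacter_indFun T ψ' hψ', ?_⟩
  rw [Cfsg.Agent.Lib.Helper3.MGroup.indFun_trans H T ψ']
  apply indFun_congr_subgroup (Subgroup.map_subgroupOf_eq_of_le hUH)
  intro t
  show ψ (eU ((T.equivMapOfInjective H.subtype H.subtype_injective).symm t)) = ψ ⟨t, _⟩
  congr 1
  apply Subtype.ext
  have h1 : ((T.equivMapOfInjective H.subtype H.subtype_injective)
      ((T.equivMapOfInjective H.subtype H.subtype_injective).symm t) : G) = t := by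
    rw [MulEquiv.apply_symm_apply]
  rw [Subgroup.coe_equivMapOfInjective_apply] at h1
  exact h1

/-- The statement of Berger's theorem relative to a normal subgroup of index at most `n`. -/
def BergerAt (n : ℕ) : Prop :=
  ∀ (G : Type u) [Group G] [Fintype G] (L : Subgroup G) [L.Normal], L.index ≤ n →
    Group.IsSolvable (G ⧸ L) → ∀ χ : G → ℂ, IsIrrCharacter G χ →
    (∀ M : Subgroup G, M.Normal → L ≤ M →
      ∃ (ξ : M → ℂ) (e : ℕ), IsIrrCharacter M ξ ∧ (fun m : M => χ m) = (e : ℂ) • ξ) →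
    ∀ U : Subgroup G, L ≤ U → U ≠ ⊤ → ∀ ψ : U → ℂ, IsCharacter U ψ → indFun U ψ ≠ χ

variable {Γ : Type u} [Group Γ] [Fintype Γ]

set_option maxHeartbeats 1600000 in
/-- The induction step in the lifted situation. -/
theorem core (n : ℕ) (IH : BergerAt.{u} n) (Kt Ht Lt At : Subgroup Γ) [hKn : Kt.Normal]
    [hLn : Lt.Normal]
    (hHK : Ht ⊔ Kt = ⊤) (hHKL : Ht ⊓ Kt = Lt) (hLA : Lt ≤ At) (hAH : At ≤ Ht)
    (hHA : ∀ h ∈ Ht, ∀ a ∈ At, h * a * h⁻¹ ∈ At)
    (hcore : ∀ N : Subgroup Γ, N.Normal → N ≤ Ht → N ≤ Lt)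
    (hAL : ¬ At ≤ Lt)
    (hcop : Nat.Coprime (Lt.relIndex At) (Lt.relIndex Kt))
    (hsolv : Group.IsSolvable (Γ ⧸ Lt)) (hidx : Lt.relIndex Ht ≤ n)
    (χt : Γ → ℂ) (hχt : IsIrrCharacter Γ χt)
    (hqp : ∀ M : Subgroup Γ, M.Normal → Lt ≤ M →
      ∃ (ξ : M → ℂ) (f : ℕ), IsIrrCharacter M ξ ∧ (fun m : M => χt m) = (f : ℂ) • ξ)
    (ϑt : Ht → ℂ) (hϑt : IsIrrCharacter Ht ϑt) (hind : indFun Ht ϑt = χt)
    (ζ γ ν : Γ → ℂ) (hζ : IsIrrCharacter Γ ζ) (hγ : IsIrrCharacter Γ γ)
    (hν : IsCharacter Kt (fun k : Kt => ν k)) (hν1 : ν 1 = 1)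
    (hprod : IsIrrCharacter Kt (fun k : Kt => ν k * ζ k))
    (hγζ : ∀ g : Γ, γ g * ζ g = χt g)
    (hγK : ∀ k ∈ Kt, γ k = γ 1 * ν k) : False := by
  classical
  have hLH : Lt ≤ Ht := hHKL ▸ inf_le_left
  have hLK : Lt ≤ Kt := hHKL ▸ inf_le_right
  have hζchar := isCharacter_of_irr hζ
  have hγchar := isCharacter_of_irr hγ
  have hχtchar := isCharacter_of_irr hχt
  have hχtcf := char_isClassFunction hχtchar
  have hϑtchar := isCharacter_of_irr hϑt
  obtain ⟨e, he0, he⟩ := irr_exists_apply_one_pos hγ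
  obtain ⟨dζ, hdζ0, hdζ⟩ := irr_exists_apply_one_pos hζ
  obtain ⟨dϑ, hdϑ0, hdϑ⟩ := irr_exists_apply_one_pos hϑt
  have he' : (e : ℂ) ≠ 0 := Nat.cast_ne_zero.mpr he0.ne'
  have hνnorm : ∀ k ∈ Kt, ν k * conj (ν k) = 1 := by
    intro k hk
    have h1 := LinChar.linear_norm hν hν1 ⟨k, hk⟩
    simp only at h1
    rw [Complex.mul_conj', h1]
    simp
  have hνconj : IsCharacter Kt (fun k : Kt => conj (ν k)) := isCharacter_conj hν
  have hζK : IsIrrCharacter Kt (fun k : Kt => ζ k) := by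
    have h1 := LinChar.isIrrCharacter_mul_linear hprod hνconj (by simp [hν1])
    have h2 : ((fun k : Kt => ν k * ζ k) * fun k : Kt => conj (ν k)) = fun k : Kt => ζ k := by
      funext k
      simp only [Pi.mul_apply]
      have := hνnorm k k.2
      linear_combination (ζ k) * this
    rwa [h2] at h1
  have hχK : ∀ k : Kt, χt k = e * (ν k * ζ k) := by
    intro k
    rw [← hγζ, hγK k k.2, he]
    ring
  obtain ⟨φ₀, e₀, hφ₀, hχL⟩ := hqp Lt hLn le_rfl
  have hχL' : ∀ l : Lt, χt l = e₀ * φ₀ l := fun l => congrFun hχL l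
  obtain ⟨dφ, hdφ0, hdφ⟩ := irr_exists_apply_one_pos hφ₀
  have hvan : ∀ k ∈ Kt, k ∉ Lt → χt k = 0 := by
    intro k hk hkL
    rw [← hind]
    apply indFun_eq_zero_of_forall_not_mem
    intro x hx
    apply hkL
    have h1 : x⁻¹ * k * x ∈ Lt := by
      rw [← hHKL]
      refine ⟨hx, ?_⟩
      have := hKn.conj_mem k hk x⁻¹
      rwa [inv_inv] at this
    have h2 := hLn.conj_mem _ h1 x
    have h3 : x * (x⁻¹ * k * x) * x⁻¹ = k := by group
    rwa [h3] at h2
  have hsumK : ∑ k : Kt, χt k * conj (χt k) = (e : ℂ) ^ 2 * Nat.card Kt := by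
    rw [← Cfsg.Agent.S0890.sum_norm_irr hprod, Finset.mul_sum]
    apply Finset.sum_congr rfl
    intro k _
    rw [hχK k, map_mul, Complex.conj_natCast]
    ring
  have hsumL : ∑ l : Lt, χt l * conj (χt l) = (e₀ : ℂ) ^ 2 * Nat.card Lt := by
    rw [← Cfsg.Agent.S0890.sum_norm_irr hφ₀, Finset.mul_sum]
    apply Finset.sum_congr rfl
    intro l _
    rw [hχL' l, map_mul, Complex.conj_natCast]
    ring
  have hsumKL : ∑ k : Kt, χt k * conj (χt k) = ∑ l : Lt, χt l * conj (χt l) := by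
    rw [← Cfsg.Agent.S0890.sum_ite_mem Kt (fun g => χt g * conj (χt g)),
      ← Cfsg.Agent.S0890.sum_ite_mem Lt (fun g => χt g * conj (χt g))]
    apply Finset.sum_congr rfl
    intro g _
    by_cases hgL : g ∈ Lt
    · rw [if_pos hgL, if_pos (hLK hgL)]
    · rw [if_neg hgL]
      by_cases hgK : g ∈ Kt
      · rw [if_pos hgK, hvan g hgK hgL]
        simp
      · rw [if_neg hgK]
  set Hidx := Lt.relIndex Kt with hHidx
  have hcardK : Nat.card Lt * Hidx = Nat.card Kt := Cfsg.Agent.S0890.card_mul_relIndex' hLK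
  have hE5 : e₀ ^ 2 = Hidx * e ^ 2 := by
    rw [hsumK, hsumL, ← hcardK] at hsumKL
    have hL0 : Nat.card Lt ≠ 0 := Nat.card_pos.ne'
    have h1 : e ^ 2 * (Nat.card Lt * Hidx) = e₀ ^ 2 * Nat.card Lt := by exact_mod_cast hsumKL
    have h2 : (Hidx * e ^ 2) * Nat.card Lt = e₀ ^ 2 * Nat.card Lt := by
      rw [← h1]
      ring
    exact (Nat.eq_of_mul_eq_mul_right (Nat.pos_of_ne_zero hL0) h2).symm
  have hHidx2 : Ht.index = Hidx := by
    have e1 := Subgroup.card_mul_index Kt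
    have e2 := Subgroup.card_mul_index Ht
    have e3 : Kt.index = Lt.relIndex Ht := by
      rw [← Subgroup.relIndex_top_right, ← hHK, Subgroup.relIndex_sup_right,
        ← Subgroup.inf_relIndex_left, hHKL]
    have e4 := Cfsg.Agent.S0890.card_mul_relIndex' hLH
    have e5 : (Nat.card Lt * Lt.relIndex Ht) * Ht.index =
        (Nat.card Lt * Lt.relIndex Ht) * Hidx := by
      calc (Nat.card Lt * Lt.relIndex Ht) * Ht.index = Nat.card Γ := by rw [e4, e2]
        _ = Nat.card Kt * Lt.relIndex Ht := by rw [← e1, e3]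
        _ = (Nat.card Lt * Lt.relIndex Ht) * Hidx := by rw [← hcardK]; ring
    exact Nat.eq_of_mul_eq_mul_left (by rw [e4]; exact Nat.card_pos) e5
  have hHidx0 : 0 < Hidx := by
    rw [← hHidx2]
    exact Nat.pos_of_ne_zero Subgroup.index_ne_zero_of_finite
  have hχ1a : χt 1 = (e : ℂ) * dζ := by rw [← hγζ, he, hdζ]
  have hχ1b : χt 1 = (e₀ : ℂ) * dφ := by
    have := hχL' 1
    rw [hdφ] at this
    exact this
  have hχ1c : χt 1 = (Hidx : ℂ) * dϑ := by rw [← hind, indFun_one, hHidx2, hdϑ]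
  have hD1 : e * dζ = e₀ * dφ := by exact_mod_cast hχ1a.symm.trans hχ1b
  have hD2 : e * dζ = Hidx * dϑ := by exact_mod_cast hχ1a.symm.trans hχ1c
  have hD3 : dζ ^ 2 = Hidx * dφ ^ 2 := by
    have h1 : e ^ 2 * dζ ^ 2 = e ^ 2 * (Hidx * dφ ^ 2) := by
      calc e ^ 2 * dζ ^ 2 = (e * dζ) ^ 2 := by ring
        _ = (e₀ * dφ) ^ 2 := by rw [hD1]
        _ = e₀ ^ 2 * dφ ^ 2 := by ring
        _ = e ^ 2 * (Hidx * dφ ^ 2) := by rw [hE5]; ring
    exact Nat.eq_of_mul_eq_mul_left (by positivity) h1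
  -- the factor `γ` on `Ht`
  let γ₁ : Ht → ℂ := fun h => γ h
  have hγ₁ : IsIrrCharacter Ht γ₁ := by
    apply irr_comp_of_scalar Ht.subtype Kt ?_ hγ ?_
    · intro g
      obtain ⟨a, ha, k, hk, hak⟩ := Cfsg.Agent.S0890.mem_sup_normal Ht Kt g
        (by rw [hHK]; exact Subgroup.mem_top g)
      exact ⟨⟨a, ha⟩, k, hk, hak.symm⟩
    · intro k hk
      rw [hγK k hk, norm_mul, LinChar.linear_norm hν hν1 ⟨k, hk⟩, mul_one, he]
      simp
  have hγ₁char := isCharacter_of_irr hγ₁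
  have hγ₁1 : γ₁ 1 = e := he
  let Ψ : Ht → ℂ := fun h => ζ h
  have hΨchar : IsCharacter Ht Ψ := isCharacter_restrict Ht hζchar
  have hΨ1 : Ψ 1 = dζ := hdζ
  have hχH : (fun h : Ht => χt h) = fun h => Ψ h * γ₁ h := by
    funext h
    rw [← hγζ]
    exact mul_comm _ _
  have hF4 : classInner (fun h : Ht => Ψ h * γ₁ h) ϑt = 1 := by
    rw [← hχH, ← frobenius_reciprocity' Ht ϑt χt hχtcf, hind, inner_self_eq_one_of_irr hχt]
  let jL : Lt →* Ht := Subgroup.inclusion hLH
  let νL : Lt → ℂ := fun l => ν l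
  have hνLchar : IsCharacter Lt νL := isCharacter_comp_hom (Subgroup.inclusion hLK) hν
  have hνL1 : νL 1 = 1 := hν1
  have hνL : IsIrrCharacter Lt νL := LinChar.isIrrCharacter_of_linear hνLchar hνL1
  let φ' : Lt → ℂ := fun l => φ₀ l * conj (ν l)
  have hφ' : IsIrrCharacter Lt φ' :=
    LinChar.isIrrCharacter_mul_linear hφ₀ (isCharacter_conj hνLchar) (by simp [hν1])
  have hφ'1 : φ' 1 = dφ := by
    show φ₀ 1 * conj (ν ((1 : Lt) : Γ)) = dφ
    rw [hdφ]
    simp [hν1]
  let c' : ℂ := (e₀ : ℂ) / e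
  have hζL : ∀ l : Lt, ζ l = c' * φ' l := by
    intro l
    have h1 := hχL' l
    rw [← hγζ, hγK l (hLK l.2), he] at h1
    have h2 := hνnorm l (hLK l.2)
    show ζ l = (e₀ : ℂ) / e * (φ₀ l * conj (ν l))
    field_simp
    linear_combination (conj (ν (l : Γ))) * h1 - (e * ζ l) * h2
  have hconϑ : classInner (fun h : Ht => χt h) ϑt ≠ 0 := by
    rw [hχH, hF4]
    exact one_ne_zero
  have hϑL := constituent_restrict jL (isCharacter_restrict Ht hχtchar) hϑt hconϑ hφ₀ (e₀ : ℂ)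
    (fun y => hχL' y)
  have hdφ' : (dφ : ℂ) ≠ 0 := Nat.cast_ne_zero.mpr hdφ0.ne'
  have hϑL' : ∀ y : Lt, ϑt (jL y) = ((dϑ : ℂ) / dφ) * φ₀ y := by
    intro y
    have := hϑL y
    rw [hdφ, hdϑ] at this
    field_simp
    linear_combination this
  have hΨirr : IsIrrCharacter Ht Ψ := by
    let Tm : (Ht → ℂ) →ₗ[ℂ] (Ht → ℂ) := LinearMap.mulRight ℂ γ₁
    have hTm : ∀ F : Ht → ℂ, Tm F = F * γ₁ := fun F => rfl
    have h0 : classInner (Tm Ψ) ϑt ≠ 0 := by
      rw [hTm]
      have : Ψ * γ₁ = fun h : Ht => Ψ h * γ₁ h := rfl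
      rw [this, hF4]
      exact one_ne_zero
    obtain ⟨Ψ₁, hΨ₁con, hΨ₁⟩ := exists_constituent_of_map Tm hΨchar ϑt h0
    rw [hTm] at hΨ₁
    obtain ⟨dΨ, hdΨ0, hdΨ⟩ := irr_exists_apply_one_pos Ψ₁.2
    have hΨ₁char := isCharacter_of_irr Ψ₁.2
    let Φ₁ : Ht → ℂ := fun h => ϑt h * conj (Ψ₁.1 h)
    have hΦ₁char : IsCharacter Ht Φ₁ := isCharacter_mul hϑtchar (isCharacter_conj hΨ₁char)
    have hΦ₁con : classInner Φ₁ γ₁ ≠ 0 := by
      show classInner (fun h => ϑt h * conj (Ψ₁.1 h)) γ₁ ≠ 0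
      rw [classInner_mul_conj_swap]
      intro h
      exact hΨ₁ ((map_eq_zero _).mp h)
    have hΨ₁L := constituent_restrict jL hΨchar Ψ₁.2 hΨ₁con hφ' c' (fun y => hζL y)
    have hΨ₁L' : ∀ y : Lt, Ψ₁.1 (jL y) = ((dΨ : ℂ) / dφ) * (φ₀ y * conj (νL y)) := by
      intro y
      have := hΨ₁L y
      rw [hφ'1, hdΨ] at this
      field_simp
      linear_combination this
    have hres : classInner (fun y => Φ₁ (jL y)) νL = ((dϑ : ℂ) / dφ) * ((dΨ : ℂ) / dφ) :=
      inner_aux φ₀ νL (fun y => ϑt (jL y)) (fun y => Ψ₁.1 (jL y)) hφ₀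
        (fun y => hνnorm y (hLK y.2)) _ _ hϑL' hΨ₁L' (by simp)
    obtain ⟨N, d, hN, hd, hdN⟩ := degree_le_of_constituent jL hΦ₁char hγ₁ hΦ₁con hνL
      (fun y => hγK y (hLK y.2)) _ hres
    have hde : d = e := by
      have : (d : ℂ) = e := by rw [← hd, hγ₁1]
      exact_mod_cast this
    have hN' : N * dφ ^ 2 = dϑ * dΨ := by
      have : (N : ℂ) * dφ ^ 2 = dϑ * dΨ := by
        rw [← hN]
        field_simp
      exact_mod_cast this
    have hle : dζ ≤ dΨ := by
      have h1 : e * dφ ^ 2 * Hidx ≤ N * dφ ^ 2 * Hidx := by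
        rw [hde] at hdN
        gcongr
      have h2 : N * dφ ^ 2 * Hidx = e * dζ * dΨ := by
        rw [hN', hD2]
        ring
      have h3 : e * (dζ * dζ) ≤ e * (dζ * dΨ) := by
        calc e * (dζ * dζ) = e * dφ ^ 2 * Hidx := by rw [← sq, hD3]; ring
          _ ≤ N * dφ ^ 2 * Hidx := h1
          _ = e * (dζ * dΨ) := by rw [h2]; ring
      have h4 := Nat.le_of_mul_le_mul_left h3 he0
      exact Nat.le_of_mul_le_mul_left h4 hdζ0
    have h5 := eq_of_constituent_of_degree_le hΨchar Ψ₁.2 hΨ₁con (by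
      rw [hΨ1, hdΨ]
      simp only [Complex.natCast_re]
      exact_mod_cast hle)
    rw [h5]
    exact Ψ₁.2
  -- Clifford theory with respect to `At`
  set Ah : Subgroup Ht := At.subgroupOf Ht with hAh
  have hAhn : Ah.Normal := ⟨fun a ha h => by
    show ((h * a * h⁻¹ : Ht) : Γ) ∈ At
    have := hHA h h.2 a ha
    simpa using this⟩
  let ΨA : Ah → ℂ := fun a => Ψ a
  have hΨAchar : IsCharacter Ah ΨA := isCharacter_restrict Ah hΨchar
  have hΨA1 : ΨA 1 ≠ 0 := by
    show ζ (1 : Γ) ≠ 0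
    exact irr_apply_one_ne_zero hζ
  obtain ⟨ω₀, hω₀con⟩ := exists_constituent hΨAchar hΨA1
  let T : Subgroup Ht := Cfsg.Agent.Lib.Helper78.CliffordCorr.inertia Ah hAhn ω₀.1
  have hT : ∀ g : Ht, g ∈ T ↔
      ∀ n : Ah, ω₀.1 ⟨g * n * g⁻¹, hAhn.conj_mem (n : Ht) n.2 g⟩ = ω₀.1 n := fun g =>
    Cfsg.Agent.Lib.Helper78.CliffordCorr.mem_inertia Ah hAhn ω₀.1 g
  have hAT : Ah ≤ T := Cfsg.Agent.Lib.Helper78.CliffordCorr.le_inertia Ah hAhn
    (char_isClassFunction (isCharacter_of_irr ω₀.2))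
  by_cases hTtop : T = ⊤
  · have hinv : ∀ (g : Ht) (n : Ah),
        ω₀.1 ⟨g * n * g⁻¹, hAhn.conj_mem (n : Ht) n.2 g⟩ = ω₀.1 n := fun g =>
      (hT g).mp (hTtop ▸ Subgroup.mem_top g)
    have hcl := Clifford.clifford Ah hAhn Ψ hΨirr ω₀.1 ω₀.2 hω₀con
    have hconj : {ξ : Ah → ℂ | ∃ t : Ht, ξ = fun m : Ah =>
        ω₀.1 ⟨t * m * t⁻¹, hAhn.conj_mem m m.2 t⟩} = {ω₀.1} := by
      ext ξ
      simp only [Set.mem_ofPred_eq, Set.mem_singleton_iff]
      constructor
      · rintro ⟨t, rfl⟩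
        funext m
        exact hinv t m
      · rintro rfl
        refine ⟨1, ?_⟩
        funext m
        exact (hinv 1 m).symm
    rw [hconj, finsum_mem_singleton] at hcl
    obtain ⟨c₀, hc₀⟩ := classInner_char_nat hΨAchar (isCharacter_of_irr ω₀.2)
    let eA : Ah ≃* At := Subgroup.subgroupOfEquivOfLe hAH
    apply hom_contra Kt Ht Lt At hHK hHKL hLA hAH hHA hcore hAL hcop ζ hζchar hζK φ' hφ' c' hζL
      e e₀ dζ dφ he0 hdζ0 hφ'1 hdζ hD1 hE5 (fun a => ω₀.1 (eA.symm a))
      (isIrrCharacter_comp_mulEquiv eA.symm ω₀.2) c₀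
    intro a
    have h1 := congrFun hcl (eA.symm a)
    simp only [Pi.smul_apply, smul_eq_mul] at h1
    have h2 : classInner (fun n : Ah => Ψ n) ω₀.1 = c₀ := hc₀
    rw [h2] at h1
    exact h1
  · have hωex := Cfsg.Agent.Lib.Helper78.CliffordCorr.clifford_corr Ah hAhn ω₀.1 ω₀.2 T hT hAT
      Ψ hΨirr hω₀con
    obtain ⟨ω, cω, hω, hωind, -⟩ := hωex
    let jT : Lt →* T := jL.codRestrict T (fun l => hAT (hLA l.2))
    have hωchar := isCharacter_of_irr hω
    let Xc : T → ℂ := fun t => conj (ω t) * ϑt t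
    have hXchar : IsCharacter T Xc :=
      isCharacter_mul (isCharacter_conj hωchar) (isCharacter_restrict T hϑtchar)
    have hXind : indFun T Xc = fun h => ϑt h * conj (Ψ h) := by
      have h1 := indFun_mul_classFunction T (fun t => conj (ω t)) ϑt
        (char_isClassFunction hϑtchar)
      rw [indFun_conj, hωind] at h1
      show indFun T (fun t : T => conj (ω t) * ϑt t) = _
      rw [h1]
      funext h
      simp only [Pi.mul_apply]
      exact mul_comm _ _
    have hXcon : classInner (indLin T Xc) γ₁ ≠ 0 := by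
      rw [indLin_apply, hXind, classInner_mul_conj_swap, hF4]
      simp
    obtain ⟨δ, hδX, hδγ⟩ := exists_constituent_of_map (indLin T) hXchar γ₁ hXcon
    rw [indLin_apply] at hδγ
    have hδchar := isCharacter_of_irr δ.2
    have hγ₁cf := char_isClassFunction hγ₁char
    have hconδ : classInner (fun t : T => γ₁ t) δ.1 ≠ 0 := by
      rw [frobenius_reciprocity T δ.1 γ₁ hγ₁cf] at hδγ
      rw [classInner_conj_symm]
      intro h
      exact hδγ ((map_eq_zero _).mp h)
    have hδL := constituent_restrict jT (isCharacter_restrict T hγ₁char) δ.2 hconδ hνL (e : ℂ)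
      (fun y => by
        show γ (y : Γ) = e * ν y
        rw [hγK y (hLK y.2), he])
    have hδL' : ∀ y : Lt, δ.1 (jT y) = δ.1 1 * νL y := by
      intro y
      have := hδL y
      rwa [hνL1, mul_one] at this
    have hΨcf := char_isClassFunction hΨchar
    have hconω : classInner (fun t : T => Ψ t) ω ≠ 0 := by
      rw [← frobenius_reciprocity' T ω Ψ hΨcf, hωind, inner_self_eq_one_of_irr hΨirr]
      exact one_ne_zero
    have hωL := constituent_restrict jT (isCharacter_restrict T hΨchar) hω hconω hφ' c'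
      (fun y => hζL y)
    obtain ⟨dω, hdω0, hdω⟩ := irr_exists_apply_one_pos hω
    have hωL' : ∀ y : Lt, ω (jT y) = ((dω : ℂ) / dφ) * (φ₀ y * conj (νL y)) := by
      intro y
      have := hωL y
      rw [hφ'1, hdω] at this
      field_simp
      linear_combination this
    have hres : classInner (fun y => Xc (jT y)) νL = ((dϑ : ℂ) / dφ) * ((dω : ℂ) / dφ) := by
      have h1 := inner_aux φ₀ νL (fun y => ϑt (jL y)) (fun y => ω (jT y)) hφ₀
        (fun y => hνnorm y (hLK y.2)) _ _ hϑL' hωL' (by simp)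
      rw [← h1]
      congr 1
      funext y
      exact mul_comm _ _
    obtain ⟨N, d, hN, hd, hdN⟩ := degree_le_of_constituent jT hXchar δ.2 hδX hνL hδL' _ hres
    have hN' : N * dφ ^ 2 = dϑ * dω := by
      have : (N : ℂ) * dφ ^ 2 = dϑ * dω := by
        rw [← hN]
        field_simp
      exact_mod_cast this
    have hI4 : dζ = T.index * dω := by
      have h1 := indFun_one T ω
      rw [hωind, hΨ1, hdω] at h1
      exact_mod_cast h1
    have hI5 : d * T.index ≤ e := by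
      have h1 : d * T.index * (dφ ^ 2 * Hidx) ≤ e * (dφ ^ 2 * Hidx) := by
        calc d * T.index * (dφ ^ 2 * Hidx) ≤ N * T.index * (dφ ^ 2 * Hidx) := by gcongr
          _ = (N * dφ ^ 2) * T.index * Hidx := by ring
          _ = dϑ * dω * T.index * Hidx := by rw [hN']
          _ = (Hidx * dϑ) * (T.index * dω) := by ring
          _ = (e * dζ) * dζ := by rw [← hD2, ← hI4]
          _ = e * dζ ^ 2 := by ring
          _ = e * (dφ ^ 2 * Hidx) := by rw [hD3]; ring
      exact Nat.le_of_mul_le_mul_right h1 (by positivity)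
    have hI6 : indFun T δ.1 = γ₁ := by
      apply eq_of_constituent_of_degree_le (IndChar.isCharacter_indFun T δ.1 hδchar) hγ₁ hδγ
      rw [indFun_one, hd, hγ₁1]
      have h1 : ((T.index : ℂ) * d).re = ((d * T.index : ℕ) : ℝ) := by
        push_cast
        simp [mul_comm]
      rw [h1, Complex.natCast_re]
      exact_mod_cast hI5
    set Lh : Subgroup Ht := Lt.subgroupOf Ht with hLh
    have hLhn : Lh.Normal := inferInstance
    have hLhT : Lh ≤ T := fun x hx => hAT (hLA hx)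
    have hsolvH : Group.IsSolvable (Ht ⧸ Lh) := solvable_sub Lt Ht hsolv
    have hqpH : ∀ M : Subgroup Ht, M.Normal → Lh ≤ M →
        ∃ (ξ : M → ℂ) (f : ℕ), IsIrrCharacter M ξ ∧ (fun m : M => γ₁ m) = (f : ℂ) • ξ := by
      intro M hMn _
      haveI := hMn
      exact qp_restrict Kt Ht hHK ζ γ ν hζchar hζK hγ hν hν1 hprod hγK (fun M' hM'n hKM' => by
        obtain ⟨ξ, f, hξ, hf⟩ := hqp M' hM'n (hLK.trans hKM')
        refine ⟨ξ, f, hξ, ?_⟩
        rw [← hf]
        funext m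
        exact hγζ m) M
    exact IH Ht Lh hidx hsolvH γ₁ hγ₁ hqpH T hLhT hTtop δ.1 hδchar hI6

set_option maxHeartbeats 1600000 in
/-- Berger's theorem relative to a normal subgroup with solvable quotient. -/
theorem main : ∀ n : ℕ, BergerAt.{u} n := by
  intro n
  induction n with
  | zero =>
    intro G _ _ L _ hidx
    exact absurd (Nat.le_zero.mp hidx) Subgroup.index_ne_zero_of_finite
  | succ n IH =>
    intro G _ _ L hLn hidx hsolv χ hχ hqp U hLU hU ψ hψ hind
    classical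
    obtain ⟨H, hHmax, hUH⟩ := (eq_top_or_exists_le_coatom U).resolve_left hU
    obtain ⟨ϑ, hϑchar, hϑind⟩ := exists_ind_of_le U H hUH ψ hψ
    rw [hind] at hϑind
    have hϑ : IsIrrCharacter H ϑ := irr_of_indFun_irr H hϑchar (hϑind ▸ hχ)
    have hLH : L ≤ H := hLU.trans hUH
    set L' := H.normalCore with hL'
    have hL'n : L'.Normal := Subgroup.normalCore_normal H
    have hLL' : L ≤ L' := (Subgroup.normal_le_normalCore).mpr hLH
    have hL'H : L' ≤ H := Subgroup.normalCore_le H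
    have hsolv' : Group.IsSolvable (G ⧸ L') := by
      have hle : L ≤ L'.comap (MonoidHom.id G) := hLL'
      have := hsolv
      exact Group.isSolvable_of_surjective (f := QuotientGroup.map L L' (MonoidHom.id G) hle) (by
        intro x
        obtain ⟨g, rfl⟩ := QuotientGroup.mk_surjective x
        exact ⟨QuotientGroup.mk g, rfl⟩)
    have hcoreG : ∀ N : Subgroup G, N.Normal → N ≤ H → N ≤ L' := fun N hN h =>
      (Subgroup.normal_le_normalCore (hN := hN)).mpr h
    by_cases hHL : L' = H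
    · have hHn : H.Normal := hHL ▸ hL'n
      obtain ⟨φ, e, hφ, hres⟩ := hqp H hHn hLH
      have h1 := frobenius_reciprocity' H ϑ χ (char_isClassFunction (isCharacter_of_irr hχ))
      rw [hϑind, inner_self_eq_one_of_irr hχ, hres, classInner_smul_left] at h1
      have h2 := irr_orthonormal (⟨φ, hφ⟩ : IrrCharacter H) ⟨ϑ, hϑ⟩
      simp only at h2
      by_cases h3 : (⟨φ, hφ⟩ : IrrCharacter H) = ⟨ϑ, hϑ⟩
      · rw [h2, if_pos h3, mul_one] at h1
        have hφϑ : φ = ϑ := congrArg Subtype.val h3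
        have h4 := congrFun hres 1
        simp only [Pi.smul_apply, smul_eq_mul] at h4
        rw [← h1, one_mul, hφϑ, OneMemClass.coe_one, ← hϑind, indFun_one] at h4
        have h5 : (H.index : ℂ) = 1 := by
          have := irr_apply_one_ne_zero hϑ
          exact mul_right_cancel₀ this (by rw [h4, one_mul])
        have h6 : H.index = 1 := by exact_mod_cast h5
        exact hHmax.1 (Subgroup.index_eq_one.mp h6)
      · rw [h2, if_neg h3, mul_zero] at h1
        exact one_ne_zero h1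
    · obtain ⟨K, A, hKn, hHK, hHKL, hLA, hAH, hHA, hAn, hcop⟩ :=
        Cfsg.Agent.S0890.gt L' H hL'H hHmax hsolv' hcoreG hHL
      haveI := hKn
      have hL'K : L' ≤ K := hHKL ▸ inf_le_right
      obtain ⟨η, e, hη, hχK⟩ := hqp K hKn (hLL'.trans hL'K)
      have he0 : e ≠ 0 := by
        rintro rfl
        have h1 := congrFun hχK 1
        simp only [Pi.smul_apply, smul_eq_mul, Nat.cast_zero, zero_mul, OneMemClass.coe_one] at h1
        exact irr_apply_one_ne_zero hχ h1
      apply exists_lift K χ hχ η hη e he0 (fun n => congrFun hχK n)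
      intro Γ _ _ π ζ γ ν hπ hζ hγ hν hν1 hνζ hγζ hγK hγ1
      haveI : (K.comap π).Normal := inferInstance
      haveI : (L'.comap π).Normal := inferInstance
      apply core n IH (K.comap π) (H.comap π) (L'.comap π) (A.comap π)
        (χt := fun g => χ (π g)) (ϑt := fun h => ϑ ⟨π h, h.2⟩) (ζ := ζ) (γ := γ) (ν := ν)
      · rw [Subgroup.comap_sup_eq π H K hπ, hHK, Subgroup.comap_top]
      · rw [← Subgroup.comap_inf, hHKL]
      · exact Subgroup.comap_mono hLA
      · exact Subgroup.comap_mono hAH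
      · intro h hh a ha
        show π (h * a * h⁻¹) ∈ A
        rw [map_mul, map_mul, map_inv]
        exact hHA _ hh _ ha
      · intro N hN hNH
        have h1 : (N.map π).Normal := hN.map π hπ
        have h2 : N.map π ≤ H := by
          rw [Subgroup.map_le_iff_le_comap]
          exact hNH
        have h3 := hcoreG _ h1 h2
        exact Subgroup.map_le_iff_le_comap.mp h3
      · intro h
        have h1 : A ≤ L' := by
          have := Subgroup.map_mono h (f := π)
          rwa [Subgroup.map_comap_eq_self_of_surjective hπ,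
            Subgroup.map_comap_eq_self_of_surjective hπ] at this
        exact hAn (le_antisymm h1 hLA ▸ hL'n)
      · rw [Subgroup.relIndex_comap, Subgroup.relIndex_comap,
          Subgroup.map_comap_eq_self_of_surjective hπ,
          Subgroup.map_comap_eq_self_of_surjective hπ]
        exact hcop
      · exact solvable_comap π L' hsolv'
      · rw [Subgroup.relIndex_comap, Subgroup.map_comap_eq_self_of_surjective hπ]
        have h1 := Subgroup.relIndex_mul_index hL'H
        have h2 : L'.index ≤ n + 1 := (Nat.le_of_dvd (Nat.pos_of_ne_zero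
          Subgroup.index_ne_zero_of_finite) (Subgroup.index_dvd_of_le hLL')).trans hidx
        have h3 : H.index ≠ 1 := fun h => hHmax.1 (Subgroup.index_eq_one.mp h)
        have h4 : H.index ≠ 0 := Subgroup.index_ne_zero_of_finite
        have h5 : 2 ≤ H.index := by omega
        have h6 : L'.relIndex H * 2 ≤ L'.index := by
          rw [← h1]
          exact Nat.mul_le_mul_left _ h5
        have h7 : L'.index ≠ 0 := Subgroup.index_ne_zero_of_finite
        omega
      · exact isIrrCharacter_comp_surjective π hπ hχ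
      · intro M hMn hLM
        have h1 : (M.map π).Normal := hMn.map π hπ
        have h2 : L' ≤ M.map π := by
          have := Subgroup.map_mono hLM (f := π)
          rwa [Subgroup.map_comap_eq_self_of_surjective hπ] at this
        obtain ⟨ξ, f, hξ, hf⟩ := hqp (M.map π) h1 (hLL'.trans h2)
        refine ⟨fun m => ξ (π.subgroupMap M m), f,
          isIrrCharacter_comp_surjective _ (π.subgroupMap_surjective M) hξ, ?_⟩
        funext m
        exact congrFun hf (π.subgroupMap M m)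
      · exact isIrrCharacter_comp_surjective (π.subgroupComap H)
          (π.subgroupComap_surjective_of_surjective H hπ) hϑ
      · rw [indFun_comap π hπ H ϑ, hϑind]
      · exact hζ
      · exact hγ
      · exact hν
      · exact hν1
      · have h1 : (fun k : K.comap π => ν k * ζ k) = fun k => η (π.subgroupComap K k) :=
          funext hνζ
        rw [h1]
        exact isIrrCharacter_comp_surjective _ (π.subgroupComap_surjective_of_surjective K hπ) hη
      · exact hγζ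
      · intro k hk
        exact hγK ⟨k, hk⟩

end Main

end Cfsg.Agent.Lib.Helper15.Berger
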