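import Mathlib
import Cfsg.Agent.Lib.Helper15.Berger
import Cfsg.Agent.Lib.Helper15.CosetAvg

/-!
Character-theoretic core of the Broline–Garrison theorem: if `X = M B` with `B` in the kernel of
the irreducible character `χ`, and some `m₀ ∈ M` with `χ m₀ ≠ 0` has a conjugate outside `M`,
then the character induced from `χ|M` has an irreducible constituent `ψ` of larger degree; its
kernel meets `M` inside the kernel of `χ` and does not supplement `M`.
-/

set_option autoImplicit false
set_option linter.style.haveILetI false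
set_option linter.unusedSectionVars false

namespace Cfsg.Agent.Lib.Helper15.BGChar

open Cfsg Cfsg.Agent.Lib.CT Cfsg.Agent.Lib.CT.Wedderburn Cfsg.Agent.Lib.CT.NormOne
  Cfsg.Agent.Lib.CT.Clifford Cfsg.Agent.Lib.CT.FrobRec Cfsg.Agent.Lib.CT.Ops
  Cfsg.Agent.Lib.CT.Orth Cfsg.Agent.Lib.Helper15.Berger
open scoped ComplexConjugate

universe u

variable {X : Type u} [Group X] [Fintype X]

/-- The kernel of a character lies in the kernel of each of its irreducible constituents. -/
theorem ker_constituent {Φ θ : X → ℂ} (hΦ : IsCharacter X Φ)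
    (hθ : IsIrrCharacter X θ) (hcon : classInner Φ θ ≠ 0) {d : X} (hd : Φ d = Φ 1) :
    θ d = θ 1 := by
  classical
  obtain ⟨N, hNn, hN⟩ := Kernel.exists_normal_ker hΦ
  haveI := hNn
  haveI : Fintype N := Fintype.ofFinite N
  have havg : CosetAvg.avg N Φ = Φ := by
    funext g
    rw [CosetAvg.avg_apply]
    have h1 : ∀ n : N, Φ (n * g) = Φ g := fun n =>
      Kernel.apply_mul_of_eq hΦ ((hN n).mp n.2) g
    simp_rw [h1]
    rw [Finset.sum_const, Finset.card_univ, nsmul_eq_mul, Nat.card_eq_fintype_card]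
    have : (Fintype.card N : ℂ) ≠ 0 := Nat.cast_ne_zero.mpr Fintype.card_ne_zero
    field_simp
  have h2 := CosetAvg.classInner_avg N Φ hθ
  rw [havg] at h2
  by_cases h : ∀ n : N, θ n = θ 1
  · exact h ⟨d, (hN d).mpr hd⟩
  · rw [if_neg h] at h2
    exact absurd h2 hcon

theorem classInner_ne_zero_symm {Y : Type u} [Group Y] [Fintype Y] {a b : Y → ℂ}
    (h : classInner a b ≠ 0) : classInner b a ≠ 0 := by
  intro h0
  apply h
  rw [classInner_conj_symm, h0, map_zero]

/-- The character lemma. -/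
theorem lemmaU (M B : Subgroup X)
    (hsup : ∀ g : X, ∃ m ∈ M, ∃ b ∈ B, g = m * b)
    {χ : X → ℂ} (hχ : IsIrrCharacter X χ) (hB : ∀ b ∈ B, χ b = χ 1)
    (m₀ : X) (hm₀ : m₀ ∈ M) (hχm₀ : χ m₀ ≠ 0) (x₀ : X) (hx₀ : x₀⁻¹ * m₀ * x₀ ∉ M) :
    ∃ ψ : X → ℂ, IsIrrCharacter X ψ ∧ (χ 1).re < (ψ 1).re ∧
      (∀ d ∈ M, ψ d = ψ 1 → χ d = χ 1) ∧
      (∀ N : Subgroup X, (∀ n ∈ N, ψ n = ψ 1) →
        ¬ (∀ g : X, ∃ m ∈ M, ∃ n ∈ N, g = m * n)) := by
  classical
  haveI : Fintype M := Fintype.ofFinite M
  haveI : Finite (IrrCharacter X) := finite_irrCharacter X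
  haveI : Fintype (IrrCharacter X) := Fintype.ofFinite _
  have hχc := isCharacter_of_irr hχ
  have hχM : IsIrrCharacter M (fun y : M => χ (M.subtype y)) := by
    refine irr_comp_of_scalar M.subtype B ?_ hχ (fun k hk => Kernel.norm_eq_of_eq hχc (hB k hk))
    intro g
    obtain ⟨m, hm, b, hb, rfl⟩ := hsup g
    exact ⟨⟨m, hm⟩, b, hb, rfl⟩
  set χM : M → ℂ := fun y : M => χ (M.subtype y) with hχMdef
  have hΘ : IsCharacter X (indFun M χM) :=
    IndChar.isCharacter_indFun M χM (isCharacter_of_irr hχM)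
  have hres : ∀ ψ : X → ℂ, IsClassFunction X ψ →
      classInner (indFun M χM) ψ = classInner χM (fun y : M => ψ y) :=
    fun ψ hψ => frobenius_reciprocity M χM ψ hψ
  have hχ1 : χ 1 ≠ 0 := irr_apply_one_ne_zero hχ
  have hex : ∃ ψ : IrrCharacter X, classInner (indFun M χM) ψ.1 ≠ 0 ∧
      (χ 1).re < (ψ.1 1).re := by
    by_contra hno
    push Not at hno
    have hkey : ∀ ψ : IrrCharacter X, classInner (indFun M χM) ψ.1 ≠ 0 →
        (fun y : M => ψ.1 y) = χM := by
      intro ψ hψ
      have hle := hno ψ hψ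
      have hψc := isCharacter_of_irr ψ.2
      have hcf := char_isClassFunction hψc
      have h1 : classInner χM (fun y : M => ψ.1 y) ≠ 0 := by
        rw [← hres ψ.1 hcf]; exact hψ
      have h2 : classInner (fun y : M => ψ.1 y) χM ≠ 0 := classInner_ne_zero_symm h1
      exact eq_of_constituent_of_degree_le (isCharacter_comp_hom M.subtype hψc) hχM h2
        (by simpa [hχMdef] using hle)
    obtain ⟨m, hm, hexp⟩ := exists_mult_sum hΘ
    have hval : ∀ g ∈ M, indFun M χM g = (∑ ψ : IrrCharacter X, (m ψ : ℂ)) * χ g := by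
      intro g hg
      conv_lhs => rw [hexp]
      rw [Finset.sum_apply, Finset.sum_mul]
      apply Finset.sum_congr rfl
      intro ψ _
      simp only [Pi.smul_apply, smul_eq_mul]
      by_cases h0 : classInner (indFun M χM) ψ.1 = 0
      · have : m ψ = 0 := by
          have := hm ψ
          rw [h0] at this
          exact_mod_cast this.symm
        rw [this]; simp
      · have h3 := hkey ψ h0
        have := congrFun h3 ⟨g, hg⟩
        simp only [hχMdef, Subgroup.coe_subtype] at this
        rw [this]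
    have e1 := hval 1 M.one_mem
    have e2 := hval m₀ hm₀
    rw [indFun_one] at e1
    have e3 : indFun M χM m₀ = (Nat.card M : ℂ)⁻¹ *
        ((Finset.univ.filter (fun x : X => x⁻¹ * m₀ * x ∈ M)).card : ℂ) * χ m₀ := by
      rw [indFun_apply]
      have : ∀ x : X, extendByZero M χM (x⁻¹ * m₀ * x) =
          if x⁻¹ * m₀ * x ∈ M then χ m₀ else 0 := by
        intro x
        split_ifs with h
        · rw [extendByZero_apply_of_mem M χM h]
          show χ (x⁻¹ * m₀ * x) = χ m₀
          have := char_isClassFunction hχc m₀ x⁻¹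
          simpa using this
        · exact extendByZero_apply_of_not_mem M χM h
      simp_rw [this]
      rw [Finset.sum_ite, Finset.sum_const_zero, add_zero, Finset.sum_const, nsmul_eq_mul]
      ring
    have hS : (∑ ψ : IrrCharacter X, (m ψ : ℂ)) = (M.index : ℂ) := by
      have : χM 1 = χ 1 := rfl
      rw [this] at e1
      exact (mul_right_cancel₀ hχ1 e1).symm
    rw [e3, hS] at e2
    have e4 := mul_right_cancel₀ hχm₀ e2
    have hM0 : (Nat.card M : ℂ) ≠ 0 := Nat.cast_ne_zero.mpr Nat.card_pos.ne'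
    have e5 : ((Finset.univ.filter (fun x : X => x⁻¹ * m₀ * x ∈ M)).card : ℂ) =
        ((Nat.card M * M.index : ℕ) : ℂ) := by
      push_cast
      field_simp at e4
      linear_combination e4
    have e6 : (Finset.univ.filter (fun x : X => x⁻¹ * m₀ * x ∈ M)).card = Nat.card X := by
      rw [← Subgroup.card_mul_index M]
      exact_mod_cast e5
    have e7 : (Finset.univ.filter (fun x : X => x⁻¹ * m₀ * x ∈ M)).card <
        (Finset.univ : Finset X).card := by
      apply Finset.card_lt_card
      rw [Finset.ssubset_iff_of_subset (Finset.filter_subset _ _)]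
      exact ⟨x₀, Finset.mem_univ _, fun h => hx₀ (Finset.mem_filter.mp h).2⟩
    rw [Finset.card_univ, ← Nat.card_eq_fintype_card] at e7
    omega
  obtain ⟨ψ, hψcon, hψdeg⟩ := hex
  have hψc := isCharacter_of_irr ψ.2
  have hcf := char_isClassFunction hψc
  have h1 : classInner χM (fun y : M => ψ.1 y) ≠ 0 := by
    rw [← hres ψ.1 hcf]; exact hψcon
  have h2 : classInner (fun y : M => ψ.1 y) χM ≠ 0 := classInner_ne_zero_symm h1
  refine ⟨ψ.1, ψ.2, hψdeg, ?_, ?_⟩
  · intro d hd hψd
    have := ker_constituent (isCharacter_comp_hom M.subtype hψc) hχM h2 (d := ⟨d, hd⟩) hψd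
    exact this
  · intro N hN hsupN
    have hψM : IsIrrCharacter M (fun y : M => ψ.1 (M.subtype y)) := by
      refine irr_comp_of_scalar M.subtype N ?_ ψ.2
        (fun k hk => Kernel.norm_eq_of_eq hψc (hN k hk))
      intro g
      obtain ⟨m, hm, b, hb, rfl⟩ := hsupN g
      exact ⟨⟨m, hm⟩, b, hb, rfl⟩
    have h3 := irr_orthonormal (⟨χM, hχM⟩ : IrrCharacter M) ⟨_, hψM⟩
    by_cases h4 : (⟨χM, hχM⟩ : IrrCharacter M) = ⟨_, hψM⟩
    · have h5 := congrArg (fun f : IrrCharacter M => f.1 1) h4
      simp only [hχMdef, Subgroup.coe_subtype, OneMemClass.coe_one] at h5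
      rw [h5] at hψdeg
      exact lt_irrefl _ hψdeg
    · rw [if_neg h4] at h3
      exact h1 h3

end Cfsg.Agent.Lib.Helper15.BGChar
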