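import Mathlib
import Cfsg.Agent.Lib.Helper15.BGChar
import Cfsg.Agent.Lib.Helper64.MinNonClosed
import Cfsg.Agent.Lib.Helper71.Fitting
import Cfsg.Agent.Lib.Helper63.PFrattini
import Cfsg.Agent.S0584
import Cfsg.Agent.S0585
import Cfsg.Agent.S0070
import Cfsg.Agent.S0547

/-!
The Broline–Garrison theorem: an irreducible character `χ` whose kernel `K` is not nilpotent, or
equals the Fitting subgroup with `G/K` solvable and nontrivial, is dominated by an irreducible
character of larger degree and strictly smaller kernel.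
-/

set_option autoImplicit false
set_option linter.style.haveILetI false
set_option linter.unusedSectionVars false

namespace Cfsg.Agent.Lib.Helper15.BGMain

open Cfsg Cfsg.Agent.Lib.CT Cfsg.Agent.Lib.CT.Wedderburn Cfsg.Agent.Lib.CT.NormOne
  Cfsg.Agent.Lib.CT.Clifford Cfsg.Agent.Lib.CT.FrobRec Cfsg.Agent.Lib.CT.Ops
  Cfsg.Agent.Lib.CT.Orth Cfsg.Agent.Lib.Helper15.Berger Cfsg.Agent.Lib.Helper15.BGChar
open scoped ComplexConjugate

universe u

/-- The conclusion of the Broline–Garrison theorem. -/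
def Goal (G : Type u) [Group G] (χ : G → ℂ) (K : Subgroup G) : Prop :=
  ∃ ψ : G → ℂ, IsIrrCharacter G ψ ∧ (χ 1).re < (ψ 1).re ∧
    ∃ L : Subgroup G, (∀ g, g ∈ L ↔ ψ g = ψ 1) ∧ L < K

section Basic

variable {X : Type u} [Group X]

theorem exists_mul_of_sup_eq_top (N M : Subgroup X) (hN : N.Normal) (h : N ⊔ M = ⊤) (g : X) :
    (∃ m ∈ M, ∃ n ∈ N, g = m * n) ∧ (∃ n ∈ N, ∃ m ∈ M, g = n * m) := by
  haveI := hN
  have hg : g ∈ ((M ⊔ N : Subgroup X) : Set X) := by
    rw [sup_comm, h]; trivial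
  have hg' : g ∈ ((N ⊔ M : Subgroup X) : Set X) := by
    rw [h]; trivial
  rw [Subgroup.mul_normal] at hg
  rw [Subgroup.normal_mul] at hg'
  obtain ⟨m, hm, n, hn, rfl⟩ := Set.mem_mul.mp hg
  obtain ⟨n', hn', m', hm', h2⟩ := Set.mem_mul.mp hg'
  exact ⟨⟨m, hm, n, hn, rfl⟩, ⟨n', hn', m', hm', h2.symm⟩⟩

theorem lemmaW [Finite X] {χ : X → ℂ} (hχ : IsIrrCharacter X χ) (K : Subgroup X)
    (hK : ∀ g, g ∈ K ↔ χ g = χ 1) (B M : Subgroup X) (hBn : B.Normal) (hBK : B ≤ K)
    (hsup : B ⊔ M = ⊤)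
    (m₀ x₀ : X) (hm₀ : m₀ ∈ M) (hχm₀ : χ m₀ ≠ 0) (hx₀ : x₀⁻¹ * m₀ * x₀ ∉ M)
    (hV : ∀ D : Subgroup X, D.Normal → ¬ B ≤ D → D ⊔ M ≠ ⊤ → D ≤ M) : Goal X χ K := by
  haveI := Fintype.ofFinite X
  obtain ⟨ψ, hψ, hdeg, ha, hb⟩ := lemmaU M B
    (fun g => (exists_mul_of_sup_eq_top B M hBn hsup g).1) hχ
    (fun b hb => (hK b).mp (hBK hb)) m₀ hm₀ hχm₀ x₀ hx₀
  obtain ⟨L, hLn, hL⟩ := Kernel.exists_normal_ker (isCharacter_of_irr hψ)
  have hBL : ¬ B ≤ L := fun h => hb B (fun n hn => (hL n).mp (h hn))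
    (fun g => (exists_mul_of_sup_eq_top B M hBn hsup g).1)
  have hLM : L ⊔ M ≠ ⊤ := fun h => hb L (fun n hn => (hL n).mp hn)
    (fun g => (exists_mul_of_sup_eq_top L M hLn h g).1)
  have hLleM := hV L hLn hBL hLM
  refine ⟨ψ, hψ, hdeg, L, hL, lt_of_le_of_ne
    (fun d hd => (hK d).mpr (ha d (hLleM hd) ((hL d).mp hd))) (fun h => hBL (h ▸ hBK))⟩

theorem inf_eq_bot_of_abelian (B H : Subgroup X) (hBn : B.Normal)
    (hcomm : ∀ a ∈ B, ∀ b ∈ B, a * b = b * a)
    (hmin : ∀ N : Subgroup X, N.Normal → N ≤ B → N = ⊥ ∨ N = B)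
    (hsup : B ⊔ H = ⊤) (hBH : ¬ B ≤ H) : B ⊓ H = ⊥ := by
  have hn : (B ⊓ H).Normal := by
    refine ⟨fun n hn g => ?_⟩
    obtain ⟨b, hb, h, hh, rfl⟩ := (exists_mul_of_sup_eq_top B H hBn hsup g).2
    have h1 : h * n * h⁻¹ ∈ B ⊓ H :=
      ⟨hBn.conj_mem n hn.1 h, H.mul_mem (H.mul_mem hh hn.2) (H.inv_mem hh)⟩
    have h2 : b * h * n * (b * h)⁻¹ = h * n * h⁻¹ := by
      have h3 := hcomm b hb (h * n * h⁻¹) h1.1
      calc b * h * n * (b * h)⁻¹ = (b * (h * n * h⁻¹)) * b⁻¹ := by group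
        _ = ((h * n * h⁻¹) * b) * b⁻¹ := by rw [h3]
        _ = h * n * h⁻¹ := by group
    rw [h2]; exact h1
  rcases hmin _ hn inf_le_left with h | h
  · exact h
  · exact absurd (h ▸ inf_le_right) hBH

theorem hV_ab (B M : Subgroup X) (hBn : B.Normal)
    (hcomm : ∀ a ∈ B, ∀ b ∈ B, a * b = b * a)
    (hmin : ∀ N : Subgroup X, N.Normal → N ≤ B → N = ⊥ ∨ N = B)
    (hsup : B ⊔ M = ⊤) :
    ∀ D : Subgroup X, D.Normal → ¬ B ≤ D → D ⊔ M ≠ ⊤ → D ≤ M := by
  intro D hD _ hDM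
  have hBY : ¬ B ≤ D ⊔ M := by
    intro h
    apply hDM
    rw [eq_top_iff, ← hsup]
    exact sup_le h le_sup_right
  have hsup' : B ⊔ (D ⊔ M) = ⊤ := by
    rw [eq_top_iff, ← hsup]
    exact sup_le le_sup_left (le_sup_of_le_right le_sup_right)
  have hbot := inf_eq_bot_of_abelian B (D ⊔ M) hBn hcomm hmin hsup' hBY
  intro d hd
  obtain ⟨b, hb, m, hm, rfl⟩ := (exists_mul_of_sup_eq_top B M hBn hsup d).2
  have h1 : b ∈ B ⊓ (D ⊔ M) := by
    refine ⟨hb, ?_⟩
    have h2 : b = (b * m) * m⁻¹ := by group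
    rw [h2]
    exact Subgroup.mul_mem _ (Subgroup.mem_sup_left hd)
      (Subgroup.inv_mem _ (Subgroup.mem_sup_right hm))
  rw [hbot, Subgroup.mem_bot] at h1
  rw [h1, one_mul]; exact hm

theorem hV_na (B P : Subgroup X) (hBn : B.Normal) (hPB : P ≤ B)
    (hmin : ∀ N : Subgroup X, N.Normal → N ≤ B → N = ⊥ ∨ N = B) :
    ∀ D : Subgroup X, D.Normal → ¬ B ≤ D →
      D ⊔ Subgroup.normalizer (P : Set X) ≠ ⊤ → D ≤ Subgroup.normalizer (P : Set X) := by
  intro D hD hBD _
  have hdis : D ⊓ B = ⊥ := by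
    rcases hmin (D ⊓ B) (Subgroup.normal_inf_normal D B) inf_le_right with h | h
    · exact h
    · exact absurd (h ▸ inf_le_left) hBD
  have hcom : ∀ d ∈ D, ∀ b ∈ B, d * b * d⁻¹ = b := by
    intro d hd b hb
    have := Subgroup.commute_of_normal_of_disjoint D B hD hBn (disjoint_iff.mpr hdis) d b hd hb
    rw [this.eq, mul_inv_cancel_right]
  intro d hd
  rw [Subgroup.mem_normalizer_iff]
  intro n
  constructor
  · intro hn
    rw [hcom d hd n (hPB hn)]; exact hn
  · intro hn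
    have hnB : n ∈ B := by
      have h1 := hBn.conj_mem _ (hPB hn) d⁻¹
      have h2 : d⁻¹ * (d * n * d⁻¹) * d⁻¹⁻¹ = n := by group
      rwa [h2] at h1
    rw [hcom d hd n hnB] at hn; exact hn

theorem goal_ab [Finite X] {χ : X → ℂ} (hχ : IsIrrCharacter X χ) (K : Subgroup X)
    (hK : ∀ g, g ∈ K ↔ χ g = χ 1) (B H : Subgroup X) (hBn : B.Normal) (hBK : B ≤ K)
    (hcomm : ∀ a ∈ B, ∀ b ∈ B, a * b = b * a)
    (hmin : ∀ N : Subgroup X, N.Normal → N ≤ B → N = ⊥ ∨ N = B)
    (hsup : B ⊔ H = ⊤) (hBH : ¬ B ≤ H)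
    (m₀ b : X) (hm₀ : m₀ ∈ H) (hχm₀ : χ m₀ ≠ 0) (hb : b ∈ B) (hne : m₀ * b ≠ b * m₀) :
    Goal X χ K := by
  have hinf := inf_eq_bot_of_abelian B H hBn hcomm hmin hsup hBH
  refine lemmaW hχ K hK B H hBn hBK hsup m₀ b hm₀ hχm₀ ?_ (hV_ab B H hBn hcomm hmin hsup)
  intro hmem
  apply hne
  have h1 : m₀⁻¹ * (b⁻¹ * m₀ * b) ∈ B ⊓ H := by
    refine ⟨?_, H.mul_mem (H.inv_mem hm₀) hmem⟩
    have h2 : m₀⁻¹ * (b⁻¹ * m₀ * b) = (m₀⁻¹ * b⁻¹ * m₀⁻¹⁻¹) * b := by group
    rw [h2]
    exact B.mul_mem (hBn.conj_mem _ (B.inv_mem hb) _) hb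
  rw [hinf, Subgroup.mem_bot] at h1
  have h3 : m₀ * b = b * (m₀ * (m₀⁻¹ * (b⁻¹ * m₀ * b))) := by group
  rw [h3, h1, mul_one]

end Basic

section Quot

variable {G : Type u} [Group G]

theorem goal_of_quotient [Finite G] (N : Subgroup G) [N.Normal] {χ : G → ℂ}
    (hχ : IsIrrCharacter G χ) (K : Subgroup G) (hK : ∀ g, g ∈ K ↔ χ g = χ 1) (hNK : N ≤ K)
    (h : ∀ χbar : G ⧸ N → ℂ, IsIrrCharacter (G ⧸ N) χbar →
      (∀ g : G, χbar (g : G ⧸ N) = χ g) →
      (∀ x, x ∈ K.map (QuotientGroup.mk' N) ↔ χbar x = χbar 1) →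
      Goal (G ⧸ N) χbar (K.map (QuotientGroup.mk' N))) : Goal G χ K := by
  obtain ⟨χbar, hχbar, hval⟩ := Kernel.exists_quotient_irr N hχ (fun n hn => (hK n).mp (hNK hn))
  have h1 : χbar 1 = χ 1 := hval 1
  have hker : ∀ x, x ∈ K.map (QuotientGroup.mk' N) ↔ χbar x = χbar 1 := by
    intro x
    obtain ⟨g, rfl⟩ := QuotientGroup.mk_surjective x
    rw [hval, h1, ← hK]
    constructor
    · rintro ⟨k, hk, hkg⟩
      have h2 : k⁻¹ * g ∈ N := by
        rw [← QuotientGroup.eq]; exact hkg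
      have h3 : g = k * (k⁻¹ * g) := by group
      rw [h3]; exact K.mul_mem hk (hNK h2)
    · intro hg
      exact ⟨g, hg, rfl⟩
  obtain ⟨ψbar, hψbar, hdeg, Lbar, hLbar, hlt⟩ := h χbar hχbar hval hker
  refine ⟨fun g => ψbar (g : G ⧸ N), Kernel.isIrrCharacter_inflation N hψbar, ?_,
    Lbar.comap (QuotientGroup.mk' N), ?_, ?_⟩
  · rw [← h1]; exact hdeg
  · intro g
    rw [Subgroup.mem_comap]
    exact hLbar _
  · have h2 : K = (K.map (QuotientGroup.mk' N)).comap (QuotientGroup.mk' N) := by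
      rw [Subgroup.comap_map_eq, QuotientGroup.ker_mk', sup_eq_left.mpr hNK]
    rw [h2]
    exact (Subgroup.comap_lt_comap_of_surjective (QuotientGroup.mk'_surjective N)).mpr hlt

theorem nilpotent_quot_of_map (K B : Subgroup G) [B.Normal]
    (h : Group.IsNilpotent (K.map (QuotientGroup.mk' B))) :
    Group.IsNilpotent (↥K ⧸ B.subgroupOf K) := by
  let φ : K →* K.map (QuotientGroup.mk' B) := (QuotientGroup.mk' B).subgroupMap K
  have hsurj : Function.Surjective φ := MonoidHom.subgroupMap_surjective _ _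
  have hker : φ.ker = B.subgroupOf K := by
    ext k
    rw [MonoidHom.mem_ker, Subgroup.mem_subgroupOf]
    constructor
    · intro hk
      have := congrArg Subtype.val hk
      simpa [φ] using this
    · intro hk
      apply Subtype.ext
      simpa [φ] using hk
  have e : K ⧸ φ.ker ≃* K.map (QuotientGroup.mk' B) :=
    QuotientGroup.quotientKerEquivOfSurjective φ hsurj
  haveI := h
  have h2 : Group.IsNilpotent (K ⧸ φ.ker) := Group.nilpotent_of_mulEquiv e.symm
  have e2 : K ⧸ φ.ker ≃* ↥K ⧸ B.subgroupOf K := QuotientGroup.quotientMulEquivOfEq hker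
  haveI := h2
  exact Group.nilpotent_of_mulEquiv e2

end Quot

section Case1

theorem isNilpotent_of_comm {G : Type u} [Group G] (A : Subgroup G)
    (hcomm : ∀ a ∈ A, ∀ b ∈ A, a * b = b * a) : Group.IsNilpotent A := by
  letI : CommGroup A :=
    { (inferInstance : Group A) with
      mul_comm := fun a b => Subtype.ext (hcomm a a.2 b b.2) }
  exact CommGroup.isNilpotent

theorem exists_coatom_not_le {G : Type u} [Group G] (B : Subgroup G)
    (h : ¬ B ≤ frattini G) : ∃ H : Subgroup G, IsCoatom H ∧ ¬ B ≤ H := by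
  by_contra hno
  push Not at hno
  apply h
  intro x hx
  rw [Cfsg.Agent.Lib.Helper63.PFrattini.mem_frattini_iff]
  intro M hM
  exact hno M hM hx

theorem sup_eq_top_of_coatom {G : Type u} [Group G] (B H : Subgroup G) (hH : IsCoatom H)
    (hBH : ¬ B ≤ H) : B ⊔ H = ⊤ := by
  apply hH.2
  refine lt_of_le_of_ne le_sup_right ?_
  intro h
  apply hBH
  rw [h]
  exact le_sup_left

/-- The nonabelian minimal normal subgroup case. -/
theorem goal_na {G : Type u} [Group G] [Finite G] {χ : G → ℂ} (hχ : IsIrrCharacter G χ)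
    (K : Subgroup G) (hK : ∀ g, g ∈ K ↔ χ g = χ 1) (B : Subgroup G) (hBn : B.Normal)
    (hB0 : B ≠ ⊥) (hBK : B ≤ K)
    (hmin : ∀ N : Subgroup G, N.Normal → N ≤ B → N = ⊥ ∨ N = B)
    (hab : ¬ ∀ a ∈ B, ∀ b ∈ B, a * b = b * a) : Goal G χ K := by
  haveI := hBn
  have hcard : Nat.card B ≠ 1 := by
    intro h
    exact hB0 (Subgroup.card_eq_one.mp h)
  obtain ⟨p, hp, hpdvd⟩ := Nat.exists_prime_and_dvd hcard
  haveI : Fact p.Prime := ⟨hp⟩
  obtain ⟨P'⟩ : Nonempty (Sylow p B) := inferInstance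
  set P : Subgroup G := (P' : Subgroup B).map B.subtype with hPdef
  have hsup : Subgroup.normalizer (P : Set G) ⊔ B = ⊤ := Sylow.normalizer_sup_eq_top P'
  have hPB : P ≤ B := Subgroup.map_subtype_le _
  have hP0 : P ≠ ⊥ := by
    intro h
    rw [hPdef, Subgroup.map_eq_bot_iff_of_injective _ B.subtype_injective] at h
    exact P'.ne_bot_of_dvd_card hpdvd h
  have hMtop : Subgroup.normalizer (P : Set G) ≠ ⊤ := by
    intro htop
    have hPn : P.Normal := Subgroup.normalizer_eq_top_iff.mp htop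
    have hPeq : P = B := (hmin P hPn hPB).resolve_left hP0
    have hBp : IsPGroup p B := by
      have h1 : (P' : Subgroup B) = ⊤ := by
        rw [eq_top_iff]
        intro x _
        have hx : (x : G) ∈ P := by rw [hPeq]; exact x.2
        obtain ⟨y, hy, hyx⟩ := hx
        have : y = x := Subtype.ext hyx
        rw [← this]; exact hy
      have h2 := P'.isPGroup'
      rw [h1] at h2
      exact (IsPGroup.of_equiv h2 Subgroup.topEquiv)
    haveI : Nontrivial B := (Subgroup.nontrivial_iff_ne_bot B).mpr hB0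
    have hZ0 : Subgroup.center B ≠ ⊥ := by
      have := hBp.center_nontrivial
      exact (Subgroup.nontrivial_iff_ne_bot _).mp this
    have hZn : ((Subgroup.center B).map B.subtype).Normal :=
      ConjAct.normal_of_characteristic_of_normal
    have hZ0' : (Subgroup.center B).map B.subtype ≠ ⊥ := by
      intro h
      rw [Subgroup.map_eq_bot_iff_of_injective _ B.subtype_injective] at h
      exact hZ0 h
    have hZeq := (hmin _ hZn (Subgroup.map_subtype_le _)).resolve_left hZ0'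
    apply hab
    intro a ha b hb
    rw [← hZeq] at ha
    obtain ⟨z, hz, rfl⟩ := ha
    have := Subgroup.mem_center_iff.mp hz ⟨b, hb⟩
    have h3 := congrArg Subtype.val this
    simpa using h3.symm
  have hex : ∃ m₀ ∈ P, ∃ x₀ : G, x₀⁻¹ * m₀ * x₀ ∉ Subgroup.normalizer (P : Set G) := by
    by_contra hno
    push Not at hno
    apply hMtop
    have h1 : Subgroup.normalClosure (P : Set G) ≤ Subgroup.normalizer (P : Set G) := by
      unfold Subgroup.normalClosure
      rw [Subgroup.closure_le]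
      intro a ha
      obtain ⟨a', ha', hconj⟩ := Group.mem_conjugatesOfSet_iff.mp ha
      obtain ⟨c, hc⟩ := isConj_iff.mp hconj
      have := hno a' ha' c⁻¹
      rw [inv_inv] at this
      rw [← hc]; exact this
    have h2 : Subgroup.normalClosure (P : Set G) ≤ B :=
      Subgroup.normalClosure_le_normal hPB
    have h3 : Subgroup.normalClosure (P : Set G) ≠ ⊥ := by
      intro h
      apply hP0
      rw [eq_bot_iff, ← h]
      exact Subgroup.le_normalClosure
    have h4 := (hmin _ Subgroup.normalClosure_normal h2).resolve_left h3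
    rw [h4] at h1
    rw [eq_top_iff, ← hsup]
    exact sup_le le_rfl h1
  obtain ⟨m₀, hm₀, x₀, hx₀⟩ := hex
  have hχ1 : χ 1 ≠ 0 := irr_apply_one_ne_zero hχ
  have hχm₀ : χ m₀ ≠ 0 := by
    rw [(hK m₀).mp (hBK (hPB hm₀))]; exact hχ1
  refine lemmaW hχ K hK B (Subgroup.normalizer (P : Set G)) hBn hBK (by rw [sup_comm]; exact hsup)
    m₀ x₀ (Subgroup.le_normalizer hm₀) hχm₀ hx₀ (hV_na B P hBn hPB hmin)

/-- The non-nilpotent kernel case, by induction on the group order. -/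
theorem case1 : ∀ (n : ℕ) (G : Type u) [Group G] [Finite G], Nat.card G = n →
    ∀ (χ : G → ℂ) (K : Subgroup G), K.Normal → IsIrrCharacter G χ →
      (∀ g, g ∈ K ↔ χ g = χ 1) → ¬ Group.IsNilpotent K → Goal G χ K := by
  intro n
  induction n using Nat.strong_induction_on with
  | _ n IH =>
  intro G _ _ hn χ K hKn hχ hK hnil
  haveI := hKn
  have hKbot : K ≠ ⊥ := by
    rintro rfl
    exact hnil (isNilpotent_of_comm ⊥ (fun a ha b hb => by
      rw [Subgroup.mem_bot] at ha hb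
      rw [ha, hb]))
  obtain ⟨B, hBn, hB0, hBK, hmin⟩ :=
    Cfsg.Agent.Lib.Helper64.MinNonClosed.exists_minimal_normal_le K hKn hKbot
  haveI := hBn
  by_cases hq : Group.IsNilpotent (K.map (QuotientGroup.mk' B))
  swap
  · apply goal_of_quotient B hχ K hK hBK
    intro χbar hχbar hval hker
    have hlt : Nat.card (G ⧸ B) < n := by
      rw [← hn, ← Subgroup.index_eq_card, ← Subgroup.index_mul_card B]
      have h1 : 1 < Nat.card B := B.one_lt_card_iff_ne_bot.mpr hB0
      have h2 : 0 < B.index := Nat.pos_of_ne_zero Subgroup.index_ne_zero_of_finite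
      nlinarith
    exact IH (Nat.card (G ⧸ B)) hlt (G ⧸ B) rfl χbar _
      (Subgroup.Normal.map hKn _ (QuotientGroup.mk'_surjective B)) hχbar hker hq
  have hq' := nilpotent_quot_of_map K B hq
  have hχ1 : χ 1 ≠ 0 := irr_apply_one_ne_zero hχ
  by_cases hab : ∀ a ∈ B, ∀ b ∈ B, a * b = b * a
  swap
  · exact goal_na hχ K hK B hBn hB0 hBK hmin hab
  have hBΦ : ¬ B ≤ frattini G := fun h => hnil (Cfsg.Agent.S0584.result K B hBK h hq')
  obtain ⟨H, hH, hBH⟩ := exists_coatom_not_le B hBΦ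
  have hsup := sup_eq_top_of_coatom B H hH hBH
  have hex : ∃ m₀ ∈ K ⊓ H, ∃ b ∈ B, m₀ * b ≠ b * m₀ := by
    by_contra hno
    push Not at hno
    apply hnil
    haveI := hq'
    refine Subgroup.isNilpotent_of_ker_le_center (QuotientGroup.mk' (B.subgroupOf K)) ?_
    rw [QuotientGroup.ker_mk']
    intro b hb
    rw [Subgroup.mem_subgroupOf] at hb
    rw [Subgroup.mem_center_iff]
    intro k
    obtain ⟨b', hb', h, hh, hk⟩ := (exists_mul_of_sup_eq_top B H hBn hsup (k : G)).2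
    have hhK : h ∈ K := by
      have : h = b'⁻¹ * (k : G) := by rw [hk]; group
      rw [this]
      exact K.mul_mem (K.inv_mem (hBK hb')) k.2
    have h1 := hno h ⟨hhK, hh⟩ (b : G) hb
    have h2 := hab b' hb' (b : G) hb
    apply Subtype.ext
    show (k : G) * (b : G) = (b : G) * (k : G)
    rw [hk, mul_assoc, h1, ← mul_assoc, h2, mul_assoc]
  obtain ⟨m₀, hm₀, b, hb, hne⟩ := hex
  exact goal_ab hχ K hK B H hBn hBK hab hmin hsup hBH m₀ b hm₀.2
    (by rw [(hK m₀).mp hm₀.1]; exact hχ1) hb hne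

end Case1

section Case2

variable {X : Type u} [Group X]

/-- Minimal normal subgroups. -/
def IsMinNormal (B : Subgroup X) : Prop :=
  B.Normal ∧ B ≠ ⊥ ∧ ∀ N : Subgroup X, N.Normal → N ≤ B → N = ⊥ ∨ N = B

/-- The centralizer of all minimal normal subgroups. -/
def socCent (X : Type u) [Group X] : Subgroup X :=
  ⨅ B : {B : Subgroup X // IsMinNormal B}, Subgroup.centralizer (B.1 : Set X)

theorem mem_socCent {x : X} :
    x ∈ socCent X ↔ ∀ B : Subgroup X, IsMinNormal B → ∀ b ∈ B, b * x = x * b := by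
  unfold socCent
  rw [Subgroup.mem_iInf]
  constructor
  · intro h B hB b hb
    exact Subgroup.mem_centralizer_iff.mp (h ⟨B, hB⟩) b hb
  · intro h B
    exact Subgroup.mem_centralizer_iff.mpr (fun b hb => h B.1 B.2 b hb)

theorem socCent_normal : (socCent X).Normal := by
  refine ⟨fun x hx g => ?_⟩
  rw [mem_socCent] at hx ⊢
  intro B hB b hb
  have h1 := hx B hB (g⁻¹ * b * g⁻¹⁻¹) (hB.1.conj_mem b hb g⁻¹)
  calc b * (g * x * g⁻¹) = g * ((g⁻¹ * b * g⁻¹⁻¹) * x) * g⁻¹ := by group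
    _ = g * (x * (g⁻¹ * b * g⁻¹⁻¹)) * g⁻¹ := by rw [h1]
    _ = g * x * g⁻¹ * b := by group

theorem centralizer_normal' (N : Subgroup X) (hN : N.Normal) :
    (Subgroup.centralizer (N : Set X)).Normal := by
  refine ⟨fun x hx g => ?_⟩
  rw [Subgroup.mem_centralizer_iff] at hx ⊢
  intro b hb
  have h1 := hx (g⁻¹ * b * g⁻¹⁻¹) (hN.conj_mem b hb g⁻¹)
  calc b * (g * x * g⁻¹) = g * ((g⁻¹ * b * g⁻¹⁻¹) * x) * g⁻¹ := by group
    _ = g * (x * (g⁻¹ * b * g⁻¹⁻¹)) * g⁻¹ := by rw [h1]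
    _ = g * x * g⁻¹ * b := by group

theorem minNormal_le_socCent [Group.IsSolvable X] (B : Subgroup X) (hB : IsMinNormal B) :
    B ≤ socCent X := by
  intro b hb
  rw [mem_socCent]
  intro B' hB' b' hb'
  by_cases h : B ⊓ B' = ⊥
  · exact (Subgroup.commute_of_normal_of_disjoint B' B hB'.1 hB.1
      (disjoint_iff.mpr (by rw [inf_comm]; exact h)) b' b hb' hb).eq
  · haveI := hB.1
    haveI := hB'.1
    have h1 := (hB.2.2 (B ⊓ B') (Subgroup.normal_inf_normal B B') inf_le_left).resolve_left h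
    have hBB' : B ≤ B' := by
      calc B = B ⊓ B' := h1.symm
        _ ≤ B' := inf_le_right
    exact Cfsg.Agent.S0547.commute_of_mem B' hB'.2.1 hB'.2.2 hb' (hBB' hb)

theorem case2' [Finite X] (hsolv : Group.IsSolvable X) (hΦ : frattini X = ⊥) {χ : X → ℂ}
    (hχ : IsIrrCharacter X χ) (K : Subgroup X) (hK : ∀ g, g ∈ K ↔ χ g = χ 1)
    (hKF : K = Cfsg.fittingSubgroup X) (hKtop : K ≠ ⊤) : Goal X χ K := by
  classical
  haveI := hsolv
  haveI := Fintype.ofFinite X
  by_contra hgoal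
  have hχc := isCharacter_of_irr hχ
  have hχ1 : χ 1 ≠ 0 := irr_apply_one_ne_zero hχ
  have hA : ∀ A : Subgroup X, A.Normal → (∀ a ∈ A, ∀ b ∈ A, a * b = b * a) → A ≤ K := by
    intro A hAn hAc
    rw [hKF]
    exact Cfsg.Agent.Lib.Helper71.Fitting.le_fitting A hAn (isNilpotent_of_comm A hAc)
  have hminab : ∀ B : Subgroup X, IsMinNormal B → ∀ a ∈ B, ∀ b ∈ B, a * b = b * a := by
    intro B hB a ha b hb
    haveI := hB.1
    exact Cfsg.Agent.S0547.commute_of_mem B hB.2.1 hB.2.2 ha hb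
  have hcl1 : ∀ x : X, χ x ≠ 0 → x ∈ socCent X := by
    intro x hx
    rw [mem_socCent]
    intro B hB b hb
    have hBc := hminab B hB
    have hBK : B ≤ K := hA B hB.1 hBc
    have hBΦ : ¬ B ≤ frattini X := by
      rw [hΦ]
      intro h
      exact hB.2.1 (eq_bot_iff.mpr h)
    obtain ⟨H, hH, hBH⟩ := exists_coatom_not_le B hBΦ
    have hsup := sup_eq_top_of_coatom B H hH hBH
    obtain ⟨b', hb', h, hh, rfl⟩ := (exists_mul_of_sup_eq_top B H hB.1 hsup x).2
    have hχh : χ h ≠ 0 := by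
      rw [Kernel.apply_mul_of_eq hχc ((hK b').mp (hBK hb')) h] at hx; exact hx
    have h1 : h * b = b * h := by
      by_contra hne
      exact hgoal (goal_ab hχ K hK B H hB.1 hBK hBc hB.2.2 hsup hBH h b hh hχh hb hne)
    have h2 := hBc b hb b' hb'
    rw [← mul_assoc, h2, mul_assoc, ← h1, ← mul_assoc]
  set C := socCent X with hCdef
  have hCn : C.Normal := socCent_normal
  have hCCn : (Subgroup.centralizer (C : Set X)).Normal := centralizer_normal' C hCn
  set S := C ⊓ Subgroup.centralizer (C : Set X) with hSdef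
  have hSn : S.Normal := Subgroup.normal_inf_normal _ _
  have hSc : ∀ a ∈ S, ∀ b ∈ S, a * b = b * a := by
    intro a ha b hb
    exact Subgroup.mem_centralizer_iff.mp hb.2 a ha.1
  have hminS : ∀ B : Subgroup X, IsMinNormal B → B ≤ S := by
    intro B hB
    refine le_inf (minNormal_le_socCent B hB) ?_
    intro b hb
    rw [Subgroup.mem_centralizer_iff]
    intro c hc
    exact ((mem_socCent.mp hc) B hB b hb).symm
  haveI : IsMulCommutative S := ⟨⟨fun a b => Subtype.ext (hSc a a.2 b b.2)⟩⟩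
  obtain ⟨H₁, hH₁⟩ := Cfsg.Agent.S0585.result hΦ S
  have hSH : S ⊓ H₁ = ⊥ := disjoint_iff.mp hH₁.disjoint
  have hSHsup : S ⊔ H₁ = ⊤ := hH₁.sup_eq_top
  have hTn : (C ⊓ H₁).Normal := by
    refine ⟨fun t ht g => ?_⟩
    obtain ⟨s, hs, h, hh, rfl⟩ := (exists_mul_of_sup_eq_top S H₁ hSn hSHsup g).2
    have h1 : h * t * h⁻¹ ∈ C ⊓ H₁ :=
      ⟨hCn.conj_mem t ht.1 h, H₁.mul_mem (H₁.mul_mem hh ht.2) (H₁.inv_mem hh)⟩
    have h3 := Subgroup.mem_centralizer_iff.mp hs.2 (h * t * h⁻¹) h1.1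
    have h2 : s * h * t * (s * h)⁻¹ = h * t * h⁻¹ := by
      calc s * h * t * (s * h)⁻¹ = (s * (h * t * h⁻¹)) * s⁻¹ := by group
        _ = ((h * t * h⁻¹) * s) * s⁻¹ := by rw [h3]
        _ = h * t * h⁻¹ := by group
    rw [h2]; exact h1
  have hT : C ⊓ H₁ = ⊥ := by
    by_contra hne
    obtain ⟨B, hBn, hB0, hBT, hmin⟩ :=
      Cfsg.Agent.Lib.Helper64.MinNonClosed.exists_minimal_normal_le (C ⊓ H₁) hTn hne
    have hB : IsMinNormal B := ⟨hBn, hB0, hmin⟩
    have : B ≤ S ⊓ H₁ := le_inf (hminS B hB) (hBT.trans inf_le_right)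
    rw [hSH] at this
    exact hB0 (eq_bot_iff.mpr this)
  have hCS : C ≤ S := by
    intro c hc
    obtain ⟨s, hs, h, hh, rfl⟩ := (exists_mul_of_sup_eq_top S H₁ hSn hSHsup c).2
    have h1 : h ∈ C ⊓ H₁ := by
      refine ⟨?_, hh⟩
      have : h = s⁻¹ * (s * h) := by group
      rw [this]; exact C.mul_mem (C.inv_mem hs.1) hc
    rw [hT, Subgroup.mem_bot] at h1
    rw [h1, mul_one]; exact hs
  have hCK : C ≤ K := hA C hCn (fun a ha b hb => hSc a (hCS ha) b (hCS hb))
  have hvan : ∀ x : X, χ x = if x ∈ K then χ 1 else 0 := by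
    intro x
    split_ifs with h
    · exact (hK x).mp h
    · by_contra hx
      exact h (hCK (hcl1 x hx))
  have hsum : ∑ x : X, χ x = ∑ x : X, (if x ∈ K then χ 1 else 0) :=
    Finset.sum_congr rfl (fun x _ => hvan x)
  rw [Finset.sum_ite, Finset.sum_const_zero, add_zero, Finset.sum_const, nsmul_eq_mul] at hsum
  have hcardpos : (Finset.univ.filter (fun x : X => x ∈ K)).card ≠ 0 := by
    apply Finset.card_ne_zero.mpr
    exact ⟨1, Finset.mem_filter.mpr ⟨Finset.mem_univ _, K.one_mem⟩⟩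
  have hin : classInner χ (fun _ : X => (1 : ℂ)) ≠ 0 := by
    unfold classInner
    simp only [map_one, mul_one]
    rw [hsum]
    exact mul_ne_zero (inv_ne_zero (Nat.cast_ne_zero.mpr Nat.card_pos.ne'))
      (mul_ne_zero (Nat.cast_ne_zero.mpr hcardpos) hχ1)
  have horth := irr_orthonormal (⟨χ, hχ⟩ : IrrCharacter X) ⟨_, isIrrCharacter_one⟩
  by_cases heq : (⟨χ, hχ⟩ : IrrCharacter X) = ⟨_, isIrrCharacter_one⟩
  · apply hKtop
    rw [eq_top_iff]
    intro g _
    rw [hK]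
    have := congrArg Subtype.val heq
    simp only at this
    rw [this]
  · rw [if_neg heq] at horth
    exact hin horth

theorem frattini_quotient_frattini (G : Type u) [Group G] [Finite G] :
    frattini (G ⧸ frattini G) = ⊥ := by
  rw [eq_bot_iff]
  intro x hx
  obtain ⟨g, rfl⟩ := QuotientGroup.mk_surjective x
  rw [Subgroup.mem_bot, QuotientGroup.eq_one_iff]
  rw [Cfsg.Agent.Lib.Helper63.PFrattini.mem_frattini_iff] at hx ⊢
  intro M hM
  have hΦM : frattini G ≤ M := frattini_le_coatom hM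
  have hcomap : (M.map (QuotientGroup.mk' (frattini G))).comap (QuotientGroup.mk' (frattini G))
      = M := by
    rw [Subgroup.comap_map_eq, QuotientGroup.ker_mk', sup_eq_left.mpr hΦM]
  have hco : IsCoatom (M.map (QuotientGroup.mk' (frattini G))) := by
    constructor
    · intro h
      apply hM.1
      rw [← hcomap, h, Subgroup.comap_top]
    · intro Y hY
      have h1 : M < Y.comap (QuotientGroup.mk' (frattini G)) := by
        calc M = (M.map (QuotientGroup.mk' (frattini G))).comap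
              (QuotientGroup.mk' (frattini G)) := hcomap.symm
          _ < Y.comap (QuotientGroup.mk' (frattini G)) :=
            (Subgroup.comap_lt_comap_of_surjective (QuotientGroup.mk'_surjective _)).mpr hY
      have h2 := hM.2 _ h1
      rw [← Subgroup.map_comap_eq_self_of_surjective
        (QuotientGroup.mk'_surjective (frattini G)) Y, h2,
        Subgroup.map_top_of_surjective _ (QuotientGroup.mk'_surjective _)]
  have h3 := hx _ hco
  have h4 : g ∈ (M.map (QuotientGroup.mk' (frattini G))).comap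
      (QuotientGroup.mk' (frattini G)) := h3
  rwa [hcomap] at h4

theorem case2 {G : Type u} [Group G] [Finite G] {χ : G → ℂ} (hχ : IsIrrCharacter G χ)
    (K : Subgroup G) [K.Normal] (hK : ∀ g, g ∈ K ↔ χ g = χ 1)
    (hKF : K = Cfsg.fittingSubgroup G) (hsolv : Group.IsSolvable (G ⧸ K)) (hKtop : K ≠ ⊤) :
    Goal G χ K := by
  have hKnil : Group.IsNilpotent K :=
    hKF ▸ Cfsg.Agent.Lib.Helper71.Fitting.fitting_isNilpotent G
  haveI := hKnil
  haveI := hsolv
  have hG : Group.IsSolvable G :=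
    Group.isSolvable_of_ker_le_range K.subtype (QuotientGroup.mk' K)
      (by rw [QuotientGroup.ker_mk', Subgroup.range_subtype])
  haveI := hG
  have hΦK : frattini G ≤ K := by
    rw [hKF]
    exact Cfsg.Agent.Lib.Helper71.Fitting.le_fitting (frattini G) inferInstance frattini_nilpotent
  apply goal_of_quotient (frattini G) hχ K hK hΦK
  intro χbar hχbar hval hker
  refine case2' inferInstance (frattini_quotient_frattini G) hχbar _ hker ?_ ?_
  · rw [hKF]; exact (Cfsg.Agent.S0070.result).symm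
  · intro htop
    apply hKtop
    have h2 : K = (K.map (QuotientGroup.mk' (frattini G))).comap
        (QuotientGroup.mk' (frattini G)) := by
      rw [Subgroup.comap_map_eq, QuotientGroup.ker_mk', sup_eq_left.mpr hΦK]
    rw [h2, htop, Subgroup.comap_top]

/-- The Broline–Garrison theorem. -/
theorem broline_garrison {G : Type u} [Group G] [Finite G] {χ : G → ℂ} (hχ : IsIrrCharacter G χ)
    (K : Subgroup G) [K.Normal] (hK : ∀ g, g ∈ K ↔ χ g = χ 1)
    (h : ¬ K ≤ Cfsg.fittingSubgroup G ∨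
      (K = Cfsg.fittingSubgroup G ∧ Group.IsSolvable (G ⧸ K) ∧ K ≠ ⊤)) : Goal G χ K := by
  rcases h with h | ⟨h1, h2, h3⟩
  · apply case1 (Nat.card G) G rfl χ K inferInstance hχ hK
    intro hnil
    exact h (Cfsg.Agent.Lib.Helper71.Fitting.le_fitting K inferInstance hnil)
  · exact case2 hχ K hK h1 h2 h3

theorem charDegree_lt {G : Type u} [Group G] {χ ψ : G → ℂ} (hχ : IsIrrCharacter G χ)
    (hψ : IsIrrCharacter G ψ) (h : (χ 1).re < (ψ 1).re) : charDegree χ < charDegree ψ := by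
  obtain ⟨d, hdpos, hd⟩ := irr_exists_apply_one_pos hχ
  obtain ⟨e, hepos, he⟩ := irr_exists_apply_one_pos hψ
  unfold charDegree
  rw [hd, he] at h ⊢
  simp only [Complex.natCast_re, Nat.floor_natCast] at h ⊢
  exact_mod_cast h

end Case2

end Cfsg.Agent.Lib.Helper15.BGMain
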