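import Mathlib
import Cfsg.Agent.Lib.Helper45.BalStmt

set_option autoImplicit false

/-! Piece [PW] of S2731: an automorphism `Phi h * cσ τ` of `PΩ(Q)` fixing the classes of the
Siegel elements `sg (e_j) (b • e_k)`, `b ∈ S`, has `h` scalar and `τ` trivial on `S`. -/

namespace Cfsg.Agent.Lib.Helper15.BalPW

open Module QuadraticMap Matrix
open Cfsg.Agent.Lib.Helper44.QSpace
open Cfsg.Agent.Lib.Helper94.OrthSiegel
open Cfsg.Agent.Lib.Helper45.OmegaAut Cfsg.Agent.Lib.Helper45.SemiAut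
open Cfsg.Agent.Lib.Helper45.FldCoset Cfsg.Agent.Lib.Helper45.FldCent

universe u

theorem exists_other {m : ℕ} (hm : 3 ≤ m) (a b : Fin m ⊕ Fin m) :
    ∃ e : Fin m ⊕ Fin m, e ≠ a ∧ e ≠ a.swap ∧ e ≠ b ∧ e ≠ b.swap := by
  have hcard : ({Sum.elim id id a, Sum.elim id id b} : Finset (Fin m)).card <
      (Finset.univ : Finset (Fin m)).card := by
    rw [Finset.card_univ, Fintype.card_fin]
    exact lt_of_le_of_lt Finset.card_le_two (by omega)
  obtain ⟨k, -, hk⟩ := Finset.exists_mem_notMem_of_card_lt_card hcard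
  simp only [Finset.mem_insert, Finset.mem_singleton, not_or] at hk
  refine ⟨Sum.inl k, ?_, ?_, ?_, ?_⟩
  · rintro rfl
    exact hk.1 rfl
  · intro h
    rcases a with a | a
    · simp at h
    · simp only [Sum.swap_inr, Sum.inl.injEq] at h
      exact hk.1 (by rw [h]; rfl)
  · rintro rfl
    exact hk.2 rfl
  · intro h
    rcases b with b | b
    · simp at h
    · simp only [Sum.swap_inr, Sum.inl.injEq] at h
      exact hk.2 (by rw [h]; rfl)

theorem main : Cfsg.Agent.Lib.Helper45.BalStmt.Pointwise.{u} := by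
  intro F _ _ ι _ _ Q hQ hσ hn hZ m hm φ hφ hfr h τ S h1S hfix
  obtain ⟨G, hG⟩ : ∃ G : Matrix ι ι F, G = ((h : GL ι F) : Matrix ι ι F) := ⟨_, rfl⟩
  -- frame facts
  have hQe : ∀ c : Fin m ⊕ Fin m, Q (Pi.single (φ c) 1 : ι → F) = 0 := by
    intro c
    have h0 := hfr 0 c
    rw [zero_add, QuadraticMap.map_zero, Pi.zero_apply, add_zero] at h0
    exact h0
  have hpol : ∀ (x : ι → F) (c : Fin m ⊕ Fin m),
      QuadraticMap.polar (⇑Q) x (Pi.single (φ c) 1 : ι → F) = x (φ c.swap) := by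
    intro x c
    unfold QuadraticMap.polar
    rw [hfr x c, hQe c]
    ring
  have hpol' : ∀ (x : ι → F) (c : Fin m ⊕ Fin m),
      QuadraticMap.polar (⇑Q) (Pi.single (φ c) 1 : ι → F) x = x (φ c.swap) := by
    intro x c
    rw [QuadraticMap.polar_comm]
    exact hpol x c
  -- (R)
  have hR : ∀ (j k : ι) (b : F), b ∈ S →
      G * ((sg hQ (Pi.single j 1 : ι → F) (τ b • (Pi.single k 1 : ι → F)) : GL ι F) :
        Matrix ι ι F) =
      ((sg hQ (Pi.single j 1 : ι → F) (b • (Pi.single k 1 : ι → F)) : GL ι F) :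
        Matrix ι ι F) * G := by
    intro j k b hb
    obtain ⟨s, hs⟩ := exists_omega_sg hQ hn (Pi.single j 1 : ι → F)
      (b • (Pi.single k 1 : ι → F))
    have h1 := hfix j k b hb s hs
    rw [MulAut.mul_apply, cσ_mk, Phi_mk] at h1
    have h2 := mk_inj hZ h1
    have h3 : (((cjΩ (⇑Q) h (omAut hσ τ s) : ↥(Cfsg.Omega F ⇑Q)) :
        ↥(Cfsg.isometryGroup F ⇑Q)) : GL ι F) =
        ((s : ↥(Cfsg.isometryGroup F ⇑Q)) : GL ι F) := by rw [h2]
    rw [cjΩ_coe, omAut_coe, hs, ssg_map hQ hσ τ, Cfsg.Agent.Lib.Helper45.SemiAut.map_single] at h3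
    have h4 : (fun k' => τ ((b • (Pi.single k 1 : ι → F)) k')) =
        τ b • (Pi.single k 1 : ι → F) := by
      funext k'
      rw [Pi.smul_apply, Pi.smul_apply, smul_eq_mul, smul_eq_mul, map_mul]
      congr 1
      exact congrFun (Cfsg.Agent.Lib.Helper45.SemiAut.map_single τ k) k'
    rw [h4] at h3
    have h5 : (h : GL ι F) * sg hQ (Pi.single j 1 : ι → F) (τ b • (Pi.single k 1 : ι → F)) =
        sg hQ (Pi.single j 1 : ι → F) (b • (Pi.single k 1 : ι → F)) * (h : GL ι F) := by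
      rw [← h3]
      group
    have h6 := congrArg (fun x : GL ι F => (x : Matrix ι ι F)) h5
    rw [hG]
    simpa using h6
  -- action of the Siegel elements
  have hT : ∀ (c : Fin m ⊕ Fin m) (k : ι) (b : F), k ≠ φ c.swap → ∀ x : ι → F,
      ((sg hQ (Pi.single (φ c) 1 : ι → F) (b • (Pi.single k 1 : ι → F)) : GL ι F) :
        Matrix ι ι F) *ᵥ x =
        x + x (φ c.swap) • (b • (Pi.single k 1 : ι → F))
          - QuadraticMap.polar (⇑Q) (b • (Pi.single k 1 : ι → F)) x •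
              (Pi.single (φ c) 1 : ι → F)
          - (Q (b • (Pi.single k 1 : ι → F)) * x (φ c.swap)) •
              (Pi.single (φ c) 1 : ι → F) := by
    intro c k b hk x
    have haw : QuadraticMap.polar (⇑Q) (Pi.single (φ c) 1 : ι → F)
        (b • (Pi.single k 1 : ι → F)) = 0 := by
      rw [hpol', Pi.smul_apply, Pi.single_eq_of_ne (Ne.symm hk), smul_zero]
    rw [sg_mulVec hQ _ _ (hQe c) haw, hpol']
  -- frame–frame Siegel elements
  have hTf : ∀ (c d : Fin m ⊕ Fin m), d ≠ c.swap → ∀ (b : F) (x : ι → F),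
      ((sg hQ (Pi.single (φ c) 1 : ι → F) (b • (Pi.single (φ d) 1 : ι → F)) : GL ι F) :
        Matrix ι ι F) *ᵥ x =
        x + (b * x (φ c.swap)) • (Pi.single (φ d) 1 : ι → F)
          - (b * x (φ d.swap)) • (Pi.single (φ c) 1 : ι → F) := by
    intro c d hd b x
    rw [hT c (φ d) b (fun hh => hd (hφ hh)) x, QuadraticMap.polar_smul_left, hpol',
      QuadraticMap.map_smul, hQe d]
    funext l
    simp only [Pi.add_apply, Pi.sub_apply, Pi.smul_apply, smul_eq_mul]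
    ring
  -- the basic relation
  have hE1b : ∀ (c d : Fin m ⊕ Fin m), d ≠ c → d ≠ c.swap → ∀ b ∈ S, ∀ l : ι,
      τ b * (G *ᵥ (Pi.single (φ d) 1 : ι → F)) l =
        b * (G *ᵥ (Pi.single (φ c.swap) 1 : ι → F)) (φ c.swap) *
            (Pi.single (φ d) 1 : ι → F) l
          - b * (G *ᵥ (Pi.single (φ c.swap) 1 : ι → F)) (φ d.swap) *
            (Pi.single (φ c) 1 : ι → F) l := by
    intro c d hdc hdc' b hb l
    have key := hR (φ c) (φ d) b hb
    have h1 : G *ᵥ (((sg hQ (Pi.single (φ c) 1 : ι → F)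
        (τ b • (Pi.single (φ d) 1 : ι → F)) : GL ι F) : Matrix ι ι F) *ᵥ
          (Pi.single (φ c.swap) 1 : ι → F)) =
        ((sg hQ (Pi.single (φ c) 1 : ι → F) (b • (Pi.single (φ d) 1 : ι → F)) : GL ι F) :
          Matrix ι ι F) *ᵥ (G *ᵥ (Pi.single (φ c.swap) 1 : ι → F)) := by
      rw [Matrix.mulVec_mulVec, Matrix.mulVec_mulVec, key]
    rw [hTf c d hdc', hTf c d hdc'] at h1
    have hne : φ d.swap ≠ φ c.swap := by
      intro hh
      have h3 := congrArg Sum.swap (hφ hh)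
      rw [Sum.swap_swap, Sum.swap_swap] at h3
      exact hdc h3
    rw [Pi.single_eq_same, Pi.single_eq_of_ne hne] at h1
    have h2 := congrFun h1 l
    simp only [Matrix.mulVec_add, Matrix.mulVec_sub, Matrix.mulVec_smul, Pi.add_apply,
      Pi.sub_apply, Pi.smul_apply, smul_eq_mul, mul_one, mul_zero, zero_mul, sub_zero] at h2
    linear_combination h2
  obtain ⟨c0, hc0⟩ : ∃ c0 : Fin m ⊕ Fin m, c0 = Sum.inl ⟨0, by omega⟩ := ⟨_, rfl⟩
  -- `τ` fixes `S`
  have hτ : ∀ b ∈ S, τ b = b := by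
    intro b hb
    obtain ⟨d, hd1, hd2, -, -⟩ := exists_other hm c0 c0
    have hGd : G *ᵥ (Pi.single (φ d) 1 : ι → F) ≠ 0 := by
      intro h0
      have h1 : (((h : GL ι F)⁻¹ : GL ι F) : Matrix ι ι F) *ᵥ
          (G *ᵥ (Pi.single (φ d) 1 : ι → F)) = Pi.single (φ d) 1 := by
        rw [Matrix.mulVec_mulVec, hG, ← Units.val_mul, inv_mul_cancel, Units.val_one,
          Matrix.one_mulVec]
      rw [h0, Matrix.mulVec_zero] at h1
      have h2 := congrFun h1 (φ d)
      rw [Pi.single_eq_same, Pi.zero_apply] at h2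
      exact zero_ne_one h2
    obtain ⟨l, hl⟩ : ∃ l, (G *ᵥ (Pi.single (φ d) 1 : ι → F)) l ≠ 0 := by
      by_contra hcon
      push Not at hcon
      exact hGd (funext hcon)
    have e1 := hE1b c0 d hd1 hd2 b hb l
    have e2 := hE1b c0 d hd1 hd2 1 h1S l
    rw [map_one] at e2
    have e3 : τ b * (G *ᵥ (Pi.single (φ d) 1 : ι → F)) l =
        b * (G *ᵥ (Pi.single (φ d) 1 : ι → F)) l := by
      linear_combination e1 - b * e2
    exact mul_right_cancel₀ hl e3
  -- coordinates of `G e_d`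
  have hE1 : ∀ (c d : Fin m ⊕ Fin m), d ≠ c → d ≠ c.swap → ∀ l : ι,
      (G *ᵥ (Pi.single (φ d) 1 : ι → F)) l =
        (G *ᵥ (Pi.single (φ c.swap) 1 : ι → F)) (φ c.swap) * (Pi.single (φ d) 1 : ι → F) l
          - (G *ᵥ (Pi.single (φ c.swap) 1 : ι → F)) (φ d.swap) *
            (Pi.single (φ c) 1 : ι → F) l := by
    intro c d hdc hdc' l
    have e2 := hE1b c d hdc hdc' 1 h1S l
    rw [map_one] at e2
    linear_combination e2
  obtain ⟨lamf, hlamf⟩ : ∃ lamf : Fin m ⊕ Fin m → F,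
      ∀ d, lamf d = (G *ᵥ (Pi.single (φ d) 1 : ι → F)) (φ d) := ⟨_, fun _ => rfl⟩
  have hi : ∀ (c d : Fin m ⊕ Fin m), d ≠ c → d ≠ c.swap → lamf d = lamf c.swap := by
    intro c d hdc hdc'
    have e := hE1 c d hdc hdc' (φ d)
    rw [Pi.single_eq_same, Pi.single_eq_of_ne (fun hh => hdc (hφ hh)), mul_one, mul_zero,
      sub_zero] at e
    rw [hlamf, hlamf, e]
  have hii : ∀ (d : Fin m ⊕ Fin m) (l : ι), l ≠ φ d →
      (G *ᵥ (Pi.single (φ d) 1 : ι → F)) l = 0 := by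
    intro d l hl
    obtain ⟨c, hc1, hc2, hc3⟩ : ∃ c : Fin m ⊕ Fin m, c ≠ d ∧ c ≠ d.swap ∧ l ≠ φ c := by
      by_cases hr : ∃ c₁, φ c₁ = l
      · obtain ⟨c₁, hc₁⟩ := hr
        obtain ⟨c, h1, h2, h3, -⟩ := exists_other hm d c₁
        exact ⟨c, h1, h2, fun hh => h3 (hφ (by rw [hc₁, hh]))⟩
      · obtain ⟨c, h1, h2, -, -⟩ := exists_other hm d d
        exact ⟨c, h1, h2, fun hh => hr ⟨c, hh.symm⟩⟩
    have e := hE1 c d (Ne.symm hc1) (fun hh => hc2 (by rw [hh, Sum.swap_swap])) l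
    rw [Pi.single_eq_of_ne hl, Pi.single_eq_of_ne hc3, mul_zero, mul_zero, sub_zero] at e
    exact e
  obtain ⟨lam, hlam⟩ : ∃ lam : F, lam = lamf c0 := ⟨_, rfl⟩
  have hiii : ∀ d : Fin m ⊕ Fin m, lamf d = lam := by
    intro d
    obtain ⟨c', h1, h2, h3, h4⟩ := exists_other hm d c0
    have e1 := hi c'.swap d (fun hh => h2 (by rw [hh, Sum.swap_swap]))
      (by rw [Sum.swap_swap]; exact Ne.symm h1)
    have e2 := hi c'.swap c0 (fun hh => h4 (by rw [hh, Sum.swap_swap]))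
      (by rw [Sum.swap_swap]; exact Ne.symm h3)
    rw [Sum.swap_swap] at e1 e2
    rw [hlam, e1, e2]
  have hGe : ∀ d : Fin m ⊕ Fin m, G *ᵥ (Pi.single (φ d) 1 : ι → F) =
      lam • (Pi.single (φ d) 1 : ι → F) := by
    intro d
    funext l
    by_cases hl : l = φ d
    · rw [hl, ← hlamf, hiii, Pi.smul_apply, Pi.single_eq_same, smul_eq_mul, mul_one]
    · rw [hii d l hl, Pi.smul_apply, Pi.single_eq_of_ne hl, smul_zero]
  -- all basis vectors
  have hGk : ∀ k : ι, G *ᵥ (Pi.single k 1 : ι → F) = lam • (Pi.single k 1 : ι → F) := by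
    intro k
    by_cases hr : ∃ c₁, φ c₁ = k
    · obtain ⟨c₁, rfl⟩ := hr
      exact hGe c₁
    · have hk1 : k ≠ φ c0.swap := fun hh => hr ⟨_, hh.symm⟩
      have hk2 : φ c0 ≠ k := fun hh => hr ⟨_, hh⟩
      have key := hR (φ c0) k 1 h1S
      rw [map_one] at key
      have h1 : G *ᵥ (((sg hQ (Pi.single (φ c0) 1 : ι → F)
          ((1 : F) • (Pi.single k 1 : ι → F)) : GL ι F) : Matrix ι ι F) *ᵥ
            (Pi.single (φ c0.swap) 1 : ι → F)) =
          ((sg hQ (Pi.single (φ c0) 1 : ι → F) ((1 : F) • (Pi.single k 1 : ι → F)) : GL ι F) :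
            Matrix ι ι F) *ᵥ (G *ᵥ (Pi.single (φ c0.swap) 1 : ι → F)) := by
        rw [Matrix.mulVec_mulVec, Matrix.mulVec_mulVec, key]
      rw [hT c0 k 1 hk1, hT c0 k 1 hk1, hGe c0.swap] at h1
      have hp0 : QuadraticMap.polar (⇑Q) ((1 : F) • (Pi.single k 1 : ι → F))
          (Pi.single (φ c0.swap) 1 : ι → F) = 0 := by
        rw [hpol, Sum.swap_swap, one_smul, Pi.single_eq_of_ne hk2]
      have hp1 : QuadraticMap.polar (⇑Q) ((1 : F) • (Pi.single k 1 : ι → F))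
          (lam • (Pi.single (φ c0.swap) 1 : ι → F)) = 0 := by
        rw [QuadraticMap.polar_smul_right, hp0, smul_zero]
      rw [hp0, hp1, Pi.single_eq_same] at h1
      funext l
      have h2 := congrFun h1 l
      simp only [Matrix.mulVec_add, Matrix.mulVec_sub, Matrix.mulVec_smul, Pi.add_apply,
        Pi.sub_apply, Pi.smul_apply, smul_eq_mul, mul_one, mul_zero, zero_mul, sub_zero,
        one_smul, one_mul, hGe c0.swap, hGe c0, Pi.single_eq_same] at h2
      rw [Pi.smul_apply, smul_eq_mul]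
      linear_combination h2
  have hGx : ∀ x : ι → F, G *ᵥ x = lam • x := by
    intro x
    have hx : x = ∑ k, x k • (Pi.single k 1 : ι → F) := pi_eq_sum_univ' x
    rw [hx, Matrix.mulVec_sum, Finset.smul_sum]
    apply Finset.sum_congr rfl
    intro k _
    rw [Matrix.mulVec_smul, hGk k, smul_comm]
  exact ⟨⟨lam, fun x => by rw [← hG]; exact hGx x⟩, hτ⟩

end Cfsg.Agent.Lib.Helper15.BalPW
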