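import Mathlib
import Cfsg.Agent.Lib.Helper76.BrRBStmt
import Cfsg.Agent.Lib.Helper74.BrauerT1
import Cfsg.Agent.Lib.CT.LinChar

/-!
# S4504 / ORB: `|N : C| = e` and `ξ|_C` is a sum of `e` linear characters, conjugates of one
of them
-/

set_option autoImplicit false
set_option linter.style.haveILetI false

namespace Cfsg.Agent.Lib.Helper15.BrRBORB

open Cfsg Cfsg.Agent.Lib.Helper76.BrRB Cfsg.Agent.Lib.CT Cfsg.Agent.Lib.CT.Wedderburn
  Cfsg.Agent.Lib.CT.Ops
open scoped ComplexConjugate Classical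

universe u

theorem main (hT1B : T1B.{u}) (hT1T : T1T.{u}) (hNCE : NCE.{u}) : ORB.{u} := by
  intro L _ _ p _ c
  letI : Fintype ↥(Subgroup.centralizer ((c.P : Subgroup L) : Set L)) := Fintype.ofFinite _
  have hξc : IsCharacter L c.ξ := isCharacter_of_irr c.hξ
  have hdegle : 2 * charDegree c.ξ + 1 ≤ p := le_of_eq c.hdeg
  have hnotker : ¬ ∀ x : L, x ∈ (c.P : Subgroup L) → c.ξ x = c.ξ 1 := by
    intro h
    have hbot : (c.P : Subgroup L) = ⊥ := by
      rw [Subgroup.eq_bot_iff_forall]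
      intro x hx
      exact c.hfaith x (h x hx)
    have hP := c.hP
    rw [hbot, Subgroup.card_bot] at hP
    exact (Fact.out : p.Prime).one_lt.ne hP
  have hidx : (Subgroup.centralizer ((c.P : Subgroup L) : Set L)).relIndex
      (Subgroup.normalizer ((c.P : Subgroup L) : Set L)) = charDegree c.ξ := by
    rcases hT1T p c.P c.hP ⟨c.ξ, c.hξ⟩ hdegle with h | h
    · exact absurd h hnotker
    · exact hNCE p c h
  refine ⟨hidx, ?_⟩
  rcases hT1B p c.P c.hP ⟨c.ξ, c.hξ⟩ hdegle with h1 | ⟨φ₀, ψ₀, hψ₀, hφ₀, hm, hdegle'⟩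
  · exact absurd h1 hnotker
  obtain ⟨S₀, hScard, hS⟩ := Cfsg.Agent.Lib.Helper21.BrL3.exists_orbit p c.P c.hP c.ξ hξc
    φ₀ ψ₀ hψ₀ hφ₀ hm
  have hres : IsCharacter ↥(Subgroup.centralizer ((c.P : Subgroup L) : Set L)) (fun k : ↥(Subgroup.centralizer ((c.P : Subgroup L) : Set L)) => c.ξ (k : L)) := isCharacter_restrict _ hξc
  have hsumdeg : ∑ φ ∈ S₀, charDegree (φ : ↥(Subgroup.centralizer ((c.P : Subgroup L) : Set L)) → ℂ) = (Subgroup.centralizer ((c.P : Subgroup L) : Set L)).relIndex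
      (Subgroup.normalizer ((c.P : Subgroup L) : Set L)) * charDegree (φ₀ : ↥(Subgroup.centralizer ((c.P : Subgroup L) : Set L)) → ℂ) := by
    rw [Finset.sum_congr rfl (fun φ hφ => (hS φ hφ).2.1), Finset.sum_const, smul_eq_mul,
      hScard]
  have hdeg' : charDegree (fun k : ↥(Subgroup.centralizer ((c.P : Subgroup L) : Set L)) => c.ξ (k : L)) ≤
      ∑ φ ∈ S₀, charDegree (φ : ↥(Subgroup.centralizer ((c.P : Subgroup L) : Set L)) → ℂ) := by
    rw [hsumdeg]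
    exact hdegle'
  obtain ⟨hsum, -⟩ := Cfsg.Agent.Lib.Helper67.BrL24.eq_sum_of_degree_le _ hres S₀
    (fun φ hφ => (hS φ hφ).1) hdeg'
  have h3 : charDegree c.ξ = ∑ φ ∈ S₀, charDegree (φ : ↥(Subgroup.centralizer ((c.P : Subgroup L) : Set L)) → ℂ) := by
    have h1 := hsum 1
    have h2 : ((charDegree c.ξ : ℕ) : ℂ) =
        ((∑ φ ∈ S₀, charDegree (φ : ↥(Subgroup.centralizer ((c.P : Subgroup L) : Set L)) → ℂ) : ℕ) : ℂ) := by
      rw [char_natCast_charDegree hξc, Nat.cast_sum]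
      rw [show c.ξ 1 = c.ξ ((1 : ↥(Subgroup.centralizer ((c.P : Subgroup L) : Set L))) : L) from rfl, h1]
      exact Finset.sum_congr rfl fun φ _ =>
        (char_natCast_charDegree (isCharacter_of_irr φ.2)).symm
    exact_mod_cast h2
  have he : 0 < charDegree c.ξ := by
    have h5 := c.hdeg
    have h6 := c.hp5
    omega
  have hφ₀1 : charDegree (φ₀ : ↥(Subgroup.centralizer ((c.P : Subgroup L) : Set L)) → ℂ) = 1 := by
    rw [hsumdeg, hidx] at h3
    have h7 : charDegree c.ξ * 1 = charDegree c.ξ * charDegree (φ₀ : ↥(Subgroup.centralizer ((c.P : Subgroup L) : Set L)) → ℂ) := by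
      rw [mul_one]
      exact h3
    exact (Nat.eq_of_mul_eq_mul_left he h7).symm
  have hφ₀one : (φ₀ : ↥(Subgroup.centralizer ((c.P : Subgroup L) : Set L)) → ℂ) 1 = 1 := by
    rw [← char_natCast_charDegree (isCharacter_of_irr φ₀.2), hφ₀1, Nat.cast_one]
  have hlin : ∀ φ : IrrCharacter ↥(Subgroup.centralizer ((c.P : Subgroup L) : Set L)), φ ∈ S₀ → (φ : ↥(Subgroup.centralizer ((c.P : Subgroup L) : Set L)) → ℂ) 1 = 1 := by
    intro φ hφ
    rw [← char_natCast_charDegree (isCharacter_of_irr φ.2), (hS φ hφ).2.1, hφ₀1, Nat.cast_one]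
  have hhom : ∀ φ : IrrCharacter ↥(Subgroup.centralizer ((c.P : Subgroup L) : Set L)), ∃ f : ↥(Subgroup.centralizer ((c.P : Subgroup L) : Set L)) →* ℂˣ,
      φ ∈ S₀ → ∀ k, (φ : ↥(Subgroup.centralizer ((c.P : Subgroup L) : Set L)) → ℂ) k = ((f k : ℂˣ) : ℂ) := by
    intro φ
    by_cases hφ : φ ∈ S₀
    · obtain ⟨f, hf⟩ := Cfsg.Agent.Lib.CT.LinChar.exists_hom_of_isCharacter (φ : ↥(Subgroup.centralizer ((c.P : Subgroup L) : Set L)) → ℂ)
        (isCharacter_of_irr φ.2) (hlin φ hφ)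
      exact ⟨f, fun _ => hf⟩
    · exact ⟨1, fun h => absurd h hφ⟩
  choose F hF using hhom
  have hFinj : ∀ φ ∈ S₀, ∀ φ' ∈ S₀, F φ = F φ' → φ = φ' := by
    intro φ hφ φ' hφ' h
    apply Subtype.ext
    funext k
    rw [hF φ hφ k, hF φ' hφ' k, h]
  refine ⟨S₀.image F, ψ₀, hψ₀, ?_, ?_, ?_⟩
  · rw [Finset.card_image_of_injOn (fun a ha b hb h => hFinj a ha b hb h), hScard, hidx]
  · intro k
    rw [Finset.sum_image (fun a ha b hb h => hFinj a ha b hb h), hsum k]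
    exact Finset.sum_congr rfl (fun φ hφ => hF φ hφ k)
  · intro μ hμ
    obtain ⟨φ, hφ, rfl⟩ := Finset.mem_image.mp hμ
    obtain ⟨n, hn, hnφ⟩ := (hS φ hφ).2.2
    refine ⟨n, hn, fun u u' k hk hu' => ?_⟩
    apply Units.ext
    rw [← hF φ hφ k, hnφ u u' k hk hu', hφ₀one, one_mul]

end Cfsg.Agent.Lib.Helper15.BrRBORB
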