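import Mathlib
import Cfsg.Agent.Lib.Helper32.D8Stmt

/-! S3716 piece INVCL: the involutions of `N` are `N`-conjugate to `a`, `w` or `a * b`
(finite computation in the normal form NF). -/

set_option autoImplicit false
universe u

namespace Cfsg.Agent.Lib.Helper15.D8INVCL

open Cfsg Cfsg.Agent.Lib.Helper32.D8Stmt

/-- the product rule on exponent tuples. -/
def mu (t t' : ℕ × ℕ × ℕ × ℕ × ℕ) : ℕ × ℕ × ℕ × ℕ × ℕ :=
  if t.2.2.2.2 % 2 = 0 then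
    (t.1 + (if t.2.2.1 % 2 = 0 then t'.1 else 2 * t'.1),
      t.2.1 + (if t.2.2.2.1 % 2 = 0 then t'.2.1 else 2 * t'.2.1),
      t.2.2.1 + t'.2.2.1, t.2.2.2.1 + t'.2.2.2.1, t.2.2.2.2 + t'.2.2.2.2)
  else
    (t.1 + (if t.2.2.1 % 2 = 0 then t'.2.1 else 2 * t'.2.1),
      t.2.1 + (if t.2.2.2.1 % 2 = 0 then t'.1 else 2 * t'.1),
      t.2.2.1 + t'.2.2.2.1, t.2.2.2.1 + t'.2.2.1, t.2.2.2.2 + t'.2.2.2.2)

/-- reduction of exponents. -/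
def red (t : ℕ × ℕ × ℕ × ℕ × ℕ) : ℕ × ℕ × ℕ × ℕ × ℕ :=
  (t.1 % 3, t.2.1 % 3, t.2.2.1 % 2, t.2.2.2.1 % 2, t.2.2.2.2 % 2)

/-- evaluation of a tuple. -/
def ev {G : Type u} [Group G] (x y a b w : G) (t : ℕ × ℕ × ℕ × ℕ × ℕ) : G :=
  x ^ t.1 * y ^ t.2.1 * a ^ t.2.2.1 * b ^ t.2.2.2.1 * w ^ t.2.2.2.2

def tup (q : Fin 3 × Fin 3 × Fin 2 × Fin 2 × Fin 2) : ℕ × ℕ × ℕ × ℕ × ℕ :=
  (q.1.1, q.2.1.1, q.2.2.1.1, q.2.2.2.1.1, q.2.2.2.2.1)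

set_option maxHeartbeats 4000000 in
set_option synthInstance.maxHeartbeats 2000000 in
set_option synthInstance.maxSize 4096 in
theorem dec : ∀ q : Fin 3 × Fin 3 × Fin 2 × Fin 2 × Fin 2,
    red (mu (tup q) (tup q)) ≠ (0, 0, 0, 0, 0) ∨
    tup q = (0, 0, 0, 0, 0) ∨ ∃ q' : Fin 3 × Fin 3 × Fin 2 × Fin 2 × Fin 2,
      (red (mu (tup q) (tup q')) = red (mu (tup q') (0, 0, 1, 0, 0)) ∨
       red (mu (tup q) (tup q')) = red (mu (tup q') (0, 0, 0, 0, 1)) ∨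
       red (mu (tup q) (tup q')) = red (mu (tup q') (0, 0, 1, 1, 0))) := by
  decide +kernel

theorem main (hNF : NF.{u}) : INVCL.{u} := by
  intro G _ _ T N x y a b w hC u hu hu2
  obtain ⟨-, h2, h3, h4, -, -, -⟩ := hNF hC
  -- basic transfer lemmas
  have ev_mul : ∀ t t' : ℕ × ℕ × ℕ × ℕ × ℕ,
      ev x y a b w t * ev x y a b w t' = ev x y a b w (mu t t') := by
    rintro ⟨i, j, k, l, m⟩ ⟨i', j', k', l', m'⟩
    have := h4 i j k l m i' j' k' l' m'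
    simp only [ev, mu]
    rw [this]
    split_ifs <;> rfl
  have ev_red : ∀ t : ℕ × ℕ × ℕ × ℕ × ℕ, ev x y a b w t = ev x y a b w (red t) := by
    rintro ⟨i, j, k, l, m⟩
    simp only [ev, red]
    rw [← pow_eq_pow_mod i hC.x3, ← pow_eq_pow_mod j hC.y3, ← pow_eq_pow_mod k hC.a2,
      ← pow_eq_pow_mod l hC.b2, ← pow_eq_pow_mod m hC.w2]
  have ev_inj : ∀ t t' : ℕ × ℕ × ℕ × ℕ × ℕ, ev x y a b w t = ev x y a b w t' → red t = red t' := by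
    rintro ⟨i, j, k, l, m⟩ ⟨i', j', k', l', m'⟩ h
    obtain ⟨e1, e2, e3, e4, e5⟩ := h3 i j k l m i' j' k' l' m' h
    simp only [red, e1, e2, e3, e4, e5]
  have ev_mem : ∀ t : ℕ × ℕ × ℕ × ℕ × ℕ, ev x y a b w t ∈ N := by
    rintro ⟨i, j, k, l, m⟩
    exact (h2 _).mpr ⟨i, j, k, l, m, rfl⟩
  have ev_one : ev x y a b w (0, 0, 0, 0, 0) = 1 := by simp [ev]
  -- the element
  obtain ⟨i, j, k, l, m, rfl⟩ := (h2 u).mp hu
  have hu' : x ^ i * y ^ j * a ^ k * b ^ l * w ^ m = ev x y a b w (i, j, k, l, m) := rfl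
  rw [hu'] at hu2 ⊢
  rw [ev_red] at hu2 ⊢
  obtain ⟨i0, hi0⟩ : ∃ i0 : Fin 3, i0.1 = i % 3 := ⟨⟨i % 3, Nat.mod_lt _ (by norm_num)⟩, rfl⟩
  obtain ⟨j0, hj0⟩ : ∃ j0 : Fin 3, j0.1 = j % 3 := ⟨⟨j % 3, Nat.mod_lt _ (by norm_num)⟩, rfl⟩
  obtain ⟨k0, hk0⟩ : ∃ k0 : Fin 2, k0.1 = k % 2 := ⟨⟨k % 2, Nat.mod_lt _ (by norm_num)⟩, rfl⟩
  obtain ⟨l0, hl0⟩ : ∃ l0 : Fin 2, l0.1 = l % 2 := ⟨⟨l % 2, Nat.mod_lt _ (by norm_num)⟩, rfl⟩
  obtain ⟨m0, hm0⟩ : ∃ m0 : Fin 2, m0.1 = m % 2 := ⟨⟨m % 2, Nat.mod_lt _ (by norm_num)⟩, rfl⟩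
  have ht : red (i, j, k, l, m) = tup (i0, j0, k0, l0, m0) := by
    simp only [red, tup, hi0, hj0, hk0, hl0, hm0]
  rw [ht] at hu2 ⊢
  have hsq : red (mu (tup (i0, j0, k0, l0, m0)) (tup (i0, j0, k0, l0, m0))) = (0, 0, 0, 0, 0) := by
    have h := ev_inj (mu (tup (i0, j0, k0, l0, m0)) (tup (i0, j0, k0, l0, m0))) (0, 0, 0, 0, 0) (by
      rw [← ev_mul, ev_one, ← pow_two]; exact hu2)
    rw [h]; rfl
  have key : ∀ (n c : ℕ × ℕ × ℕ × ℕ × ℕ),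
      red (mu (tup (i0, j0, k0, l0, m0)) n) = red (mu n c) →
      ev x y a b w (tup (i0, j0, k0, l0, m0)) =
        ev x y a b w n * ev x y a b w c * (ev x y a b w n)⁻¹ := by
    intro n c h
    have h' : ev x y a b w (tup (i0, j0, k0, l0, m0)) * ev x y a b w n =
        ev x y a b w n * ev x y a b w c := by
      rw [ev_mul, ev_mul, ev_red, h, ← ev_red]
    rw [← h', mul_inv_cancel_right]
  rcases dec (i0, j0, k0, l0, m0) with h | h | ⟨q', h | h | h⟩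
  · exact absurd hsq h
  · left; rw [h, ev_one]
  · right; left
    refine ⟨ev x y a b w (tup q'), ev_mem _, ?_⟩
    have := key _ _ h
    simpa [ev] using this
  · right; right; left
    refine ⟨ev x y a b w (tup q'), ev_mem _, ?_⟩
    have := key _ _ h
    simpa [ev] using this
  · right; right; right
    refine ⟨ev x y a b w (tup q'), ev_mem _, ?_⟩
    have := key _ _ h
    simpa [ev] using this

end Cfsg.Agent.Lib.Helper15.D8INVCL
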