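import Mathlib
import Cfsg.Prelude.Def_Characters
import Cfsg.Agent.Lib.CT.Clifford
import Cfsg.Agent.Lib.CT.NormOne
import Cfsg.Agent.Lib.CT.Ops
import Cfsg.Agent.Lib.CT.LinChar
import Cfsg.Agent.Lib.CT.IndChar
import Cfsg.Agent.Lib.CT.FrobRec
import Cfsg.Agent.Lib.Helper15.CliffTools
import Cfsg.Agent.Lib.Helper25.CliffordCorr
import Cfsg.Agent.Lib.Helper81.CliffCorr
import Cfsg.Agent.Lib.Helper78.CliffordCorr
import Cfsg.Agent.S0886

/-!
Tools for fully ramified characters (Isaacs, Howlett–Isaacs): transitivity of "lying over",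
uniqueness of the character over a fully ramified character in a Sylow section, and the action
on the characters of an intermediate normal subgroup with cyclic quotient.
-/

set_option autoImplicit false

namespace Cfsg.Agent.Lib.Helper15.FRam

open Cfsg Cfsg.Agent.Lib.CT Cfsg.Agent.Lib.CT.Wedderburn Cfsg.Agent.Lib.Helper15.CliffTools
open scoped ComplexConjugate

universe u

variable {X : Type u} [Group X]

/-- "Lying over" is transitive: if `φ` is a constituent of `η` on `N` and `θ` one of `φ` on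
`Y ≤ N`, then `θ` is a constituent of `η` on `Y`. -/
theorem over_trans [Fintype X] (Y N : Subgroup X) [Fintype Y] [Fintype N] (hYN : Y ≤ N)
    {η : X → ℂ} (hη : IsCharacter X η) {φ : N → ℂ} (hφ : IsIrrCharacter N φ)
    {θ : Y → ℂ} (hθ : IsIrrCharacter Y θ)
    (h1 : classInner (fun n : N => η n) φ ≠ 0)
    (h2 : classInner (fun y : Y => φ ⟨y, hYN y.2⟩) θ ≠ 0) :
    classInner (fun y : Y => η y) θ ≠ 0 := by
  classical
  have := finite_irrCharacter N
  have : Fintype (IrrCharacter N) := Fintype.ofFinite _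
  have hres : IsCharacter N (fun n : N => η n) := Ops.isCharacter_restrict N hη
  obtain ⟨m, hm, hexp⟩ := NormOne.exists_mult_sum hres
  have hk : ∀ ψ : IrrCharacter N, ∃ k : ℕ,
      classInner (fun y : Y => (ψ : N → ℂ) ⟨y, hYN y.2⟩) θ = k := fun ψ =>
    Clifford.classInner_char_nat
      (Ops.isCharacter_comp_hom (Subgroup.inclusion hYN) (isCharacter_of_irr ψ.2))
      (isCharacter_of_irr hθ)
  choose k hk using hk
  have hY : (fun y : Y => η y) =
      ∑ ψ : IrrCharacter N, (m ψ : ℂ) • (fun y : Y => (ψ : N → ℂ) ⟨y, hYN y.2⟩) := by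
    funext y
    have h := congrFun hexp ⟨y, hYN y.2⟩
    simp only [Finset.sum_apply, Pi.smul_apply, smul_eq_mul] at h ⊢
    exact h
  rw [hY, Orth.classInner_sum_left]
  simp_rw [Orth.classInner_smul_left, hk]
  have hm0 : m ⟨φ, hφ⟩ ≠ 0 := by
    intro h0
    apply h1
    rw [hm ⟨φ, hφ⟩, h0]
    simp
  have hk0 : k ⟨φ, hφ⟩ ≠ 0 := by
    intro h0
    apply h2
    rw [hk ⟨φ, hφ⟩, h0]
    simp
  have hpos : 0 < ∑ ψ : IrrCharacter N, m ψ * k ψ :=
    lt_of_lt_of_le (Nat.mul_pos (Nat.pos_of_ne_zero hm0) (Nat.pos_of_ne_zero hk0))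
      (Finset.single_le_sum (f := fun ψ => m ψ * k ψ) (fun _ _ => Nat.zero_le _)
        (Finset.mem_univ (⟨φ, hφ⟩ : IrrCharacter N)))
  have hcast : (∑ ψ : IrrCharacter N, (m ψ : ℂ) * (k ψ : ℂ)) =
      ((∑ ψ : IrrCharacter N, m ψ * k ψ : ℕ) : ℂ) := by
    push_cast
    rfl
  rw [hcast]
  exact_mod_cast hpos.ne'

/-- Every irreducible character of a subgroup lies under some irreducible character. -/
theorem exists_over [Fintype X] (N : Subgroup X) [Fintype N] {φ : N → ℂ}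
    (hφ : IsIrrCharacter N φ) :
    ∃ η : X → ℂ, IsIrrCharacter X η ∧ classInner (fun n : N => η n) φ ≠ 0 := by
  classical
  have hind : IsCharacter X (indFun N φ) := IndChar.isCharacter_indFun N φ (isCharacter_of_irr hφ)
  have hne : indFun N φ ≠ 0 := by
    intro h0
    have h1 := FrobRec.indFun_one (H := N) φ
    rw [h0] at h1
    have h2 : (N.index : ℂ) * φ 1 = 0 := by
      rw [← h1]; rfl
    rcases mul_eq_zero.mp h2 with h3 | h3
    · have : N.index ≠ 0 := Subgroup.index_ne_zero_of_finite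
      exact this (by exact_mod_cast h3)
    · obtain ⟨n, hn, hn1⟩ := Cfsg.Agent.Lib.Helper3.Irr.IsIrrCharacter.exists_apply_one_pos hφ
      rw [hn1] at h3
      have : n = 0 := by exact_mod_cast h3
      omega
  by_contra hcon
  push Not at hcon
  apply hne
  apply char_eq_zero_of_no_constituent hind
  intro ψ hψ
  have hfr := FrobRec.frobenius_reciprocity (H := N) φ ψ
    (Cfsg.Agent.Lib.Helper3.Irr.IsIrrCharacter.isClassFunction hψ)
  rw [hfr]
  have h0 := hcon ψ hψ
  rw [← Cfsg.Agent.Lib.Helper3.Irr.classInner_conj_symm, h0, map_zero]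

/-- If the character `Ψ` vanishes off `Y` and restricts to `e • θ` on `Y`, and the irreducible
`η` restricts to `b • θ`, then `[X : Y]` divides `e * b` (integrality of `[Ψ, η]`). -/
theorem index_dvd_mul [Fintype X] (Y : Subgroup X) [Fintype Y]
    {θ : Y → ℂ} (hθ : IsIrrCharacter Y θ) {Ψ : X → ℂ} (hΨ : IsCharacter X Ψ)
    (hvan : ∀ g : X, g ∉ Y → Ψ g = 0) (e : ℕ) (hΨY : (fun y : Y => Ψ y) = (e : ℂ) • θ)
    {η : X → ℂ} (hη : IsIrrCharacter X η) (b : ℕ) (hb : (fun y : Y => η y) = (b : ℂ) • θ) :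
    Y.index ∣ e * b := by
  classical
  obtain ⟨m, hm⟩ := Clifford.classInner_char_nat hΨ (isCharacter_of_irr hη)
  unfold classInner at hm
  have hsum : ∑ g : X, Ψ g * conj (η g) = (e : ℂ) * (b : ℂ) * (Nat.card Y : ℂ) := by
    rw [sum_eq_sum_subgroup_add Y]
    have h2 : ∑ g ∈ Finset.univ.filter (fun g => g ∉ Y), Ψ g * conj (η g) = 0 := by
      apply Finset.sum_eq_zero
      intro g hg
      rw [hvan g (Finset.mem_filter.mp hg).2, zero_mul]
    rw [h2, add_zero]
    have h1 : ∀ y : Y, Ψ y * conj (η y) = (e : ℂ) * (b : ℂ) * (θ y * conj (θ y)) := by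
      intro y
      have hΨy : Ψ y = (e : ℂ) * θ y := by
        have := congrFun hΨY y
        simpa using this
      have hηy : η y = (b : ℂ) * θ y := by
        have := congrFun hb y
        simpa using this
      rw [hΨy, hηy, map_mul, Complex.conj_natCast]
      ring
    simp_rw [h1]
    rw [← Finset.mul_sum, sum_mul_conj_irr hθ]
  rw [hsum] at hm
  have hX : (Nat.card X : ℂ) ≠ 0 := Nat.cast_ne_zero.mpr Nat.card_pos.ne'
  have hYc : (Nat.card Y : ℂ) ≠ 0 := Nat.cast_ne_zero.mpr Nat.card_pos.ne'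
  have hcard : Nat.card Y * Y.index = Nat.card X := Subgroup.card_mul_index Y
  have h3 : (e : ℂ) * (b : ℂ) * (Nat.card Y : ℂ) = (m : ℂ) * (Nat.card X : ℂ) := by
    field_simp at hm
    rw [hm, mul_comm]
  rw [← hcard] at h3
  push_cast at h3
  have h4 : (e : ℂ) * (b : ℂ) = (m : ℂ) * (Y.index : ℂ) := by
    have : ((e : ℂ) * (b : ℂ)) * (Nat.card Y : ℂ) = ((m : ℂ) * (Y.index : ℂ)) * (Nat.card Y : ℂ) := by
      rw [h3]; ring
    exact mul_right_cancel₀ hYc this
  have h5 : e * b = m * Y.index := by exact_mod_cast h4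
  exact ⟨m, by rw [h5, mul_comm]⟩

/-- Uniqueness of the irreducible character over a fully ramified invariant character: if
`[X : Y] = c²` and every irreducible `η` with `η_Y = b θ` has `c ∣ b`, then at most one
irreducible character of `X` lies over `θ`. -/
theorem unique_over_of_dvd [Fintype X] (Y : Subgroup X) [Fintype Y] (hY : Y.Normal)
    {θ : Y → ℂ} (hθ : IsIrrCharacter Y θ)
    (hinv : ∀ (g : X) (y : Y), θ ⟨g * y * g⁻¹, hY.conj_mem y y.2 g⟩ = θ y)
    (c : ℕ) (hc : c ^ 2 = Y.index)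
    (hdvd : ∀ (η : X → ℂ), IsIrrCharacter X η → ∀ b : ℕ, (fun y : Y => η y) = (b : ℂ) • θ →
      0 < b → c ∣ b)
    {η η' : X → ℂ} (hη : IsIrrCharacter X η) (hη' : IsIrrCharacter X η')
    (h1 : classInner (fun y : Y => η y) θ ≠ 0) (h2 : classInner (fun y : Y => η' y) θ ≠ 0) :
    η = η' := by
  classical
  have hcard : Nat.card Y * Y.index = Nat.card X := Subgroup.card_mul_index Y
  have hYpos : 0 < Nat.card Y := Nat.card_pos
  have hcpos : 0 < c := by
    rcases Nat.eq_zero_or_pos c with h0 | h0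
    · rw [h0] at hc
      have : Y.index ≠ 0 := Subgroup.index_ne_zero_of_finite
      exact absurd hc.symm (by simpa using this)
    · exact h0
  -- the key: any irreducible over θ restricts to c • θ and vanishes off Y
  have key : ∀ (ξ : X → ℂ), IsIrrCharacter X ξ → classInner (fun y : Y => ξ y) θ ≠ 0 →
      (fun y : Y => ξ y) = (c : ℂ) • θ ∧ ∀ g : X, g ∉ Y → ξ g = 0 := by
    intro ξ hξ hov
    obtain ⟨b, hb0, hb, _⟩ := restrict_eq_smul_of_invariant Y hY hξ hθ hinv hov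
    have hcb : c ∣ b := hdvd ξ hξ b hb hb0
    have hs1 := sum_mul_conj_restrict Y hθ b hb
    have hs2 := sum_mul_conj_irr hξ
    rw [sum_eq_sum_subgroup_add Y, hs1] at hs2
    have h3 : ∀ g : X, ξ g * conj (ξ g) = ((Complex.normSq (ξ g) : ℝ) : ℂ) :=
      fun g => Complex.mul_conj (ξ g)
    simp_rw [h3] at hs2
    rw [← Complex.ofReal_sum] at hs2
    have hs3 : ((b : ℝ) ^ 2 * (Nat.card Y : ℝ) +
        ∑ g ∈ Finset.univ.filter (fun g => g ∉ Y), Complex.normSq (ξ g)) = (Nat.card X : ℝ) := by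
      exact_mod_cast hs2
    have hnn : 0 ≤ ∑ g ∈ Finset.univ.filter (fun g => g ∉ Y), Complex.normSq (ξ g) :=
      Finset.sum_nonneg (fun g _ => Complex.normSq_nonneg (ξ g))
    have hle : (b : ℝ) ^ 2 * (Nat.card Y : ℝ) ≤ (Nat.card X : ℝ) := by linarith
    have hle' : b ^ 2 * Nat.card Y ≤ Nat.card X := by exact_mod_cast hle
    rw [← hcard, ← hc, mul_comm (Nat.card Y)] at hle'
    have hbc : b ^ 2 ≤ c ^ 2 := Nat.le_of_mul_le_mul_right hle' hYpos
    have hbc' : b ≤ c := by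
      by_contra hlt
      push Not at hlt
      have : c ^ 2 < b ^ 2 := Nat.pow_lt_pow_left hlt (by norm_num)
      omega
    have hbeq : b = c := le_antisymm hbc' (Nat.le_of_dvd hb0 hcb)
    subst hbeq
    refine ⟨hb, ?_⟩
    apply (vanish_off_iff Y hξ).mpr
    rw [hs1]
    have : (b : ℂ) ^ 2 * (Nat.card Y : ℂ) = ((b ^ 2 * Nat.card Y : ℕ) : ℂ) := by push_cast; ring
    rw [this, hc, mul_comm, hcard]
  obtain ⟨hr1, hv1⟩ := key η hη h1
  obtain ⟨hr2, hv2⟩ := key η' hη' h2
  by_contra hne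
  have horth : classInner η η' = 0 := by
    have := irr_orthonormal (⟨η, hη⟩ : IrrCharacter X) ⟨η', hη'⟩
    rw [if_neg (fun h => hne (congrArg Subtype.val h))] at this
    exact this
  unfold classInner at horth
  have hsum : ∑ g : X, η g * conj (η' g) = (c : ℂ) * (c : ℂ) * (Nat.card Y : ℂ) := by
    rw [sum_eq_sum_subgroup_add Y]
    have h2' : ∑ g ∈ Finset.univ.filter (fun g => g ∉ Y), η g * conj (η' g) = 0 := by
      apply Finset.sum_eq_zero
      intro g hg
      rw [hv1 g (Finset.mem_filter.mp hg).2, zero_mul]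
    rw [h2', add_zero]
    have h1' : ∀ y : Y, η y * conj (η' y) = (c : ℂ) * (c : ℂ) * (θ y * conj (θ y)) := by
      intro y
      have e1 : η y = (c : ℂ) * θ y := by
        have := congrFun hr1 y
        simpa using this
      have e2 : η' y = (c : ℂ) * θ y := by
        have := congrFun hr2 y
        simpa using this
      rw [e1, e2, map_mul, Complex.conj_natCast]
      ring
    simp_rw [h1']
    rw [← Finset.mul_sum, sum_mul_conj_irr hθ]
  rw [hsum] at horth
  have hX : (Nat.card X : ℂ) ≠ 0 := Nat.cast_ne_zero.mpr Nat.card_pos.ne'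
  have hYc : (Nat.card Y : ℂ) ≠ 0 := Nat.cast_ne_zero.mpr hYpos.ne'
  have hcc : (c : ℂ) ≠ 0 := Nat.cast_ne_zero.mpr hcpos.ne'
  rcases mul_eq_zero.mp horth with h | h
  · exact hX (inv_eq_zero.mp h)
  · exact mul_ne_zero (mul_ne_zero hcc hcc) hYc h

/-- Extension of an invariant irreducible character of the normal subgroup `N` to an
intermediate subgroup `T` when `X / N` is cyclic. -/
theorem exists_ext_sub [Finite X] (N : Subgroup X) [hN : N.Normal] (T : Subgroup X) (hNT : N ≤ T)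
    (hcyc : IsCyclic (X ⧸ N)) {φ : N → ℂ} (hφ : IsIrrCharacter N φ)
    (hinv : ∀ t ∈ T, ∀ n : N, φ ⟨t * n * t⁻¹, hN.conj_mem n n.2 t⟩ = φ n) :
    ∃ ψ : T → ℂ, IsIrrCharacter T ψ ∧ ∀ n : N, ψ ⟨n, hNT n.2⟩ = φ n := by
  classical
  let e : N.subgroupOf T ≃* N := Subgroup.subgroupOfEquivOfLe hNT
  have hϑ : IsIrrCharacter (N.subgroupOf T) (fun x => φ (e x)) :=
    Ops.isIrrCharacter_comp_mulEquiv e hφ
  -- the quotient T / (N ∩ T) embeds in X / N
  have hle : N.subgroupOf T ≤ Subgroup.comap T.subtype N := le_of_eq rfl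
  let f : T ⧸ N.subgroupOf T →* X ⧸ N :=
    QuotientGroup.map (N.subgroupOf T) N T.subtype hle
  have hf : Function.Injective f := by
    rw [← MonoidHom.ker_eq_bot_iff]
    show (QuotientGroup.map (N.subgroupOf T) N T.subtype hle).ker = ⊥
    rw [QuotientGroup.ker_map]
    exact QuotientGroup.map_mk'_self _
  have hcyc' : IsCyclic (T ⧸ N.subgroupOf T) := isCyclic_of_injective f hf
  obtain ⟨χ, hχ, hχN⟩ := Cfsg.Agent.S0886.result (N.subgroupOf T) hcyc' (fun x => φ (e x)) hϑ (by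
    intro g n
    have h := hinv (g : X) g.2 (e n)
    have e1 : e ⟨g * n * g⁻¹, (inferInstance : (N.subgroupOf T).Normal).conj_mem (n : T) n.2 g⟩ =
        ⟨(g : X) * (e n : X) * (g : X)⁻¹, hN.conj_mem (e n) (e n).2 g⟩ := by
      apply Subtype.ext
      simp [e]
    show φ (e ⟨g * n * g⁻¹, _⟩) = φ (e n)
    rw [e1]
    exact h)
  refine ⟨χ, hχ, fun n => ?_⟩
  have h := hχN ⟨⟨n, hNT n.2⟩, by rw [Subgroup.mem_subgroupOf]; exact n.2⟩
  have e2 : e ⟨⟨n, hNT n.2⟩, by rw [Subgroup.mem_subgroupOf]; exact n.2⟩ = n := by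
    apply Subtype.ext
    simp [e]
  rw [e2] at h
  exact h

/-- Under uniqueness of the irreducible character of `X` over `θ`, the irreducible characters
of the normal subgroup `N ≥ Y` lying over `θ` are conjugate. -/
theorem exists_conj_of_over [Fintype X] (Y N : Subgroup X) [Fintype Y] [Fintype N]
    (hN : N.Normal) (hYN : Y ≤ N) {θ : Y → ℂ} (hθ : IsIrrCharacter Y θ)
    (huniq : ∀ η η' : X → ℂ, IsIrrCharacter X η → IsIrrCharacter X η' →
      classInner (fun y : Y => η y) θ ≠ 0 → classInner (fun y : Y => η' y) θ ≠ 0 → η = η')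
    {φ φ' : N → ℂ} (hφ : IsIrrCharacter N φ) (hφ' : IsIrrCharacter N φ')
    (h1 : classInner (fun y : Y => φ ⟨y, hYN y.2⟩) θ ≠ 0)
    (h2 : classInner (fun y : Y => φ' ⟨y, hYN y.2⟩) θ ≠ 0) :
    ∃ x : X, φ' = Clifford.conjFun N hN φ x := by
  obtain ⟨η, hη, hηφ⟩ := exists_over N hφ
  obtain ⟨η', hη', hηφ'⟩ := exists_over N hφ'
  have ho := over_trans Y N hYN (isCharacter_of_irr hη) hφ hθ hηφ h1
  have ho' := over_trans Y N hYN (isCharacter_of_irr hη') hφ' hθ hηφ' h2
  have heq := huniq η η' hη hη' ho ho'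
  subst heq
  exact Clifford.exists_conj_of_constituent N hN hη hφ hφ' hηφ hηφ'

/-- Under uniqueness of the irreducible character of `X` over `θ` and `X / N` cyclic, the
stabilizer in `X` of an irreducible character of `N` over `θ` is `N`. -/
theorem mem_of_conj_eq [Fintype X] (Y N : Subgroup X) [Fintype Y] [Fintype N]
    [hN : N.Normal] (hYN : Y ≤ N) (hcyc : IsCyclic (X ⧸ N))
    {θ : Y → ℂ} (hθ : IsIrrCharacter Y θ)
    (huniq : ∀ η η' : X → ℂ, IsIrrCharacter X η → IsIrrCharacter X η' →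
      classInner (fun y : Y => η y) θ ≠ 0 → classInner (fun y : Y => η' y) θ ≠ 0 → η = η')
    {φ : N → ℂ} (hφ : IsIrrCharacter N φ)
    (h1 : classInner (fun y : Y => φ ⟨y, hYN y.2⟩) θ ≠ 0)
    (x : X) (hx : Clifford.conjFun N hN φ x = φ) : x ∈ N := by
  classical
  by_contra hxN
  let T : Subgroup X := Cfsg.Agent.Lib.Helper78.CliffordCorr.inertia N hN φ
  have hT : ∀ g : X, g ∈ T ↔ ∀ n : N, φ ⟨g * n * g⁻¹, hN.conj_mem n n.2 g⟩ = φ n :=
    fun g => Cfsg.Agent.Lib.Helper78.CliffordCorr.mem_inertia N hN φ g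
  have hNT : N ≤ T := Cfsg.Agent.Lib.Helper78.CliffordCorr.le_inertia N hN
    (Cfsg.Agent.Lib.Helper3.Irr.IsIrrCharacter.isClassFunction hφ)
  have hxT : x ∈ T := hx
  have : Fintype T := Fintype.ofFinite _
  obtain ⟨ψ, hψ, hψN⟩ := exists_ext_sub N T hNT hcyc hφ (fun t ht n => (hT t).mp ht n)
  -- a linear character of `T`, trivial on `N`, nontrivial at `x`
  have hxq : (QuotientGroup.mk x : X ⧸ N) ≠ 1 := by
    intro h
    exact hxN ((QuotientGroup.eq_one_iff x).mp h)
  obtain ⟨β₀, hβ₀⟩ : ∃ β₀ : X ⧸ N →* ℂˣ, β₀ (QuotientGroup.mk x) ≠ 1 := by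
    let inst : CommGroup (X ⧸ N) := IsCyclic.commGroup
    have : NeZero (Monoid.exponent (X ⧸ N)) := ⟨Monoid.exponent_ne_zero_of_finite⟩
    exact CommGroup.exists_apply_ne_one_of_hasEnoughRootsOfUnity (X ⧸ N) ℂ hxq
  let β : T →* ℂˣ := (β₀.comp (QuotientGroup.mk' N)).comp T.subtype
  have hβN : ∀ t : T, (t : X) ∈ N → β t = 1 := by
    intro t ht
    show β₀ (QuotientGroup.mk (t : X)) = 1
    rw [(QuotientGroup.eq_one_iff (t : X)).mpr ht, map_one]
  have hβx : β ⟨x, hxT⟩ ≠ 1 := hβ₀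
  let μ : T → ℂ := fun t => ((β t : ℂˣ) : ℂ)
  have hμ : IsCharacter T μ := LinChar.isCharacter_of_hom β
  have hμ1 : μ 1 = 1 := by simp [μ]
  have hψ₂ : IsIrrCharacter T (μ * ψ) := LinChar.isIrrCharacter_linear_mul hμ hμ1 hψ
  have hresψ : (fun n : N => ψ ⟨n, hNT n.2⟩) = (1 : ℂ) • φ := by
    funext n
    simp [hψN n]
  have hresψ₂ : (fun n : N => (μ * ψ) ⟨n, hNT n.2⟩) = (1 : ℂ) • φ := by
    funext n
    have : μ ⟨n, hNT n.2⟩ = 1 := by
      show ((β ⟨n, hNT n.2⟩ : ℂˣ) : ℂ) = 1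
      rw [hβN ⟨n, hNT n.2⟩ n.2]
      rfl
    simp [hψN n, this]
  have hφφ : classInner φ φ ≠ 0 := by
    have := irr_orthonormal (⟨φ, hφ⟩ : IrrCharacter N) ⟨φ, hφ⟩
    rw [if_pos rfl] at this
    rw [this]
    exact one_ne_zero
  have hovψ : classInner (fun n : N => ψ ⟨n, hNT n.2⟩) φ ≠ 0 := by
    rw [hresψ, one_smul]; exact hφφ
  have hovψ₂ : classInner (fun n : N => (μ * ψ) ⟨n, hNT n.2⟩) φ ≠ 0 := by
    rw [hresψ₂, one_smul]; exact hφφ
  obtain ⟨hirr, hinj⟩ := Cfsg.Agent.Lib.Helper25.CliffordCorr.ind_irr_inj N T hNT φ hφ hT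
  have hI1 := hirr ψ hψ hovψ
  have hI2 := hirr (μ * ψ) hψ₂ hovψ₂
  have hr1 := Cfsg.Agent.Lib.Helper25.CliffordCorr.inner_ind_res N T hNT φ hφ hT ψ 1 hresψ
  have hr2 := Cfsg.Agent.Lib.Helper25.CliffordCorr.inner_ind_res N T hNT φ hφ hT (μ * ψ) 1 hresψ₂
  have ho1 := over_trans Y N hYN (isCharacter_of_irr hI1) hφ hθ (by rw [hr1]; exact one_ne_zero) h1
  have ho2 := over_trans Y N hYN (isCharacter_of_irr hI2) hφ hθ (by rw [hr2]; exact one_ne_zero) h1
  have heq := huniq _ _ hI1 hI2 ho1 ho2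
  have hψeq : ψ = μ * ψ := hinj ψ (μ * ψ) hψ hψ₂ hovψ hovψ₂ heq
  -- Gallagher: `μ` is trivial
  have := finite_irrCharacter (N.subgroupOf T)
  have : Fintype (IrrCharacter (N.subgroupOf T)) := Fintype.ofFinite _
  have : Fintype (N.subgroupOf T) := Fintype.ofFinite _
  let e : N.subgroupOf T ≃* N := Subgroup.subgroupOfEquivOfLe hNT
  have hϑ : IsIrrCharacter (N.subgroupOf T) (fun y => φ (e y)) :=
    Ops.isIrrCharacter_comp_mulEquiv e hφ
  have hres : Cfsg.Agent.Lib.Helper81.Cliff.res (N.subgroupOf T) ψ = fun y => φ (e y) := by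
    funext y
    have h := hψN (e y)
    have e3 : (⟨(e y : X), hNT (e y).2⟩ : T) = (y : T) := by
      apply Subtype.ext
      simp [e]
    rw [e3] at h
    exact h
  have hall := Cfsg.Agent.Lib.Helper81.CliffCorr.gallagher_lin (N.subgroupOf T)
    (⟨ψ, hψ⟩ : IrrCharacter T) (⟨fun y => φ (e y), hϑ⟩ : IrrCharacter (N.subgroupOf T)) hres
    μ hμ hμ1 (by
      intro m hm
      show ((β m : ℂˣ) : ℂ) = 1
      rw [hβN m (Subgroup.mem_subgroupOf.mp hm)]
      rfl) (by
      intro t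
      have := congrFun hψeq t
      simp only [Pi.mul_apply] at this
      exact this.symm)
  apply hβx
  have h := hall ⟨x, hxT⟩
  exact Units.val_eq_one.mp h

/-- Some irreducible character of the intermediate subgroup `N` lies over `θ`. -/
theorem exists_mid_over [Fintype X] (Y N : Subgroup X) [Fintype Y] [Fintype N] (hYN : Y ≤ N)
    {θ : Y → ℂ} (hθ : IsIrrCharacter Y θ) :
    ∃ φ : N → ℂ, IsIrrCharacter N φ ∧ classInner (fun y : Y => φ ⟨y, hYN y.2⟩) θ ≠ 0 := by
  classical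
  obtain ⟨η, hη, hηθ⟩ := exists_over Y hθ
  have := finite_irrCharacter N
  have : Fintype (IrrCharacter N) := Fintype.ofFinite _
  have hres : IsCharacter N (fun n : N => η n) := Ops.isCharacter_restrict N (isCharacter_of_irr hη)
  obtain ⟨m, hm, hexp⟩ := NormOne.exists_mult_sum hres
  have hY : (fun y : Y => η y) =
      ∑ ψ : IrrCharacter N, (m ψ : ℂ) • (fun y : Y => (ψ : N → ℂ) ⟨y, hYN y.2⟩) := by
    funext y
    have h := congrFun hexp ⟨y, hYN y.2⟩
    simp only [Finset.sum_apply, Pi.smul_apply, smul_eq_mul] at h ⊢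
    exact h
  by_contra hcon
  push Not at hcon
  apply hηθ
  rw [hY, Orth.classInner_sum_left]
  apply Finset.sum_eq_zero
  intro ψ _
  rw [Orth.classInner_smul_left, hcon ψ.1 ψ.2, mul_zero]

end Cfsg.Agent.Lib.Helper15.FRam
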