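import Mathlib

/-!
A group-theoretic complement lemma: if a subgroup `R` with `K R = G` containing a Sylow
`p`-subgroup `S` permutes a set `J` on which `S` is transitive with point stabilizers inside the
normal subgroup `K`, then the image of `S` in `G / K` has a complement.
-/

set_option autoImplicit false

namespace Cfsg.Agent.Lib.Helper15.FRamGrp

open scoped Pointwise

theorem exists_compl_of_action {G : Type*} [Group G] [Finite G] {α : Type*}
    (act : G → α → α) (hact1 : ∀ a, act 1 a = a)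
    (hactmul : ∀ g h a, act (g * h) a = act g (act h a))
    (p : ℕ) [Fact p.Prime] (K : Subgroup G) [K.Normal] (S : Sylow p G) (R : Subgroup G)
    (hSR : (S : Subgroup G) ≤ R) (hKR : K ⊔ R = ⊤)
    (J : Set α) (hJne : J.Nonempty)
    (hRJ : ∀ g ∈ R, ∀ j ∈ J, act g j ∈ J)
    (htrans : ∀ j ∈ J, ∀ j' ∈ J, ∃ s ∈ (S : Subgroup G), act s j = j')
    (hstab : ∀ j ∈ J, ∀ s ∈ (S : Subgroup G), act s j = j → s ∈ K) :
    ∃ M : Subgroup (G ⧸ K),
      M.IsComplement' ((S : Subgroup G).map (QuotientGroup.mk' K)) := by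
  classical
  obtain ⟨j₀, hj₀⟩ := hJne
  have hinv : ∀ g a, act g⁻¹ (act g a) = a := by
    intro g a
    rw [← hactmul, inv_mul_cancel, hact1]
  let A : Subgroup G :=
    { carrier := {g | g ∈ R ∧ act g j₀ = j₀}
      mul_mem' := by
        rintro a b ⟨ha, ha'⟩ ⟨hb, hb'⟩
        exact ⟨R.mul_mem ha hb, by rw [hactmul, hb', ha']⟩
      one_mem' := ⟨R.one_mem, hact1 j₀⟩
      inv_mem' := by
        rintro a ⟨ha, ha'⟩
        refine ⟨R.inv_mem ha, ?_⟩
        have := hinv a j₀
        rw [ha'] at this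
        exact this }
  have hAR : A ≤ R := fun g hg => hg.1
  have hAfix : ∀ g ∈ A, act g j₀ = j₀ := fun g hg => hg.2
  -- every `p`-subgroup of `A` lies in `K`
  have hpK : ∀ T : Sylow p A, ((T : Subgroup A).map A.subtype) ≤ K := by
    intro T t ht
    obtain ⟨t', ht', rfl⟩ := ht
    -- the p-subgroup `T.map` of `R`
    let SR : Sylow p R := S.subtype hSR
    have hTp : IsPGroup p (((T : Subgroup A).map A.subtype).subgroupOf R) := by
      have h1 : IsPGroup p ((T : Subgroup A).map A.subtype) := T.2.map A.subtype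
      exact h1.comap_of_injective (R.subtype) (Subgroup.subtype_injective R)
    obtain ⟨Q, hQ⟩ := hTp.exists_le_sylow
    obtain ⟨r, hr⟩ := MulAction.exists_smul_eq R Q SR
    have htR : (t' : G) ∈ R := hAR t'.2
    have htQ : (⟨(t' : G), htR⟩ : R) ∈ Q := by
      apply hQ
      rw [Subgroup.mem_subgroupOf]
      exact ⟨t', ht', rfl⟩
    have hx : MulAut.conj r • (⟨(t' : G), htR⟩ : R) ∈ MulAut.conj r • (Q : Subgroup R) :=
      Subgroup.smul_mem_pointwise_smul _ _ _ htQ
    rw [← Sylow.coe_subgroup_smul, hr] at hx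
    have hx' : (r : G) * (t' : G) * (r : G)⁻¹ ∈ (S : Subgroup G) := by
      have h2 : MulAut.conj r • (⟨(t' : G), htR⟩ : R) ∈ (S : Subgroup G).subgroupOf R := by
        have h3 : ((SR : Sylow p R) : Subgroup R) = (S : Subgroup G).subgroupOf R :=
          Sylow.coe_subtype S hSR
        rw [← h3]
        exact hx
      rw [Subgroup.mem_subgroupOf] at h2
      simpa [MulAut.smul_def] using h2
    have hfix : act ((r : G) * (t' : G) * (r : G)⁻¹) (act (r : G) j₀) = act (r : G) j₀ := by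
      rw [← hactmul, inv_mul_cancel_right, hactmul, hAfix (t' : G) t'.2]
    have hK := hstab (act (r : G) j₀) (hRJ r r.2 j₀ hj₀) _ hx' hfix
    have hconj : (r : G)⁻¹ * ((r : G) * (t' : G) * (r : G)⁻¹) * ((r : G)⁻¹)⁻¹ ∈ K :=
      ‹K.Normal›.conj_mem _ hK _
    have e : (r : G)⁻¹ * ((r : G) * (t' : G) * (r : G)⁻¹) * ((r : G)⁻¹)⁻¹ = (t' : G) := by group
    rw [e] at hconj
    exact hconj
  have hrel : ¬ p ∣ K.relIndex A := by
    obtain ⟨T⟩ : Nonempty (Sylow p A) := inferInstance
    have hle : (T : Subgroup A) ≤ K.subgroupOf A := by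
      intro t ht
      rw [Subgroup.mem_subgroupOf]
      exact hpK T ⟨t, ht, rfl⟩
    have hdvd : (K.subgroupOf A).index ∣ (T : Subgroup A).index := Subgroup.index_dvd_of_le hle
    intro hp
    exact T.not_dvd_index (dvd_trans hp hdvd)
  let M₀ : Subgroup G := K ⊔ A
  refine ⟨M₀.map (QuotientGroup.mk' K), ?_⟩
  apply Subgroup.isComplement'_of_disjoint_and_mul_eq_univ
  · apply Subgroup.disjoint_of_coprime_natCard
    have hcardM : Nat.card (M₀.map (QuotientGroup.mk' K)) = K.relIndex A := by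
      rw [← Subgroup.relIndex_ker, QuotientGroup.ker_mk', Subgroup.relIndex_sup_left]
    have hP : IsPGroup p ((S : Subgroup G).map (QuotientGroup.mk' K)) := S.2.map _
    obtain ⟨n, hn⟩ := IsPGroup.iff_card.mp hP
    rw [hcardM, hn]
    apply Nat.Coprime.pow_right
    exact (Nat.coprime_comm.mp ((Nat.Prime.coprime_iff_not_dvd Fact.out).mpr hrel))
  · apply Set.eq_univ_of_forall
    intro q
    obtain ⟨g, rfl⟩ := QuotientGroup.mk_surjective q
    have hg : g ∈ (↑(K ⊔ R) : Set G) := by rw [hKR]; trivial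
    rw [Subgroup.normal_mul] at hg
    obtain ⟨k, hk, r, hr, rfl⟩ := hg
    have hr' : r⁻¹ ∈ R := R.inv_mem hr
    obtain ⟨s, hs, hs'⟩ := htrans j₀ hj₀ (act r⁻¹ j₀) (hRJ r⁻¹ hr' j₀ hj₀)
    have ha : r * s ∈ A := by
      refine ⟨R.mul_mem hr (hSR hs), ?_⟩
      rw [hactmul, hs']
      have := hinv r⁻¹ j₀
      rw [inv_inv] at this
      exact this
    refine ⟨QuotientGroup.mk (k * (r * s)), ?_, QuotientGroup.mk s⁻¹, ?_, ?_⟩
    · exact ⟨k * (r * s), Subgroup.mul_mem_sup hk ha, rfl⟩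
    · exact ⟨s⁻¹, (S : Subgroup G).inv_mem hs, rfl⟩
    · show (QuotientGroup.mk (k * (r * s)) : G ⧸ K) * QuotientGroup.mk s⁻¹ = QuotientGroup.mk (k * r)
      rw [← QuotientGroup.mk_mul]
      congr 1
      group

end Cfsg.Agent.Lib.Helper15.FRamGrp
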