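import Mathlib
import Cfsg.Prelude.Def_Characters
import Cfsg.Agent.Lib.Helper15.FRam
import Cfsg.Agent.Lib.Helper15.FRamGrp

/-!
Fully ramified characters and cyclic Sylow subgroups of quotients (Howlett–Isaacs): if `χ` is
fully ramified over `Z ⊴ G`, `Z ≤ K ⊴ G` and a Sylow `p`-subgroup of `G / K` is cyclic, then it
has a complement in `G / K`.
-/

set_option autoImplicit false

namespace Cfsg.Agent.Lib.Helper15.FRamMain

open Cfsg Cfsg.Agent.Lib.CT Cfsg.Agent.Lib.CT.Wedderburn Cfsg.Agent.Lib.Helper15.CliffTools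
open Cfsg.Agent.Lib.Helper15.FRam
open scoped ComplexConjugate

universe u

variable {G : Type u} [Group G]

/-- extension by zero from the subgroup `K.subgroupOf Q` of `Q` to `G` -/
noncomputable def ext (Q K : Subgroup G) (φ : K.subgroupOf Q → ℂ) : G → ℂ := by
  classical
  exact fun h => if hh : h ∈ Q ∧ h ∈ K then
    φ ⟨⟨h, hh.1⟩, Subgroup.mem_subgroupOf.mpr hh.2⟩ else 0

theorem ext_of_mem (Q K : Subgroup G) (φ : K.subgroupOf Q → ℂ) {h : G} (hQ : h ∈ Q)
    (hK : h ∈ K) : ext Q K φ h = φ ⟨⟨h, hQ⟩, Subgroup.mem_subgroupOf.mpr hK⟩ := by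
  unfold ext
  rw [dif_pos ⟨hQ, hK⟩]

theorem ext_of_not_mem (Q K : Subgroup G) (φ : K.subgroupOf Q → ℂ) {h : G}
    (hh : ¬ (h ∈ Q ∧ h ∈ K)) : ext Q K φ h = 0 := by
  unfold ext
  rw [dif_neg hh]

/-- A fully ramified character vanishes off the subgroup. -/
theorem vanish_off [Fintype G] (Z : Subgroup G) (χ : IrrCharacter G) (θ : IrrCharacter Z)
    (e : ℕ) (he : e ^ 2 = Z.index)
    (hχZ : ∀ z : Z, (χ : G → ℂ) z = (e : ℂ) * (θ : Z → ℂ) z) :
    ∀ g : G, g ∉ Z → (χ : G → ℂ) g = 0 := by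
  classical
  have : Fintype Z := Fintype.ofFinite _
  apply (vanish_off_iff Z χ.2).mpr
  rw [sum_mul_conj_restrict Z θ.2 e (by funext z; simp [hχZ z])]
  have hcard : Nat.card Z * Z.index = Nat.card G := Subgroup.card_mul_index Z
  rw [← hcard, ← he]
  push_cast
  ring

theorem theta_inv (Z : Subgroup G) [hZ : Z.Normal] (χ : IrrCharacter G) (θ : IrrCharacter Z)
    (e : ℕ) (he0 : e ≠ 0) (hχZ : ∀ z : Z, (χ : G → ℂ) z = (e : ℂ) * (θ : Z → ℂ) z)
    (g : G) (z : Z) :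
    (θ : Z → ℂ) ⟨g * z * g⁻¹, hZ.conj_mem z z.2 g⟩ = (θ : Z → ℂ) z := by
  have h1 := hχZ ⟨g * z * g⁻¹, hZ.conj_mem z z.2 g⟩
  have h2 := hχZ z
  have hcl := (Cfsg.Agent.Lib.Helper3.Irr.IsIrrCharacter.isClassFunction χ.2) (z : G) g
  simp only at h1
  rw [hcl, h2] at h1
  exact (mul_left_cancel₀ (Nat.cast_ne_zero.mpr he0) h1).symm

theorem card_inf_mul_relIndex (B C : Subgroup G) :
    Nat.card (B ⊓ C : Subgroup G) * B.relIndex C = Nat.card C := by
  have := Subgroup.relIndex_mul_relIndex (⊥ : Subgroup G) (B ⊓ C) C bot_le inf_le_right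
  rw [Subgroup.relIndex_bot_left, Subgroup.relIndex_bot_left, Subgroup.inf_relIndex_right] at this
  exact this

theorem not_dvd_relIndex [Finite G] (p : ℕ) [Fact p.Prime] (K : Subgroup G) [K.Normal]
    (S : Sylow p G) : ¬ p ∣ (S : Subgroup G).relIndex K := by
  set A : Subgroup G := (S : Subgroup G) with hA
  have hE1 := card_inf_mul_relIndex A K
  have hE2 := card_inf_mul_relIndex K A
  rw [inf_comm] at hE2
  have hE3 := card_inf_mul_relIndex K (A ⊔ K)
  rw [inf_of_le_left le_sup_right, Subgroup.relIndex_sup_right] at hE3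
  have hE4 := card_inf_mul_relIndex A (A ⊔ K)
  rw [inf_of_le_left le_sup_left] at hE4
  have hApos : 0 < Nat.card A := Nat.card_pos
  have h1 : Nat.card A * A.relIndex (A ⊔ K) = Nat.card A * A.relIndex K := by
    rw [hE4, ← hE3, ← hE1, ← hE2]
    ring
  have h2 : A.relIndex (A ⊔ K) = A.relIndex K := Nat.eq_of_mul_eq_mul_left hApos h1
  have h3 : A.relIndex (A ⊔ K) * (A ⊔ K).index = A.index := Subgroup.relIndex_mul_index le_sup_left
  intro hp
  apply S.not_dvd_index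
  rw [← h3, h2]
  exact dvd_mul_of_dvd_left hp _

/-- Frattini argument for `S ⊓ K`. -/
theorem sup_normalizer_eq_top [Finite G] (p : ℕ) [Fact p.Prime] (K : Subgroup G) [K.Normal]
    (S : Sylow p G) :
    K ⊔ Subgroup.normalizer (((S : Subgroup G) ⊓ K : Subgroup G) : Set G) = ⊤ := by
  have hp : IsPGroup p (((S : Subgroup G) ⊓ K).subgroupOf K) := by
    have h1 : IsPGroup p ((S : Subgroup G) ⊓ K : Subgroup G) := S.2.to_le inf_le_left
    exact h1.comap_of_injective K.subtype (Subgroup.subtype_injective K)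
  have hidx : ¬ p ∣ (((S : Subgroup G) ⊓ K).subgroupOf K).index := by
    have : (((S : Subgroup G) ⊓ K).subgroupOf K).index = (S : Subgroup G).relIndex K := by
      rw [Subgroup.inf_subgroupOf_right]
      rfl
    rw [this]
    exact not_dvd_relIndex p K S
  let PK : Sylow p K := hp.toSylow hidx
  have h := Sylow.normalizer_sup_eq_top PK
  have hmap : ((PK : Subgroup K).map K.subtype) = (S : Subgroup G) ⊓ K := by
    rw [IsPGroup.toSylow_coe, Subgroup.subgroupOf_map_subtype, inf_assoc, inf_idem]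
  rw [hmap] at h
  rw [sup_comm]
  exact h

/-- Howlett–Isaacs: for `χ` fully ramified over `Z ⊴ G` and `Z ≤ K ⊴ G`, a cyclic Sylow
`p`-subgroup of `G / K` has a complement. -/
theorem main [Finite G] (Z : Subgroup G) [hZ : Z.Normal] (χ : IrrCharacter G)
    (θ : IrrCharacter Z) (e : ℕ) (he : e ^ 2 = Z.index)
    (hχZ : ∀ z : Z, (χ : G → ℂ) z = (e : ℂ) * (θ : Z → ℂ) z)
    (K : Subgroup G) [hK : K.Normal] (hZK : Z ≤ K) (p : ℕ) [Fact p.Prime]
    (P : Sylow p (G ⧸ K)) (hcyc : IsCyclic P) :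
    ∃ M : Subgroup (G ⧸ K), M.IsComplement' (P : Subgroup (G ⧸ K)) := by
  classical
  have : Fintype G := Fintype.ofFinite _
  have hp : p.Prime := Fact.out
  obtain ⟨S, hS⟩ := Sylow.mapSurjective_surjective (QuotientGroup.mk'_surjective K) p P
  have hSP : (S : Subgroup G).map (QuotientGroup.mk' K) = (P : Subgroup (G ⧸ K)) := by
    rw [← hS]
    rfl
  have he0 : e ≠ 0 := by
    intro h0
    rw [h0] at he
    have : Z.index ≠ 0 := Subgroup.index_ne_zero_of_finite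
    exact this (by rw [← he]; norm_num)
  let Q : Subgroup G := Z ⊔ (S : Subgroup G)
  have hZQ : Z ≤ Q := le_sup_left
  have hSQ : (S : Subgroup G) ≤ Q := le_sup_right
  have hQmem : ∀ x : G, x ∈ Q → ∃ z ∈ Z, ∃ s ∈ (S : Subgroup G), z * s = x := by
    intro x hx
    have hx' : x ∈ (↑(Z ⊔ (S : Subgroup G)) : Set G) := hx
    rw [Subgroup.normal_mul] at hx'
    obtain ⟨z, hz, s, hs, hzs⟩ := hx'
    exact ⟨z, hz, s, hs, hzs⟩
  let Y : Subgroup Q := Z.subgroupOf Q
  let N : Subgroup Q := K.subgroupOf Q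
  have hYN : Y ≤ N := fun y hy => Subgroup.mem_subgroupOf.mpr (hZK (Subgroup.mem_subgroupOf.mp hy))
  have hYn : Y.Normal := inferInstance
  have hNn : N.Normal := inferInstance
  have : Fintype Q := Fintype.ofFinite _
  have : Fintype Y := Fintype.ofFinite _
  have : Fintype N := Fintype.ofFinite _
  let eY : Y ≃* Z := Subgroup.subgroupOfEquivOfLe hZQ
  have heY : ∀ y : Y, ((eY y : Z) : G) = ((y : Q) : G) := fun y => rfl
  let θQ : Y → ℂ := fun y => (θ : Z → ℂ) (eY y)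
  have hθQ : IsIrrCharacter Y θQ := Ops.isIrrCharacter_comp_mulEquiv eY θ.2
  let Ψ : Q → ℂ := fun q => (χ : G → ℂ) q
  have hΨ : IsCharacter Q Ψ := Ops.isCharacter_restrict Q (isCharacter_of_irr χ.2)
  have hvanG := vanish_off Z χ θ e he hχZ
  have hΨvan : ∀ q : Q, q ∉ Y → Ψ q = 0 := fun q hq =>
    hvanG (q : G) (fun h => hq (Subgroup.mem_subgroupOf.mpr h))
  have hΨY : (fun y : Y => Ψ y) = (e : ℂ) • θQ := by
    funext y
    have h := hχZ (eY y)
    rw [heY] at h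
    simpa using h
  have hinvQ : ∀ (g : Q) (y : Y), θQ ⟨g * y * g⁻¹, hYn.conj_mem y y.2 g⟩ = θQ y := by
    intro g y
    have h := theta_inv Z χ θ e he0 hχZ (g : G) (eY y)
    have e1 : eY ⟨g * y * g⁻¹, hYn.conj_mem y y.2 g⟩ =
        ⟨(g : G) * (eY y : G) * (g : G)⁻¹, hZ.conj_mem (eY y) (eY y).2 g⟩ := by
      apply Subtype.ext
      rw [heY]
      simp [heY]
    show (θ : Z → ℂ) (eY ⟨g * y * g⁻¹, _⟩) = (θ : Z → ℂ) (eY y)
    rw [e1]
    exact h
  -- the index of Y in Q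
  set v : ℕ := e.factorization p with hv
  set c : ℕ := p ^ v with hc
  have hcpos : 0 < c := pow_pos hp.pos v
  have hidx : Y.index = c ^ 2 := by
    have h1 : Y.index = Z.relIndex Q := rfl
    rw [h1]
    have h2 : Z.relIndex Q = Z.relIndex (S : Subgroup G) := Subgroup.relIndex_sup_left _ _
    rw [h2]
    have h3 : Z.relIndex (S : Subgroup G) = Nat.card ((S : Subgroup G).map (QuotientGroup.mk' Z)) := by
      rw [← Subgroup.relIndex_ker, QuotientGroup.ker_mk']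
    rw [h3]
    have h4 := Sylow.card_eq_multiplicity (S.mapSurjective (QuotientGroup.mk'_surjective Z))
    have h5 : Nat.card ((S : Subgroup G).map (QuotientGroup.mk' Z)) =
        p ^ (Nat.card (G ⧸ Z)).factorization p := h4
    rw [h5]
    have h6 : Nat.card (G ⧸ Z) = e ^ 2 := by rw [he]; rfl
    rw [h6, Nat.factorization_pow]
    simp only [Finsupp.smul_apply, smul_eq_mul]
    rw [hc, ← pow_mul, mul_comm]
  set e' : ℕ := e / c with he'
  have hce : e = c * e' := (Nat.mul_div_cancel' (Nat.ordProj_dvd e p)).symm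
  have hcop : Nat.Coprime c e' := (Nat.coprime_ordCompl hp he0).pow_left v
  have hdvd : ∀ (η : Q → ℂ), IsIrrCharacter Q η → ∀ b : ℕ, (fun y : Y => η y) = (b : ℂ) • θQ →
      0 < b → c ∣ b := by
    intro η hη b hb _
    have h := index_dvd_mul Y hθQ hΨ hΨvan e hΨY hη b hb
    rw [hidx] at h
    have h1 : c * c ∣ c * (e' * b) := by
      have : c * (e' * b) = e * b := by rw [hce]; ring
      rw [this, ← sq]
      exact h
    have h2 : c ∣ e' * b := Nat.dvd_of_mul_dvd_mul_left hcpos h1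
    exact hcop.dvd_of_dvd_mul_left h2
  have huniq : ∀ η η' : Q → ℂ, IsIrrCharacter Q η → IsIrrCharacter Q η' →
      classInner (fun y : Y => η y) θQ ≠ 0 → classInner (fun y : Y => η' y) θQ ≠ 0 → η = η' :=
    fun η η' hη hη' h1 h2 => unique_over_of_dvd Y hYn hθQ hinvQ c hidx.symm hdvd hη hη' h1 h2
  -- Q / N is cyclic
  have hcycX : IsCyclic (Q ⧸ N) := by
    have hle : N ≤ Subgroup.comap Q.subtype K := le_of_eq rfl
    let f : Q ⧸ N →* G ⧸ K := QuotientGroup.map N K Q.subtype hle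
    have hf : Function.Injective f := by
      rw [← MonoidHom.ker_eq_bot_iff]
      show (QuotientGroup.map N K Q.subtype hle).ker = ⊥
      rw [QuotientGroup.ker_map]
      exact QuotientGroup.map_mk'_self _
    have hfP : ∀ x, f x ∈ P := by
      intro x
      obtain ⟨q, rfl⟩ := QuotientGroup.mk_surjective x
      obtain ⟨z, hz, s, hs, hzs⟩ := hQmem (q : G) q.2
      have h1 : f (QuotientGroup.mk q) = (QuotientGroup.mk (q : G) : G ⧸ K) := rfl
      rw [h1, ← hzs]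
      have h2 : (QuotientGroup.mk (z * s) : G ⧸ K) = QuotientGroup.mk s := by
        rw [QuotientGroup.mk_mul, (QuotientGroup.eq_one_iff z).mpr (hZK hz), one_mul]
      rw [h2]
      have h3 : (QuotientGroup.mk s : G ⧸ K) ∈ (S : Subgroup G).map (QuotientGroup.mk' K) :=
        ⟨s, hs, rfl⟩
      rw [hSP] at h3
      exact h3
    let f' : Q ⧸ N →* P := f.codRestrict P hfP
    have hf' : Function.Injective f' := (MonoidHom.injective_codRestrict f P hfP).mpr hf
    exact isCyclic_of_injective f' hf'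
  -- the action and the set J
  let act : G → (G → ℂ) → (G → ℂ) := fun g f x => f (g⁻¹ * x * g)
  have hact1 : ∀ a, act 1 a = a := by
    intro a
    funext x
    show a (1⁻¹ * x * 1) = a x
    simp
  have hactmul : ∀ g h a, act (g * h) a = act g (act h a) := by
    intro g h a
    funext x
    show a ((g * h)⁻¹ * x * (g * h)) = a (h⁻¹ * (g⁻¹ * x * g) * h)
    congr 1
    group
  let J : Set (G → ℂ) := {f | ∃ φ : N → ℂ, IsIrrCharacter N φ ∧
    classInner (fun y : Y => φ ⟨y, hYN y.2⟩) θQ ≠ 0 ∧ f = ext Q K φ}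
  have hJne : J.Nonempty := by
    obtain ⟨φ, hφ, hov⟩ := exists_mid_over Y N hYN hθQ
    exact ⟨ext Q K φ, φ, hφ, hov, rfl⟩
  let R : Subgroup G := Subgroup.normalizer ((Q ⊓ K : Subgroup G) : Set G)
  have hQKmem : ∀ g ∈ Subgroup.normalizer (((S : Subgroup G) ⊓ K : Subgroup G) : Set G),
      ∀ x : G, x ∈ Q ⊓ K → g * x * g⁻¹ ∈ Q ⊓ K := by
    intro g hg x hx
    obtain ⟨z, hz, s, hs, hzs⟩ := hQmem x hx.1
    have hsK : s ∈ K := by
      have : s = z⁻¹ * x := by rw [← hzs]; group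
      rw [this]
      exact K.mul_mem (K.inv_mem (hZK hz)) hx.2
    have h1 : g * s * g⁻¹ ∈ ((S : Subgroup G) ⊓ K : Subgroup G) :=
      ((Subgroup.mem_normalizer_iff.mp hg) s).mp ⟨hs, hsK⟩
    have h2 : g * x * g⁻¹ = (g * z * g⁻¹) * (g * s * g⁻¹) := by rw [← hzs]; group
    refine ⟨?_, hK.conj_mem x hx.2 g⟩
    rw [h2]
    exact Q.mul_mem (hZQ (hZ.conj_mem z hz g)) (hSQ h1.1)
  have hNR : Subgroup.normalizer (((S : Subgroup G) ⊓ K : Subgroup G) : Set G) ≤ R := by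
    intro g hg
    rw [Subgroup.mem_normalizer_iff]
    intro x
    constructor
    · intro hx
      exact hQKmem g hg x hx
    · intro hx
      have h := hQKmem g⁻¹ (Subgroup.inv_mem _ hg) _ hx
      have e1 : g⁻¹ * (g * x * g⁻¹) * g⁻¹⁻¹ = x := by group
      rw [e1] at h
      exact h
  have hKR : K ⊔ R = ⊤ := by
    apply top_le_iff.mp
    rw [← sup_normalizer_eq_top p K S]
    exact sup_le_sup_left hNR K
  have hSR : (S : Subgroup G) ≤ R := by
    intro s hs
    rw [Subgroup.mem_normalizer_iff]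
    intro x
    constructor
    · rintro ⟨hxQ, hxK⟩
      exact ⟨Q.mul_mem (Q.mul_mem (hSQ hs) hxQ) (Q.inv_mem (hSQ hs)), hK.conj_mem x hxK s⟩
    · rintro ⟨h1, h2⟩
      have e1 : x = s⁻¹ * (s * x * s⁻¹) * s := by group
      refine ⟨?_, ?_⟩
      · show x ∈ Q
        rw [e1]
        exact Q.mul_mem (Q.mul_mem (Q.inv_mem (hSQ hs)) h1) (hSQ hs)
      · show x ∈ K
        have h3 := hK.conj_mem _ h2 s⁻¹
        rw [inv_inv, ← e1] at h3
        exact h3
  have hRJ : ∀ g ∈ R, ∀ j ∈ J, act g j ∈ J := by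
    rintro g hg j ⟨φ, hφ, hov, rfl⟩
    have hg1 : ∀ x : G, x ∈ Q → x ∈ K → g⁻¹ * x * g ∈ Q := fun x hxQ hxK =>
      ((Subgroup.mem_normalizer_iff''.mp hg x).mp ⟨hxQ, hxK⟩).1
    have hg2 : ∀ x : G, x ∈ Q → x ∈ K → g * x * g⁻¹ ∈ Q := fun x hxQ hxK =>
      ((Subgroup.mem_normalizer_iff.mp hg x).mp ⟨hxQ, hxK⟩).1
    have hK1 : ∀ x : G, x ∈ K → g⁻¹ * x * g ∈ K := fun x hx => by
      have := hK.conj_mem x hx g⁻¹
      rwa [inv_inv] at this
    have hZ1 : ∀ x : G, x ∈ Z → g⁻¹ * x * g ∈ Z := fun x hx => by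
      have := hZ.conj_mem x hx g⁻¹
      rwa [inv_inv] at this
    let cN : N ≃* N :=
      { toFun := fun n => ⟨⟨g⁻¹ * ((n : Q) : G) * g,
            hg1 _ (n : Q).2 (Subgroup.mem_subgroupOf.mp n.2)⟩,
          Subgroup.mem_subgroupOf.mpr (hK1 _ (Subgroup.mem_subgroupOf.mp n.2))⟩
        invFun := fun n => ⟨⟨g * ((n : Q) : G) * g⁻¹,
            hg2 _ (n : Q).2 (Subgroup.mem_subgroupOf.mp n.2)⟩,
          Subgroup.mem_subgroupOf.mpr (hK.conj_mem _ (Subgroup.mem_subgroupOf.mp n.2) g)⟩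
        left_inv := fun n => by
          apply Subtype.ext
          apply Subtype.ext
          show g * (g⁻¹ * ((n : Q) : G) * g) * g⁻¹ = ((n : Q) : G)
          group
        right_inv := fun n => by
          apply Subtype.ext
          apply Subtype.ext
          show g⁻¹ * (g * ((n : Q) : G) * g⁻¹) * g = ((n : Q) : G)
          group
        map_mul' := fun n m => by
          apply Subtype.ext
          apply Subtype.ext
          show g⁻¹ * (((n : Q) : G) * ((m : Q) : G)) * g =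
            (g⁻¹ * ((n : Q) : G) * g) * (g⁻¹ * ((m : Q) : G) * g)
          group }
    let cY : Y ≃* Y :=
      { toFun := fun y => ⟨⟨g⁻¹ * ((y : Q) : G) * g,
            hZQ (hZ1 _ (Subgroup.mem_subgroupOf.mp y.2))⟩,
          Subgroup.mem_subgroupOf.mpr (hZ1 _ (Subgroup.mem_subgroupOf.mp y.2))⟩
        invFun := fun y => ⟨⟨g * ((y : Q) : G) * g⁻¹,
            hZQ (hZ.conj_mem _ (Subgroup.mem_subgroupOf.mp y.2) g)⟩,
          Subgroup.mem_subgroupOf.mpr (hZ.conj_mem _ (Subgroup.mem_subgroupOf.mp y.2) g)⟩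
        left_inv := fun y => by
          apply Subtype.ext
          apply Subtype.ext
          show g * (g⁻¹ * ((y : Q) : G) * g) * g⁻¹ = ((y : Q) : G)
          group
        right_inv := fun y => by
          apply Subtype.ext
          apply Subtype.ext
          show g⁻¹ * (g * ((y : Q) : G) * g⁻¹) * g = ((y : Q) : G)
          group
        map_mul' := fun n m => by
          apply Subtype.ext
          apply Subtype.ext
          show g⁻¹ * (((n : Q) : G) * ((m : Q) : G)) * g =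
            (g⁻¹ * ((n : Q) : G) * g) * (g⁻¹ * ((m : Q) : G) * g)
          group }
    let φ' : N → ℂ := fun n => φ (cN n)
    have hφ' : IsIrrCharacter N φ' := Ops.isIrrCharacter_comp_mulEquiv cN hφ
    have hov' : classInner (fun y : Y => φ' ⟨y, hYN y.2⟩) θQ ≠ 0 := by
      have e1 : (fun y : Y => φ' ⟨y, hYN y.2⟩) =
          fun y => (fun y' : Y => φ ⟨y', hYN y'.2⟩) (cY y) := by
        funext y
        rfl
      have e2 : (fun y => θQ (cY y)) = θQ := by
        funext y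
        show (θ : Z → ℂ) (eY (cY y)) = (θ : Z → ℂ) (eY y)
        have h := theta_inv Z χ θ e he0 hχZ g⁻¹ (eY y)
        have e3 : eY (cY y) = ⟨g⁻¹ * (eY y : G) * g⁻¹⁻¹, hZ.conj_mem (eY y) (eY y).2 g⁻¹⟩ := by
          apply Subtype.ext
          rw [heY]
          show g⁻¹ * ((y : Q) : G) * g = g⁻¹ * (eY y : G) * g⁻¹⁻¹
          rw [heY, inv_inv]
        rw [e3]
        exact h
      have h3 := Cfsg.Agent.Lib.Helper25.CliffordCorr.classInner_comp_equiv cY
        (fun y' : Y => φ ⟨y', hYN y'.2⟩) θQ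
      rw [e2] at h3
      rw [e1, h3]
      exact hov
    refine ⟨φ', hφ', hov', ?_⟩
    funext x
    show ext Q K φ (g⁻¹ * x * g) = ext Q K φ' x
    by_cases hx : x ∈ Q ∧ x ∈ K
    · rw [ext_of_mem Q K φ' hx.1 hx.2, ext_of_mem Q K φ (hg1 x hx.1 hx.2) (hK1 x hx.2)]
      rfl
    · rw [ext_of_not_mem Q K φ' hx, ext_of_not_mem Q K φ]
      intro h
      apply hx
      have h1 := hg2 _ h.1 h.2
      have h2 := hK.conj_mem _ h.2 g
      have e1 : g * (g⁻¹ * x * g) * g⁻¹ = x := by group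
      rw [e1] at h1 h2
      exact ⟨h1, h2⟩
  have htrans : ∀ j ∈ J, ∀ j' ∈ J, ∃ s ∈ (S : Subgroup G), act s j = j' := by
    rintro j ⟨φ, hφ, hov, rfl⟩ j' ⟨φ', hφ', hov', rfl⟩
    obtain ⟨x, hx⟩ := exists_conj_of_over Y N hNn hYN hθQ huniq hφ hφ' hov hov'
    obtain ⟨z, hz, s₀, hs₀, hzs⟩ := hQmem (x : G) x.2
    refine ⟨s₀⁻¹, (S : Subgroup G).inv_mem hs₀, ?_⟩
    funext h
    show ext Q K φ (s₀⁻¹⁻¹ * h * s₀⁻¹) = ext Q K φ' h
    rw [inv_inv]
    have hs₀Q : s₀ ∈ Q := hSQ hs₀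
    by_cases hh : h ∈ Q ∧ h ∈ K
    · have h1Q : s₀ * h * s₀⁻¹ ∈ Q := Q.mul_mem (Q.mul_mem hs₀Q hh.1) (Q.inv_mem hs₀Q)
      have h1K : s₀ * h * s₀⁻¹ ∈ K := hK.conj_mem h hh.2 s₀
      rw [ext_of_mem Q K φ h1Q h1K, ext_of_mem Q K φ' hh.1 hh.2, hx, Clifford.conjFun_apply]
      let w : N := ⟨⟨z, hZQ hz⟩, Subgroup.mem_subgroupOf.mpr (hZK hz)⟩
      let m : N := ⟨⟨s₀ * h * s₀⁻¹, h1Q⟩, Subgroup.mem_subgroupOf.mpr h1K⟩
      have hcl := (Cfsg.Agent.Lib.Helper3.Irr.IsIrrCharacter.isClassFunction hφ) m w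
      show φ m = _
      rw [← hcl]
      congr 1
      apply Subtype.ext
      apply Subtype.ext
      show z * (s₀ * h * s₀⁻¹) * z⁻¹ = (x : G) * h * (x : G)⁻¹
      rw [← hzs]
      group
    · rw [ext_of_not_mem Q K φ' hh, ext_of_not_mem Q K φ]
      intro h'
      apply hh
      have h1 : s₀⁻¹ * (s₀ * h * s₀⁻¹) * s₀ ∈ Q :=
        Q.mul_mem (Q.mul_mem (Q.inv_mem hs₀Q) h'.1) hs₀Q
      have h2 := hK.conj_mem _ h'.2 s₀⁻¹
      have e1 : s₀⁻¹ * (s₀ * h * s₀⁻¹) * s₀ = h := by group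
      rw [inv_inv] at h2
      rw [e1] at h1 h2
      exact ⟨h1, h2⟩
  have hstab : ∀ j ∈ J, ∀ s ∈ (S : Subgroup G), act s j = j → s ∈ K := by
    rintro j ⟨φ, hφ, hov, rfl⟩ s hs hfix
    have hsQ : s ∈ Q := hSQ hs
    have hsQ' : s⁻¹ ∈ Q := Q.inv_mem hsQ
    have hconj : Clifford.conjFun N hNn φ ⟨s⁻¹, hsQ'⟩ = φ := by
      funext n
      rw [Clifford.conjFun_apply]
      have hnQ : ((n : Q) : G) ∈ Q := (n : Q).2
      have hnK : ((n : Q) : G) ∈ K := Subgroup.mem_subgroupOf.mp n.2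
      have h1 := congrFun hfix ((n : Q) : G)
      have h2 : act s (ext Q K φ) ((n : Q) : G) = ext Q K φ (s⁻¹ * ((n : Q) : G) * s) := rfl
      rw [h2] at h1
      have hQ' : s⁻¹ * ((n : Q) : G) * s ∈ Q := Q.mul_mem (Q.mul_mem hsQ' hnQ) hsQ
      have hK' : s⁻¹ * ((n : Q) : G) * s ∈ K := by
        have := hK.conj_mem _ hnK s⁻¹
        rwa [inv_inv] at this
      rw [ext_of_mem Q K φ hQ' hK', ext_of_mem Q K φ hnQ hnK] at h1
      have e1 : (⟨(⟨s⁻¹, hsQ'⟩ : Q) * (n : Q) * (⟨s⁻¹, hsQ'⟩ : Q)⁻¹,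
          hNn.conj_mem n n.2 ⟨s⁻¹, hsQ'⟩⟩ : N) =
          ⟨⟨s⁻¹ * ((n : Q) : G) * s, hQ'⟩, Subgroup.mem_subgroupOf.mpr hK'⟩ := by
        apply Subtype.ext
        apply Subtype.ext
        show s⁻¹ * ((n : Q) : G) * s⁻¹⁻¹ = s⁻¹ * ((n : Q) : G) * s
        rw [inv_inv]
      rw [e1, h1]
    have hmem := mem_of_conj_eq Y N hYN hcycX hθQ huniq hφ hov ⟨s⁻¹, hsQ'⟩ hconj
    have h3 : s⁻¹ ∈ K := Subgroup.mem_subgroupOf.mp hmem
    have h4 := K.inv_mem h3
    rwa [inv_inv] at h4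
  obtain ⟨M, hM⟩ := Cfsg.Agent.Lib.Helper15.FRamGrp.exists_compl_of_action act hact1 hactmul
    p K S R hSR hKR J hJne hRJ htrans hstab
  refine ⟨M, ?_⟩
  rw [← hSP]
  exact hM

end Cfsg.Agent.Lib.Helper15.FRamMain
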