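import Mathlib
import Cfsg.Agent.Lib.Helper15.BGMain
import Cfsg.Agent.Lib.Helper76.GaloisConj
import Cfsg.Agent.Lib.Helper78.CliffordCorr
import Cfsg.Agent.S0065

/-!
Products of a faithful irreducible character with a Galois conjugate:  if `χ` is a faithful
irreducible character of `G`, `k` is prime to `|G|`, and `g ↦ χ g * χ (g ^ k)` is irreducible,
then `F(G) = Z(G)`.

* Step A: `χ` is not induced from a proper inertia group, hence every abelian normal subgroup
  of `G` is central.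
* Step B: for a normal subgroup `A` with central commutators, `Z(A) ≤ Z(G)`, `A ≰ Z(G)`, the
  double-counting identity `|A| |A ∩ Z| |χ(g)|² = P(g) ∑_{a ∈ A} |χ(g a)|²` forces the norm of
  the product to exceed one.
-/

set_option autoImplicit false
set_option linter.style.haveILetI false
set_option linter.unusedSectionVars false

namespace Cfsg.Agent.Lib.Helper15.GalProd

open Cfsg Cfsg.Agent.Lib.CT Cfsg.Agent.Lib.CT.Wedderburn Cfsg.Agent.Lib.CT.NormOne
  Cfsg.Agent.Lib.CT.Clifford Cfsg.Agent.Lib.CT.FrobRec Cfsg.Agent.Lib.CT.Ops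
  Cfsg.Agent.Lib.CT.Orth Cfsg.Agent.Lib.Helper15.Berger Cfsg.Agent.Lib.Helper15.BGMain
  Cfsg.Agent.Lib.Helper76.GaloisConj Cfsg.Agent.Lib.Helper78.CliffordCorr
open scoped ComplexConjugate

universe u

variable {G : Type u} [Group G] [Fintype G]

/-- The norm of a product of two characters is at least the product of the norms. -/
theorem inner_mul_ge {X Y : G → ℂ} (hX : IsCharacter G X) (hY : IsCharacter G Y) :
    ∃ a b c : ℕ, classInner X X = a ∧ classInner Y Y = b ∧
      classInner (fun t => X t * Y t) (fun t => X t * Y t) = c ∧ a * b ≤ c := by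
  classical
  haveI : Finite (IrrCharacter G) := finite_irrCharacter G
  haveI : Fintype (IrrCharacter G) := Fintype.ofFinite _
  set P : G → ℂ := fun t => X t * conj (X t) with hP
  set Q : G → ℂ := fun t => Y t * conj (Y t) with hQ
  have hPc : IsCharacter G P := isCharacter_mul hX (isCharacter_conj hX)
  have hQc : IsCharacter G Q := isCharacter_mul hY (isCharacter_conj hY)
  have h1 : classInner (fun t => X t * Y t) (fun t => X t * Y t) = classInner P Q := by
    unfold classInner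
    congr 1
    apply Finset.sum_congr rfl
    intro t _
    simp only [hP, hQ, map_mul, Complex.conj_conj]
    ring
  obtain ⟨p, hp, hexp⟩ := exists_mult_sum hPc
  have hq : ∀ τ : IrrCharacter G, ∃ q : ℕ, classInner τ.1 Q = q := fun τ =>
    classInner_char_nat (isCharacter_of_irr τ.2) hQc
  choose q hq using hq
  have h2 : classInner P Q = ((∑ τ, p τ * q τ : ℕ) : ℂ) := by
    conv_lhs => rw [hexp]
    rw [classInner_sum_left]
    push_cast
    apply Finset.sum_congr rfl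
    intro τ _
    rw [classInner_smul_left, hq]
  let one : IrrCharacter G := ⟨fun _ => 1, isIrrCharacter_one⟩
  refine ⟨p one, q one, ∑ τ, p τ * q τ, ?_, ?_, ?_, ?_⟩
  · rw [← hp one]
    unfold classInner
    congr 1
    apply Finset.sum_congr rfl
    intro t _
    simp [hP, one]
  · rw [← hq one]
    unfold classInner
    congr 1
    apply Finset.sum_congr rfl
    intro t _
    simp [hQ, one]
    ring
  · rw [h1, h2]
  · exact Finset.single_le_sum (f := fun τ => p τ * q τ) (fun _ _ => Nat.zero_le _)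
      (Finset.mem_univ one)

variable {χ : G → ℂ}

/-- Step A: constituents of the restriction of `χ` to a normal subgroup are invariant. -/
theorem invariant_of_prod_irr (hχ : IsIrrCharacter G χ) (k : ℕ) (hk : k.Coprime (Nat.card G))
    (hirr : IsIrrCharacter G (fun g => χ g * χ (g ^ k)))
    (B : Subgroup G) [Fintype B] (hB : B.Normal) (lam : B → ℂ) (hlam : IsIrrCharacter B lam)
    (hcon : classInner (fun n : B => χ n) lam ≠ 0) :
    ∀ (g : G) (n : B), lam ⟨g * n * g⁻¹, hB.conj_mem n n.2 g⟩ = lam n := by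
  classical
  have hχc := isCharacter_of_irr hχ
  have hχ1 : χ 1 ≠ 0 := irr_apply_one_ne_zero hχ
  set T : Subgroup G := inertia B hB lam with hTdef
  have hT : ∀ g : G, g ∈ T ↔ ∀ n : B, lam ⟨g * n * g⁻¹, hB.conj_mem (n : G) n.2 g⟩ = lam n :=
    fun g => mem_inertia B hB lam g
  have hBT : B ≤ T := le_inertia B hB (char_isClassFunction (isCharacter_of_irr hlam))
  obtain ⟨α, e, hα, hind, -⟩ := clifford_corr B hB lam hlam T hT hBT χ hχ hcon
  suffices htop : T = ⊤ by
    intro g n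
    exact (hT g).mp (htop ▸ Subgroup.mem_top g) n
  have hχk : IsCharacter G (fun g => χ (g ^ k)) := isCharacter_pow hχc k hk
  have hprod : indFun T (fun t : T => α t * χ ((t : G) ^ k)) = fun g => χ g * χ (g ^ k) := by
    rw [indFun_mul_classFunction T α (fun g => χ (g ^ k)) (char_isClassFunction hχk), hind]
    rfl
  have hβc : IsCharacter T (fun t : T => χ ((t : G) ^ k)) := isCharacter_restrict T hχk
  have hγc : IsCharacter T (fun t : T => α t * χ ((t : G) ^ k)) :=
    isCharacter_mul (isCharacter_of_irr hα) hβc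
  have hγ : IsIrrCharacter T (fun t : T => α t * χ ((t : G) ^ k)) :=
    irr_of_indFun_irr T hγc (hprod ▸ hirr)
  obtain ⟨a, b, c, ha, hb, hc, hle⟩ := inner_mul_ge (isCharacter_of_irr hα) hβc
  have ha1 : a = 1 := by
    have := inner_self_eq_one_of_irr hα
    rw [ha] at this
    exact_mod_cast this
  have hc1 : c = 1 := by
    have := inner_self_eq_one_of_irr hγ
    rw [hc] at this
    exact_mod_cast this
  have hb1 : b ≤ 1 := by
    rw [ha1, hc1, one_mul] at hle
    exact hle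
  have hresc : IsCharacter T (fun t : T => χ t) := isCharacter_restrict T hχc
  have hkT : (Nat.card T).Coprime k :=
    (Nat.Coprime.coprime_dvd_right (Subgroup.card_subgroup_dvd_card T) hk).symm
  have hreidx : classInner (fun t : T => χ ((t : G) ^ k)) (fun t : T => χ ((t : G) ^ k)) =
      classInner (fun t : T => χ t) (fun t : T => χ t) := by
    unfold classInner
    congr 1
    exact Equiv.sum_comp (powCoprime hkT) (fun t : T => χ t * conj (χ t))
  rw [hreidx] at hb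
  have hb0 : b ≠ 0 := by
    intro h0
    have h1 := Cfsg.Agent.Lib.Helper78.Gallagher.classInner_self_ne_zero hresc
      (by simpa using hχ1)
    rw [hb, h0] at h1
    exact h1 (by simp)
  have hbeq : b = 1 := by omega
  have hirrT : IsIrrCharacter T (fun t : T => χ t) := by
    apply irr_of_inner_self_eq_one hresc
    rw [hb, hbeq]; simp
  have hfrob := frobenius_reciprocity T α χ (char_isClassFunction hχc)
  rw [hind, inner_self_eq_one_of_irr hχ] at hfrob
  have horth := irr_orthonormal (⟨α, hα⟩ : IrrCharacter T) ⟨_, hirrT⟩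
  have heq : (⟨α, hα⟩ : IrrCharacter T) = ⟨_, hirrT⟩ := by
    by_contra hne
    rw [if_neg hne] at horth
    rw [horth] at hfrob
    exact one_ne_zero hfrob
  have hα1 : α 1 = χ 1 := by
    have := congrArg (fun f : IrrCharacter T => f.1 1) heq
    simpa using this
  have hdeg : χ 1 = (T.index : ℂ) * α 1 := by
    rw [← hind, indFun_one]
  rw [hα1] at hdeg
  have hidx : (T.index : ℂ) = 1 := by
    have h3 : (T.index : ℂ) * χ 1 = 1 * χ 1 := by rw [one_mul]; exact hdeg.symm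
    exact mul_right_cancel₀ hχ1 h3
  have hidx' : T.index = 1 := by exact_mod_cast hidx
  exact Subgroup.index_eq_one.mp hidx'

/-- Every abelian normal subgroup is central. -/
theorem abelian_normal_le_center (hχ : IsIrrCharacter G χ)
    (hfaith : ∀ g : G, χ g = χ 1 → g = 1) (k : ℕ) (hk : k.Coprime (Nat.card G))
    (hirr : IsIrrCharacter G (fun g => χ g * χ (g ^ k)))
    (B : Subgroup G) (hB : B.Normal) (hcomm : ∀ a ∈ B, ∀ b ∈ B, a * b = b * a) :
    B ≤ Subgroup.center G := by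
  classical
  haveI : Fintype B := Fintype.ofFinite B
  have hχc := isCharacter_of_irr hχ
  have hχ1 : χ 1 ≠ 0 := irr_apply_one_ne_zero hχ
  obtain ⟨lam, hcon⟩ := exists_constituent (isCharacter_restrict B hχc)
    (by simpa using hχ1)
  have hinv := invariant_of_prod_irr hχ k hk hirr B hB lam.1 lam.2 hcon
  obtain ⟨e, he, hres, -⟩ :=
    Cfsg.Agent.Lib.Helper15.CliffTools.restrict_eq_smul_of_invariant B hB hχ lam.2 hinv hcon
  intro b hb
  apply Kernel.mem_center_of_norm_eq hχc hfaith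
  have h1 := congrFun hres ⟨b, hb⟩
  have h2 := congrFun hres 1
  simp only [Pi.smul_apply, smul_eq_mul, Subgroup.coe_one] at h1 h2
  have hbc : (⟨b, hb⟩ : B) ∈ Subgroup.center B := by
    rw [Subgroup.mem_center_iff]
    intro x
    exact Subtype.ext (hcomm x x.2 b hb)
  have h3 := Kernel.norm_eq_of_mem_center lam.2 hbc
  rw [h1, h2, norm_mul, Complex.norm_natCast, h3]
  simp

section StepB

/-- The central character value. -/
noncomputable def zet (χ : G → ℂ) (z : G) : ℂ := χ z / χ 1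

theorem zet_mul_left (hχ : IsIrrCharacter G χ) {z : G} (hz : z ∈ Subgroup.center G) (g : G) :
    χ (z * g) = zet χ z * χ g := by
  obtain ⟨ω, h1, -, h3⟩ := Kernel.exists_scalar_of_norm_eq (isCharacter_of_irr hχ)
    (Kernel.norm_eq_of_mem_center hχ hz)
  have hχ1 := irr_apply_one_ne_zero hχ
  have : zet χ z = ω := by
    unfold zet
    rw [h3]
    field_simp
  rw [this, h1]

theorem zet_mul_right (hχ : IsIrrCharacter G χ) {z : G} (hz : z ∈ Subgroup.center G) (g : G) :
    χ (g * z) = zet χ z * χ g := by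
  rw [Subgroup.mem_center_iff.mp hz g, zet_mul_left hχ hz]

theorem zet_one (hχ : IsIrrCharacter G χ) : zet χ 1 = 1 :=
  div_self (irr_apply_one_ne_zero hχ)

theorem zet_mul (hχ : IsIrrCharacter G χ) {z w : G} (hz : z ∈ Subgroup.center G) :
    zet χ (z * w) = zet χ z * zet χ w := by
  unfold zet
  rw [zet_mul_left hχ hz w]
  unfold zet
  ring

theorem zet_eq_one (hχ : IsIrrCharacter G χ) (hfaith : ∀ g : G, χ g = χ 1 → g = 1) {z : G}
    (hz : zet χ z = 1) : z = 1 := by
  apply hfaith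
  have hχ1 := irr_apply_one_ne_zero hχ
  unfold zet at hz
  field_simp at hz
  exact hz

theorem zet_mul_conj (hχ : IsIrrCharacter G χ) {z : G} (hz : z ∈ Subgroup.center G) :
    zet χ z * conj (zet χ z) = 1 := by
  obtain ⟨d, hdpos, hd⟩ := irr_exists_apply_one_pos hχ
  have h1 := Kernel.norm_eq_of_mem_center hχ hz
  rw [hd, Complex.natCast_re] at h1
  rw [Complex.mul_conj, Complex.normSq_eq_norm_sq]
  unfold zet
  rw [norm_div, h1, hd, Complex.norm_natCast]
  have hd0 : (d : ℝ) ≠ 0 := Nat.cast_ne_zero.mpr hdpos.ne'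
  rw [div_self hd0]
  simp

variable (A : Subgroup G) [Fintype A]

open Classical in
/-- The twisted fixed-point sum. -/
noncomputable def PP (χ : G → ℂ) (A : Subgroup G) [Fintype A] (g : G) : ℂ :=
  ∑ b : A, if (b : G)⁻¹ * g * b * g⁻¹ ∈ Subgroup.center G
    then zet χ ((b : G)⁻¹ * g * b * g⁻¹) else 0

open Classical in
/-- The number of central elements of `A`. -/
noncomputable def zA (A : Subgroup G) [Fintype A] : ℕ :=
  (Finset.univ.filter (fun a : A => (a : G) ∈ Subgroup.center G)).card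

theorem zA_pos : 0 < zA A := by
  classical
  unfold zA
  apply Finset.card_pos.mpr
  exact ⟨1, Finset.mem_filter.mpr ⟨Finset.mem_univ _, by simp⟩⟩

open Classical in
theorem sum_b (hχ : IsIrrCharacter G χ) (hfaith : ∀ g : G, χ g = χ 1 → g = 1)
    (hA2 : ∀ a ∈ A, ∀ b ∈ A, a⁻¹ * b * a * b⁻¹ ∈ Subgroup.center G)
    (hA3 : ∀ a ∈ A, a ∉ Subgroup.center G → ∃ d ∈ A, a⁻¹ * d * a * d⁻¹ ≠ 1) (a : A) :
    ∑ b : A, zet χ ((a : G)⁻¹ * b * a * (b : G)⁻¹) =
      if (a : G) ∈ Subgroup.center G then (Nat.card A : ℂ) else 0 := by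
  classical
  split_ifs with h
  · have h1 : ∀ b : A, zet χ ((a : G)⁻¹ * b * a * (b : G)⁻¹) = 1 := by
      intro b
      have h2 : (a : G)⁻¹ * b * a * (b : G)⁻¹ = 1 := by
        have h3 := Subgroup.mem_center_iff.mp h (b : G)
        calc (a : G)⁻¹ * b * a * (b : G)⁻¹ = (a : G)⁻¹ * ((b : G) * a) * (b : G)⁻¹ := by group
          _ = (a : G)⁻¹ * ((a : G) * b) * (b : G)⁻¹ := by rw [h3]
          _ = 1 := by group
      rw [h2, zet_one hχ]
    simp_rw [h1]
    rw [Finset.sum_const, Finset.card_univ, nsmul_eq_mul, mul_one, Nat.card_eq_fintype_card]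
  · obtain ⟨d, hd, hne⟩ := hA3 a a.2 h
    have hzd : (a : G)⁻¹ * d * a * d⁻¹ ∈ Subgroup.center G := hA2 a a.2 d hd
    set S := ∑ b : A, zet χ ((a : G)⁻¹ * b * a * (b : G)⁻¹) with hS
    have h1 : S = zet χ ((a : G)⁻¹ * d * a * d⁻¹) * S := by
      calc S = ∑ b : A, zet χ ((a : G)⁻¹ * ((⟨d, hd⟩ : A) * b : A) * a *
            (((⟨d, hd⟩ : A) * b : A) : G)⁻¹) :=
          (Equiv.sum_comp (Equiv.mulLeft (⟨d, hd⟩ : A))
            (fun b : A => zet χ ((a : G)⁻¹ * b * a * (b : G)⁻¹))).symm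
        _ = ∑ b : A, zet χ ((a : G)⁻¹ * d * a * d⁻¹) *
            zet χ ((a : G)⁻¹ * b * a * (b : G)⁻¹) := by
          apply Finset.sum_congr rfl
          intro b _
          have hzb : (a : G)⁻¹ * b * a * (b : G)⁻¹ ∈ Subgroup.center G := hA2 a a.2 b b.2
          rw [← zet_mul hχ hzd]
          congr 1
          have h3 := Subgroup.mem_center_iff.mp hzb (d⁻¹ : G)
          simp only [Subgroup.coe_mul]
          calc (a : G)⁻¹ * (d * (b : G)) * a * (d * (b : G))⁻¹
              = (a : G)⁻¹ * d * a * ((a : G)⁻¹ * b * a * (b : G)⁻¹ * d⁻¹) := by group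
            _ = (a : G)⁻¹ * d * a * (d⁻¹ * ((a : G)⁻¹ * b * a * (b : G)⁻¹)) := by rw [h3]
            _ = (a : G)⁻¹ * d * a * d⁻¹ * ((a : G)⁻¹ * b * a * (b : G)⁻¹) := by group
        _ = zet χ ((a : G)⁻¹ * d * a * d⁻¹) * S := by rw [hS, Finset.mul_sum]
    have h2 : zet χ ((a : G)⁻¹ * d * a * d⁻¹) ≠ 1 := fun h' => hne (zet_eq_one hχ hfaith h')
    have h3 : (1 - zet χ ((a : G)⁻¹ * d * a * d⁻¹)) * S = 0 := by
      rw [sub_mul, one_mul, ← h1, sub_self]
    rcases mul_eq_zero.mp h3 with h4 | h4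
    · exact absurd (sub_eq_zero.mp h4).symm h2
    · exact h4

open Classical in
theorem sum_a (hχ : IsIrrCharacter G χ) (hfaith : ∀ g : G, χ g = χ 1 → g = 1) [hA : A.Normal]
    (hA2 : ∀ a ∈ A, ∀ b ∈ A, a⁻¹ * b * a * b⁻¹ ∈ Subgroup.center G)
    (hA3 : ∀ a ∈ A, a ∉ Subgroup.center G → ∃ d ∈ A, a⁻¹ * d * a * d⁻¹ ≠ 1) (g : G) (b : A) :
    ∑ a : A, zet χ ((a : G)⁻¹ * b * a * (b : G)⁻¹) * (χ (g * a) * conj (χ (g * a))) =
      (if (b : G)⁻¹ * g * b * g⁻¹ ∈ Subgroup.center G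
        then zet χ ((b : G)⁻¹ * g * b * g⁻¹) else 0) *
        ∑ a : A, χ (g * a) * conj (χ (g * a)) := by
  classical
  have hcf := char_isClassFunction (isCharacter_of_irr hχ)
  set c : G := (b : G)⁻¹ * g * b * g⁻¹ with hc
  have hcA : c ∈ A := by
    have h1 : c = (b : G)⁻¹ * (g * b * g⁻¹) := by rw [hc]; group
    rw [h1]
    exact A.mul_mem (A.inv_mem b.2) (hA.conj_mem b b.2 g)
  have hterm : ∀ a : A, zet χ ((a : G)⁻¹ * b * a * (b : G)⁻¹) * (χ (g * a) * conj (χ (g * a))) =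
      χ (c * (g * a)) * conj (χ (g * a)) := by
    intro a
    have hz : (a : G)⁻¹ * b * a * (b : G)⁻¹ ∈ Subgroup.center G := hA2 a a.2 b b.2
    rw [← mul_assoc, ← zet_mul_right hχ hz (g * a)]
    congr 1
    have h1 := hcf (g * a * ((a : G)⁻¹ * b * a * (b : G)⁻¹)) (b : G)⁻¹
    rw [← h1]
    congr 1
    rw [hc]
    group
  simp_rw [hterm]
  split_ifs with hcz
  · have h1 : ∀ a : A, χ (c * (g * a)) * conj (χ (g * a)) =
        zet χ c * (χ (g * a) * conj (χ (g * a))) := by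
      intro a
      rw [zet_mul_left hχ hcz, mul_assoc]
    simp_rw [h1]
    rw [Finset.mul_sum]
  · rw [zero_mul]
    obtain ⟨d, hd, hne⟩ := hA3 c hcA hcz
    have hw : c⁻¹ * d * c * d⁻¹ ∈ Subgroup.center G := hA2 c hcA d hd
    set S := ∑ a : A, χ (c * (g * a)) * conj (χ (g * a)) with hS
    have hmem : g⁻¹ * d⁻¹ * g ∈ A := by
      have := hA.conj_mem d⁻¹ (A.inv_mem hd) g⁻¹
      simpa using this
    let e : A ≃ A := (Equiv.mulLeft (⟨g⁻¹ * d⁻¹ * g, hmem⟩ : A)).trans
      (Equiv.mulRight (⟨d, hd⟩ : A))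
    have he : ∀ a : A, ((e a : A) : G) = g⁻¹ * d⁻¹ * g * a * d := fun a => rfl
    have h1 : S = zet χ (c⁻¹ * d * c * d⁻¹) * S := by
      calc S = ∑ a : A, χ (c * (g * (e a : A))) * conj (χ (g * (e a : A))) :=
          (Equiv.sum_comp e (fun a : A => χ (c * (g * a)) * conj (χ (g * a)))).symm
        _ = ∑ a : A, zet χ (c⁻¹ * d * c * d⁻¹) * (χ (c * (g * a)) * conj (χ (g * a))) := by
          apply Finset.sum_congr rfl
          intro a _
          rw [he]
          have h2 : χ (g * (g⁻¹ * d⁻¹ * g * a * d)) = χ (g * a) := by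
            have h3 := hcf (g * a) d⁻¹
            rw [← h3]
            congr 1
            group
          have h4 : χ (c * (g * (g⁻¹ * d⁻¹ * g * a * d))) =
              zet χ (c⁻¹ * d * c * d⁻¹) * χ (c * (g * a)) := by
            rw [← zet_mul_left hχ hw]
            have h5 := hcf (c * (g * (g⁻¹ * d⁻¹ * g * a * d))) d
            rw [← h5]
            congr 1
            have h6 := Subgroup.mem_center_iff.mp hw c
            calc d * (c * (g * (g⁻¹ * d⁻¹ * g * a * d))) * d⁻¹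
                = c * (c⁻¹ * d * c * d⁻¹) * (g * a) := by group
              _ = (c⁻¹ * d * c * d⁻¹) * c * (g * a) := by rw [h6]
              _ = c⁻¹ * d * c * d⁻¹ * (c * (g * a)) := by group
          rw [h2, h4, mul_assoc]
        _ = zet χ (c⁻¹ * d * c * d⁻¹) * S := by rw [hS, Finset.mul_sum]
    have h2 : zet χ (c⁻¹ * d * c * d⁻¹) ≠ 1 := fun h' => hne (zet_eq_one hχ hfaith h')
    have h3 : (1 - zet χ (c⁻¹ * d * c * d⁻¹)) * S = 0 := by
      rw [sub_mul, one_mul, ← h1, sub_self]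
    rcases mul_eq_zero.mp h3 with h4 | h4
    · exact absurd (sub_eq_zero.mp h4).symm h2
    · exact h4

/-- The double counting identity. -/
theorem key_identity (hχ : IsIrrCharacter G χ) (hfaith : ∀ g : G, χ g = χ 1 → g = 1)
    [hA : A.Normal]
    (hA2 : ∀ a ∈ A, ∀ b ∈ A, a⁻¹ * b * a * b⁻¹ ∈ Subgroup.center G)
    (hA3 : ∀ a ∈ A, a ∉ Subgroup.center G → ∃ d ∈ A, a⁻¹ * d * a * d⁻¹ ≠ 1) (g : G) :
    (Nat.card A : ℂ) * (zA A : ℂ) * (χ g * conj (χ g)) =
      PP χ A g * ∑ a : A, χ (g * a) * conj (χ (g * a)) := by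
  classical
  have h1 : ∑ a : A, ∑ b : A,
      zet χ ((a : G)⁻¹ * b * a * (b : G)⁻¹) * (χ (g * a) * conj (χ (g * a))) =
      (Nat.card A : ℂ) * (zA A : ℂ) * (χ g * conj (χ g)) := by
    have h2 : ∀ a : A, ∑ b : A,
        zet χ ((a : G)⁻¹ * b * a * (b : G)⁻¹) * (χ (g * a) * conj (χ (g * a))) =
        if (a : G) ∈ Subgroup.center G then (Nat.card A : ℂ) * (χ g * conj (χ g)) else 0 := by
      intro a
      rw [← Finset.sum_mul, sum_b A hχ hfaith hA2 hA3 a]
      split_ifs with h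
      · congr 1
        rw [zet_mul_right hχ h g, map_mul]
        have := zet_mul_conj hχ h
        calc zet χ (a : G) * χ g * (conj (zet χ (a : G)) * conj (χ g))
            = (zet χ (a : G) * conj (zet χ (a : G))) * (χ g * conj (χ g)) := by ring
          _ = χ g * conj (χ g) := by rw [this, one_mul]
      · rw [zero_mul]
    simp_rw [h2]
    rw [Finset.sum_ite, Finset.sum_const_zero, add_zero, Finset.sum_const, nsmul_eq_mul]
    unfold zA
    ring
  rw [← h1, Finset.sum_comm]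
  unfold PP
  rw [Finset.sum_mul]
  apply Finset.sum_congr rfl
  intro b _
  exact sum_a A hχ hfaith hA2 hA3 g b

theorem PP_ne_zero (hχ : IsIrrCharacter G χ) (hfaith : ∀ g : G, χ g = χ 1 → g = 1) (g : G)
    (hP : PP χ A g ≠ 0) :
    ∀ b : A, (b : G)⁻¹ * g * b * g⁻¹ ∈ Subgroup.center G → (b : G)⁻¹ * g * b * g⁻¹ = 1 := by
  classical
  by_contra hno
  push Not at hno
  obtain ⟨b₀, hb₀z, hb₀1⟩ := hno
  apply hP
  set c₀ : G := (b₀ : G)⁻¹ * g * b₀ * g⁻¹ with hc₀
  have h1 : PP χ A g = zet χ c₀ * PP χ A g := by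
    unfold PP
    rw [Finset.mul_sum]
    rw [← Equiv.sum_comp (Equiv.mulLeft b₀)
      (fun b : A => if (b : G)⁻¹ * g * b * g⁻¹ ∈ Subgroup.center G
        then zet χ ((b : G)⁻¹ * g * b * g⁻¹) else 0)]
    apply Finset.sum_congr rfl
    intro b _
    have h2 : (((Equiv.mulLeft b₀) b : A) : G)⁻¹ * g * ((Equiv.mulLeft b₀) b : A) * g⁻¹ =
        c₀ * ((b : G)⁻¹ * g * b * g⁻¹) := by
      have h3 := Subgroup.mem_center_iff.mp hb₀z ((b : G)⁻¹)
      simp only [Equiv.coe_mulLeft, Subgroup.coe_mul]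
      calc ((b₀ : G) * b)⁻¹ * g * ((b₀ : G) * b) * g⁻¹
          = (b : G)⁻¹ * c₀ * (g * b * g⁻¹) := by rw [hc₀]; group
        _ = c₀ * (b : G)⁻¹ * (g * b * g⁻¹) := by rw [h3]
        _ = c₀ * ((b : G)⁻¹ * g * b * g⁻¹) := by group
    rw [h2]
    by_cases h4 : (b : G)⁻¹ * g * b * g⁻¹ ∈ Subgroup.center G
    · rw [if_pos h4, if_pos (Subgroup.mul_mem _ hb₀z h4), zet_mul hχ hb₀z]
    · have h6 : ¬ c₀ * ((b : G)⁻¹ * g * b * g⁻¹) ∈ Subgroup.center G :=
        fun h5 => h4 ((Subgroup.mul_mem_cancel_left _ hb₀z).mp h5)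
      rw [if_neg h4, if_neg h6]
      simp
  have h2 : zet χ c₀ ≠ 1 := fun h' => hb₀1 (zet_eq_one hχ hfaith h')
  have h3 : (1 - zet χ c₀) * PP χ A g = 0 := by
    rw [sub_mul, one_mul, ← h1, sub_self]
  rcases mul_eq_zero.mp h3 with h4 | h4
  · exact absurd (sub_eq_zero.mp h4).symm h2
  · exact h4

theorem comm_pow (g : G) (k : ℕ) (hk : k.Coprime (Nat.card G))
    (h : ∀ b : A, (b : G)⁻¹ * g * b * g⁻¹ ∈ Subgroup.center G → (b : G)⁻¹ * g * b * g⁻¹ = 1) :
    ∀ b : A, (b : G)⁻¹ * g ^ k * b * (g ^ k)⁻¹ ∈ Subgroup.center G →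
      (b : G)⁻¹ * g ^ k * b * (g ^ k)⁻¹ = 1 := by
  intro b hc'
  set c' : G := (b : G)⁻¹ * g ^ k * b * (g ^ k)⁻¹ with hc'def
  obtain ⟨m, hm⟩ := exists_pow_eq_self_of_coprime
    (Nat.Coprime.coprime_dvd_right (orderOf_dvd_natCard g) hk)
  have h1 : (b : G)⁻¹ * g ^ k * b = c' * g ^ k := by rw [hc'def]; group
  have hcomm : Commute c' (g ^ k) := (Subgroup.mem_center_iff.mp hc' (g ^ k)).symm
  have h2 : (b : G)⁻¹ * g * b = c' ^ m * g := by
    calc (b : G)⁻¹ * g * b = (b : G)⁻¹ * (g ^ k) ^ m * ((b : G)⁻¹)⁻¹ := by rw [hm, inv_inv]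
      _ = ((b : G)⁻¹ * g ^ k * ((b : G)⁻¹)⁻¹) ^ m := (conj_pow).symm
      _ = (c' * g ^ k) ^ m := by rw [inv_inv, h1]
      _ = c' ^ m * (g ^ k) ^ m := hcomm.mul_pow m
      _ = c' ^ m * g := by rw [hm]
  have h3 : (b : G)⁻¹ * g * b * g⁻¹ = c' ^ m := by rw [h2]; group
  have h4 := h b (by rw [h3]; exact Subgroup.pow_mem _ hc' m)
  have h5 : (b : G)⁻¹ * g * b = g := by
    have : (b : G)⁻¹ * g * b = ((b : G)⁻¹ * g * b * g⁻¹) * g := by group
    rw [this, h4, one_mul]
  have h6 : (b : G)⁻¹ * g ^ k * b = g ^ k := by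
    calc (b : G)⁻¹ * g ^ k * b = (b : G)⁻¹ * g ^ k * ((b : G)⁻¹)⁻¹ := by rw [inv_inv]
      _ = ((b : G)⁻¹ * g * ((b : G)⁻¹)⁻¹) ^ k := (conj_pow).symm
      _ = g ^ k := by rw [inv_inv, h5]
  rw [hc'def, h6, mul_inv_cancel]

end StepB

section Final

variable (A : Subgroup G) [Fintype A]

theorem pointwise (hχ : IsIrrCharacter G χ) (hfaith : ∀ g : G, χ g = χ 1 → g = 1)
    [hA : A.Normal]
    (hA2 : ∀ a ∈ A, ∀ b ∈ A, a⁻¹ * b * a * b⁻¹ ∈ Subgroup.center G)
    (hA3 : ∀ a ∈ A, a ∉ Subgroup.center G → ∃ d ∈ A, a⁻¹ * d * a * d⁻¹ ≠ 1)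
    (k : ℕ) (hk : k.Coprime (Nat.card G)) (g : G) :
    Complex.normSq (χ g) *
        ((Nat.card A : ℝ)⁻¹ * ∑ a : A, Complex.normSq (χ (g ^ k * a))) ≤
      Complex.normSq (χ g) * Complex.normSq (χ (g ^ k)) := by
  classical
  by_cases h0 : Complex.normSq (χ g) = 0
  · rw [h0, zero_mul, zero_mul]
  have hNA : (0 : ℝ) < (Nat.card A : ℝ) := Nat.cast_pos.mpr Nat.card_pos
  have hzA : (0 : ℝ) < (zA A : ℝ) := Nat.cast_pos.mpr (zA_pos A)
  have hP : PP χ A g ≠ 0 := by
    intro hP0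
    have h1 := key_identity A hχ hfaith hA2 hA3 g
    rw [hP0, zero_mul, Complex.mul_conj] at h1
    have h2 : (Nat.card A : ℝ) * (zA A : ℝ) * Complex.normSq (χ g) = 0 := by exact_mod_cast h1
    rcases mul_eq_zero.mp h2 with h3 | h3
    · rcases mul_eq_zero.mp h3 with h4 | h4
      · exact hNA.ne' h4
      · exact hzA.ne' h4
    · exact h0 h3
  have hcomm := comm_pow A g k hk (PP_ne_zero A hχ hfaith g hP)
  set n : ℕ := (Finset.univ.filter
    (fun b : A => (b : G)⁻¹ * g ^ k * b * (g ^ k)⁻¹ ∈ Subgroup.center G)).card with hn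
  have hPk : PP χ A (g ^ k) = (n : ℂ) := by
    unfold PP
    have : ∀ b : A, (if (b : G)⁻¹ * g ^ k * b * (g ^ k)⁻¹ ∈ Subgroup.center G
        then zet χ ((b : G)⁻¹ * g ^ k * b * (g ^ k)⁻¹) else 0) =
        if (b : G)⁻¹ * g ^ k * b * (g ^ k)⁻¹ ∈ Subgroup.center G then (1 : ℂ) else 0 := by
      intro b
      split_ifs with h
      · rw [hcomm b h, zet_one hχ]
      · rfl
    simp_rw [this]
    rw [Finset.sum_ite, Finset.sum_const_zero, add_zero, Finset.sum_const, nsmul_eq_mul, mul_one]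
  have hnz : zA A ≤ n := by
    unfold zA
    rw [hn]
    apply Finset.card_le_card
    intro b hb
    rw [Finset.mem_filter] at hb ⊢
    refine ⟨Finset.mem_univ _, ?_⟩
    have h1 := Subgroup.mem_center_iff.mp hb.2 (g ^ k)
    have h2 : (b : G)⁻¹ * g ^ k * b * (g ^ k)⁻¹ = 1 := by
      calc (b : G)⁻¹ * g ^ k * b * (g ^ k)⁻¹ = (b : G)⁻¹ * (g ^ k * b) * (g ^ k)⁻¹ := by group
        _ = (b : G)⁻¹ * ((b : G) * g ^ k) * (g ^ k)⁻¹ := by rw [h1]
        _ = 1 := by group
    rw [h2]; exact Subgroup.one_mem _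
  have h1 := key_identity A hχ hfaith hA2 hA3 (g ^ k)
  rw [hPk, Complex.mul_conj] at h1
  have h2 : ∑ a : A, χ (g ^ k * a) * conj (χ (g ^ k * a)) =
      ((∑ a : A, Complex.normSq (χ (g ^ k * a)) : ℝ) : ℂ) := by
    push_cast
    apply Finset.sum_congr rfl
    intro a _
    exact Complex.mul_conj _
  rw [h2] at h1
  have h3 : (Nat.card A : ℝ) * (zA A : ℝ) * Complex.normSq (χ (g ^ k)) =
      (n : ℝ) * ∑ a : A, Complex.normSq (χ (g ^ k * a)) := by exact_mod_cast h1
  have hsum_nonneg : 0 ≤ ∑ a : A, Complex.normSq (χ (g ^ k * a)) :=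
    Finset.sum_nonneg (fun a _ => Complex.normSq_nonneg _)
  have h4 : (zA A : ℝ) * ∑ a : A, Complex.normSq (χ (g ^ k * a)) ≤
      (Nat.card A : ℝ) * (zA A : ℝ) * Complex.normSq (χ (g ^ k)) := by
    rw [h3]
    exact mul_le_mul_of_nonneg_right (by exact_mod_cast hnz) hsum_nonneg
  have h5 : (Nat.card A : ℝ)⁻¹ * ∑ a : A, Complex.normSq (χ (g ^ k * a)) ≤
      Complex.normSq (χ (g ^ k)) := by
    rw [inv_mul_le_iff₀ hNA]
    have h6 : (zA A : ℝ) * ∑ a : A, Complex.normSq (χ (g ^ k * a)) ≤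
        (zA A : ℝ) * ((Nat.card A : ℝ) * Complex.normSq (χ (g ^ k))) := by
      calc (zA A : ℝ) * ∑ a : A, Complex.normSq (χ (g ^ k * a))
          ≤ (Nat.card A : ℝ) * (zA A : ℝ) * Complex.normSq (χ (g ^ k)) := h4
        _ = (zA A : ℝ) * ((Nat.card A : ℝ) * Complex.normSq (χ (g ^ k))) := by ring
    exact le_of_mul_le_mul_left h6 hzA
  exact mul_le_mul_of_nonneg_left h5 (Complex.normSq_nonneg _)

theorem strict_one (hχ : IsIrrCharacter G χ) (hfaith : ∀ g : G, χ g = χ 1 → g = 1)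
    [hA : A.Normal]
    (hA2 : ∀ a ∈ A, ∀ b ∈ A, a⁻¹ * b * a * b⁻¹ ∈ Subgroup.center G)
    (hA3 : ∀ a ∈ A, a ∉ Subgroup.center G → ∃ d ∈ A, a⁻¹ * d * a * d⁻¹ ≠ 1)
    (hA4 : ¬ A ≤ Subgroup.center G) (k : ℕ) :
    Complex.normSq (χ 1) *
        ((Nat.card A : ℝ)⁻¹ * ∑ a : A, Complex.normSq (χ ((1 : G) ^ k * a))) <
      Complex.normSq (χ 1) * Complex.normSq (χ ((1 : G) ^ k)) := by
  classical
  rw [one_pow]
  have hχ1 := irr_apply_one_ne_zero hχ
  have hpos : 0 < Complex.normSq (χ 1) := Complex.normSq_pos.mpr hχ1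
  have hNA : (0 : ℝ) < (Nat.card A : ℝ) := Nat.cast_pos.mpr Nat.card_pos
  have hP1 : PP χ A 1 = (Nat.card A : ℂ) := by
    unfold PP
    have : ∀ b : A, (if (b : G)⁻¹ * 1 * b * (1 : G)⁻¹ ∈ Subgroup.center G
        then zet χ ((b : G)⁻¹ * 1 * b * (1 : G)⁻¹) else 0) = (1 : ℂ) := by
      intro b
      have h2 : (b : G)⁻¹ * 1 * b * (1 : G)⁻¹ = 1 := by group
      rw [h2, if_pos (Subgroup.one_mem _), zet_one hχ]
    simp_rw [this]
    rw [Finset.sum_const, Finset.card_univ, nsmul_eq_mul, mul_one, Nat.card_eq_fintype_card]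
  have h1 := key_identity A hχ hfaith hA2 hA3 1
  rw [hP1, Complex.mul_conj] at h1
  have h2 : ∑ a : A, χ (1 * a) * conj (χ (1 * a)) =
      ((∑ a : A, Complex.normSq (χ (1 * a)) : ℝ) : ℂ) := by
    push_cast
    apply Finset.sum_congr rfl
    intro a _
    exact Complex.mul_conj _
  rw [h2] at h1
  have h3 : (Nat.card A : ℝ) * (zA A : ℝ) * Complex.normSq (χ 1) =
      (Nat.card A : ℝ) * ∑ a : A, Complex.normSq (χ (1 * a)) := by exact_mod_cast h1
  have h4 : ∑ a : A, Complex.normSq (χ (1 * a)) = (zA A : ℝ) * Complex.normSq (χ 1) := by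
    rw [mul_assoc] at h3
    exact (mul_left_cancel₀ hNA.ne' h3).symm
  rw [h4]
  have hlt : zA A < Nat.card A := by
    unfold zA
    rw [Nat.card_eq_fintype_card, ← Finset.card_univ]
    apply Finset.card_lt_card
    rw [Finset.ssubset_iff_of_subset (Finset.filter_subset _ _)]
    by_contra hno
    push Not at hno
    apply hA4
    intro a ha
    exact (Finset.mem_filter.mp (hno ⟨a, ha⟩ (Finset.mem_univ _))).2
  have hlt' : (zA A : ℝ) < (Nat.card A : ℝ) := by exact_mod_cast hlt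
  apply mul_lt_mul_of_pos_left _ hpos
  rw [inv_mul_lt_iff₀ hNA]
  exact mul_lt_mul_of_pos_right hlt' hpos

omit [Fintype G] in
theorem exists_inv_pow [Finite G] (k : ℕ) (hk : k.Coprime (Nat.card G)) :
    ∃ k' : ℕ, k'.Coprime (Nat.card G) ∧ ∀ g : G, (g ^ k) ^ k' = g := by
  by_cases h1 : Nat.card G = 1
  · refine ⟨1, by rw [h1]; exact Nat.coprime_one_right _, fun g => ?_⟩
    haveI : Subsingleton G := (Nat.card_eq_one_iff_unique.mp h1).1
    exact Subsingleton.elim _ _
  · have hlt : 1 < Nat.card G := by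
      have := Nat.card_pos (α := G)
      omega
    obtain ⟨m, -, hm⟩ := Nat.exists_mul_mod_eq_one_of_coprime hk hlt
    refine ⟨m, ?_, fun g => ?_⟩
    · apply Nat.coprime_of_mul_modEq_one k
      show m * k % Nat.card G = 1 % Nat.card G
      rw [Nat.mul_comm, hm, Nat.mod_eq_of_lt hlt]
    · rw [← pow_mul, ← pow_mod_natCard, hm, pow_one]

theorem avg_bound (hχ : IsIrrCharacter G χ) [hA : A.Normal] (k : ℕ)
    (hk : k.Coprime (Nat.card G)) :
    ∃ M : ℕ, 1 ≤ M ∧ ∑ g : G, Complex.normSq (χ g) *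
      ((Nat.card A : ℝ)⁻¹ * ∑ a : A, Complex.normSq (χ (g ^ k * a))) =
        (Nat.card G : ℝ) * M := by
  classical
  haveI : Finite (IrrCharacter G) := finite_irrCharacter G
  haveI : Fintype (IrrCharacter G) := Fintype.ofFinite _
  obtain ⟨k', hk', hinv⟩ := exists_inv_pow k hk
  have hχc := isCharacter_of_irr hχ
  have hcf := char_isClassFunction hχc
  set Φ : G → ℂ := fun x => χ x * conj (χ x) with hΦ
  have hΦc : IsCharacter G Φ := isCharacter_mul hχc (isCharacter_conj hχc)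
  have hχ' : IsIrrCharacter G (fun h => χ (h ^ k')) := isIrrCharacter_pow hχ k' hk'
  set Φ' : G → ℂ := fun h => χ (h ^ k') * conj (χ (h ^ k')) with hΦ'
  have hΦ'c : IsCharacter G Φ' :=
    isCharacter_mul (isCharacter_of_irr hχ') (isCharacter_conj (isCharacter_of_irr hχ'))
  set Θ := Cfsg.Agent.Lib.Helper15.CosetAvg.avg A Φ with hΘ
  obtain ⟨nn, hnn, hexp⟩ := exists_mult_sum hΦ'c
  have hm : ∀ β : IrrCharacter G, ∃ m : ℕ, classInner Φ β.1 = m := fun β =>
    classInner_char_nat hΦc (isCharacter_of_irr β.2)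
  choose mm hmm using hm
  have hΘβ : ∀ β : IrrCharacter G, classInner Θ β.1 =
      if (∀ n : A, β.1 n = β.1 1) then (mm β : ℂ) else 0 := by
    intro β
    rw [hΘ, Cfsg.Agent.Lib.Helper15.CosetAvg.classInner_avg A Φ β.2, hmm]
  set M : ℕ := ∑ β : IrrCharacter G, nn β * (if (∀ n : A, β.1 n = β.1 1) then mm β else 0)
    with hM
  have hinner : classInner Θ Φ' = (M : ℂ) := by
    rw [classInner_conj_symm, hexp, classInner_sum_left, map_sum, hM]
    push_cast
    apply Finset.sum_congr rfl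
    intro β _
    rw [classInner_smul_left, map_mul, Complex.conj_natCast, ← classInner_conj_symm, hΘβ]
  have hsum : classInner Θ Φ' = (Nat.card G : ℂ)⁻¹ * ∑ g : G, Φ g * Θ (g ^ k) := by
    unfold classInner
    congr 1
    rw [← Equiv.sum_comp (powCoprime hk.symm) (fun h => Θ h * conj (Φ' h))]
    apply Finset.sum_congr rfl
    intro g _
    show Θ (g ^ k) * conj (Φ' (g ^ k)) = Φ g * Θ (g ^ k)
    simp only [hΦ', hΦ, hinv g, map_mul, Complex.conj_conj]
    ring
  have hΘval : ∀ x : G, Θ x =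
      (((Nat.card A : ℝ)⁻¹ * ∑ a : A, Complex.normSq (χ (x * a)) : ℝ) : ℂ) := by
    intro x
    rw [hΘ, Cfsg.Agent.Lib.Helper15.CosetAvg.avg_apply]
    push_cast
    congr 1
    apply Finset.sum_congr rfl
    intro a _
    have h1 : χ ((a : G) * x) = χ (x * a) := by
      have h2 := hcf (x * a) a
      rw [← h2]
      congr 1
      group
    simp only [hΦ]
    rw [h1, Complex.mul_conj]
  let one : IrrCharacter G := ⟨fun _ => 1, isIrrCharacter_one⟩
  have hn1 : nn one = 1 := by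
    have h1 := hnn one
    have h2 : classInner Φ' (one : G → ℂ) = classInner (fun h => χ (h ^ k')) (fun h => χ (h ^ k')) := by
      unfold classInner
      congr 1
      apply Finset.sum_congr rfl
      intro t _
      simp [hΦ', one]
    rw [h2, inner_self_eq_one_of_irr hχ'] at h1
    exact_mod_cast h1.symm
  have hm1 : mm one = 1 := by
    have h1 := hmm one
    have h2 : classInner Φ (one : G → ℂ) = classInner χ χ := by
      unfold classInner
      congr 1
      apply Finset.sum_congr rfl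
      intro t _
      simp [hΦ, one]
    rw [h2, inner_self_eq_one_of_irr hχ] at h1
    exact_mod_cast h1.symm
  have hM1 : 1 ≤ M := by
    have h1 : nn one * (if (∀ n : A, one.1 n = one.1 1) then mm one else 0) ≤ M :=
      Finset.single_le_sum (f := fun β : IrrCharacter G =>
        nn β * (if (∀ n : A, β.1 n = β.1 1) then mm β else 0)) (fun _ _ => Nat.zero_le _)
        (Finset.mem_univ one)
    rw [if_pos (fun _ => rfl), hn1, hm1] at h1
    exact h1
  refine ⟨M, hM1, ?_⟩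
  have hG : (Nat.card G : ℂ) ≠ 0 := Nat.cast_ne_zero.mpr Nat.card_pos.ne'
  have hfin : ((∑ g : G, Complex.normSq (χ g) *
      ((Nat.card A : ℝ)⁻¹ * ∑ a : A, Complex.normSq (χ (g ^ k * a))) : ℝ) : ℂ) =
      (Nat.card G : ℂ) * (M : ℂ) := by
    rw [← hinner, hsum, ← mul_assoc, mul_inv_cancel₀ hG, one_mul]
    rw [Complex.ofReal_sum]
    apply Finset.sum_congr rfl
    intro g _
    rw [hΘval (g ^ k), Complex.ofReal_mul]
    simp only [hΦ]
    rw [Complex.mul_conj]
  exact_mod_cast hfin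

/-- Step B. -/
theorem stepB (hχ : IsIrrCharacter G χ) (hfaith : ∀ g : G, χ g = χ 1 → g = 1)
    (k : ℕ) (hk : k.Coprime (Nat.card G))
    (hirr : IsIrrCharacter G (fun g => χ g * χ (g ^ k))) [hA : A.Normal]
    (hA2 : ∀ a ∈ A, ∀ b ∈ A, a⁻¹ * b * a * b⁻¹ ∈ Subgroup.center G)
    (hA3 : ∀ a ∈ A, a ∉ Subgroup.center G → ∃ d ∈ A, a⁻¹ * d * a * d⁻¹ ≠ 1) :
    A ≤ Subgroup.center G := by
  classical
  by_contra hA4
  obtain ⟨M, hM, hS2⟩ := avg_bound A hχ k hk
  have hS1 : ∑ g : G, Complex.normSq (χ g) * Complex.normSq (χ (g ^ k)) = (Nat.card G : ℝ) := by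
    have h1 := inner_self_eq_one_of_irr hirr
    unfold classInner at h1
    have hG : (Nat.card G : ℂ) ≠ 0 := Nat.cast_ne_zero.mpr Nat.card_pos.ne'
    have h2 := ((inv_mul_eq_one₀ hG).mp h1).symm
    have h3 : ((∑ g : G, Complex.normSq (χ g) * Complex.normSq (χ (g ^ k)) : ℝ) : ℂ) =
        (Nat.card G : ℂ) := by
      rw [← h2, Complex.ofReal_sum]
      apply Finset.sum_congr rfl
      intro g _
      rw [Complex.ofReal_mul, ← Complex.mul_conj, ← Complex.mul_conj, map_mul]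
      ring
    exact_mod_cast h3
  have hlt : ∑ g : G, Complex.normSq (χ g) *
      ((Nat.card A : ℝ)⁻¹ * ∑ a : A, Complex.normSq (χ (g ^ k * a))) <
      ∑ g : G, Complex.normSq (χ g) * Complex.normSq (χ (g ^ k)) := by
    apply Finset.sum_lt_sum
    · intro g _
      exact pointwise A hχ hfaith hA2 hA3 k hk g
    · exact ⟨1, Finset.mem_univ _, strict_one A hχ hfaith hA2 hA3 hA4 k⟩
  rw [hS1, hS2] at hlt
  have hGpos : (0 : ℝ) < (Nat.card G : ℝ) := Nat.cast_pos.mpr Nat.card_pos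
  have hM' : (1 : ℝ) ≤ (M : ℝ) := by exact_mod_cast hM
  nlinarith

end Final

/-- If `χ` is faithful irreducible and `χ · χ^σ` is irreducible, then `F(G) = Z(G)`. -/
theorem main (hχ : IsIrrCharacter G χ) (hfaith : ∀ g : G, χ g = χ 1 → g = 1)
    (k : ℕ) (hk : k.Coprime (Nat.card G))
    (hirr : IsIrrCharacter G (fun g => χ g * χ (g ^ k))) :
    Cfsg.fittingSubgroup G = Subgroup.center G := by
  classical
  have habel := fun B hB hcomm => abelian_normal_le_center hχ hfaith k hk hirr B hB hcomm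
  have hFn : (Cfsg.fittingSubgroup G).Normal :=
    Cfsg.Agent.Lib.Helper71.Fitting.fitting_normal G
  have hFnil : Group.IsNilpotent (Cfsg.fittingSubgroup G) :=
    Cfsg.Agent.Lib.Helper71.Fitting.fitting_isNilpotent G
  apply le_antisymm
  swap
  · exact Cfsg.Agent.Lib.Helper71.Fitting.le_fitting (Subgroup.center G) inferInstance
      (isNilpotent_of_comm (Subgroup.center G)
        (fun a _ b hb => Subgroup.mem_center_iff.mp hb a))
  by_contra hFZ
  haveI := hFn
  haveI := hFnil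
  set F := Cfsg.fittingSubgroup G with hF
  set Z := Subgroup.center G with hZ
  obtain ⟨x, hxF, hxZ⟩ := SetLike.not_le_iff_exists.mp hFZ
  let Z' : Subgroup F := Z.subgroupOf F
  haveI : Group.IsNilpotent (↥F ⧸ Z') :=
    Group.nilpotent_of_surjective (QuotientGroup.mk' Z') (QuotientGroup.mk'_surjective Z')
  have hne : (⊤ : Subgroup (↥F ⧸ Z')) ≠ ⊥ := by
    intro h
    have h1 : (QuotientGroup.mk' Z' ⟨x, hxF⟩) ∈ (⊥ : Subgroup (↥F ⧸ Z')) :=
      h ▸ Subgroup.mem_top _
    rw [Subgroup.mem_bot, QuotientGroup.mk'_apply, QuotientGroup.eq_one_iff] at h1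
    exact hxZ (Subgroup.mem_subgroupOf.mp h1)
  have hcen := Cfsg.Agent.S0065.result (⊤ : Subgroup (↥F ⧸ Z')) hne
  rw [top_inf_eq] at hcen
  obtain ⟨⟨q, hq⟩, hq1⟩ := Subgroup.ne_bot_iff_exists_ne_one.mp hcen
  obtain ⟨y, rfl⟩ := QuotientGroup.mk_surjective q
  have hyZ : (y : G) ∉ Z := by
    intro h
    apply hq1
    apply Subtype.ext
    show (QuotientGroup.mk y : ↥F ⧸ Z') = 1
    rw [QuotientGroup.eq_one_iff]
    exact Subgroup.mem_subgroupOf.mpr h
  have hycomm : ∀ w : F, ((w : G) * y)⁻¹ * ((y : G) * w) ∈ Z := by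
    intro w
    have h1 := Subgroup.mem_center_iff.mp hq (QuotientGroup.mk w)
    rw [← QuotientGroup.mk_mul, ← QuotientGroup.mk_mul, QuotientGroup.eq] at h1
    exact Subgroup.mem_subgroupOf.mp h1
  haveI hmapn : (F.map (QuotientGroup.mk' Z)).Normal :=
    Subgroup.Normal.map hFn _ (QuotientGroup.mk'_surjective Z)
  haveI hcn : (Subgroup.centralizer ((F.map (QuotientGroup.mk' Z)) : Set (G ⧸ Z))).Normal :=
    centralizer_normal' _ hmapn
  set A : Subgroup G := F ⊓ (Subgroup.centralizer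
    ((F.map (QuotientGroup.mk' Z)) : Set (G ⧸ Z))).comap (QuotientGroup.mk' Z) with hAdef
  have hAn : A.Normal := Subgroup.normal_inf_normal _ _
  have memA : ∀ a : G, a ∈ A ↔ a ∈ F ∧ ∀ w ∈ F,
      (QuotientGroup.mk w : G ⧸ Z) * QuotientGroup.mk a = QuotientGroup.mk a * QuotientGroup.mk w := by
    intro a
    rw [hAdef, Subgroup.mem_inf, Subgroup.mem_comap, Subgroup.mem_centralizer_iff]
    constructor
    · rintro ⟨h1, h2⟩
      exact ⟨h1, fun w hw => h2 _ (Subgroup.mem_map_of_mem _ hw)⟩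
    · rintro ⟨h1, h2⟩
      refine ⟨h1, ?_⟩
      rintro _ ⟨w, hw, rfl⟩
      exact h2 w hw
  have hyA : (y : G) ∈ A := by
    rw [memA]
    refine ⟨y.2, fun w hw => ?_⟩
    rw [← QuotientGroup.mk_mul, ← QuotientGroup.mk_mul, QuotientGroup.eq]
    exact hycomm ⟨w, hw⟩
  have hA4 : ¬ A ≤ Z := fun h => hyZ (h hyA)
  have hA2 : ∀ a ∈ A, ∀ b ∈ A, a⁻¹ * b * a * b⁻¹ ∈ Z := by
    intro a ha b hb
    have h1 := ((memA a).mp ha).2 b⁻¹ (F.inv_mem ((memA b).mp hb).1)
    rw [← QuotientGroup.mk_mul, ← QuotientGroup.mk_mul, QuotientGroup.eq] at h1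
    have h2 : (b⁻¹ * a)⁻¹ * (a * b⁻¹) = a⁻¹ * b * a * b⁻¹ := by group
    rw [← h2]; exact h1
  have hA3 : ∀ a ∈ A, a ∉ Z → ∃ d ∈ A, a⁻¹ * d * a * d⁻¹ ≠ 1 := by
    intro a ha haZ
    by_contra hno
    push Not at hno
    apply haZ
    haveI := hAn
    haveI hcAn : (Subgroup.centralizer (A : Set G)).Normal := centralizer_normal' A hAn
    have hZAn : (A ⊓ Subgroup.centralizer (A : Set G)).Normal := Subgroup.normal_inf_normal _ _
    have hZAc : ∀ u ∈ A ⊓ Subgroup.centralizer (A : Set G),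
        ∀ v ∈ A ⊓ Subgroup.centralizer (A : Set G), u * v = v * u := by
      intro u hu v hv
      exact Subgroup.mem_centralizer_iff.mp hv.2 u hu.1
    apply habel _ hZAn hZAc
    refine ⟨ha, Subgroup.mem_centralizer_iff.mpr ?_⟩
    intro d hd
    have h1 := hno d hd
    calc d * a = a * (a⁻¹ * d * a * d⁻¹) * d := by group
      _ = a * d := by rw [h1, mul_one]
  haveI := hAn
  haveI : Fintype A := Fintype.ofFinite A
  exact hA4 (stepB A hχ hfaith k hk hirr hA2 hA3)

end Cfsg.Agent.Lib.Helper15.GalProd
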