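import Mathlib
import Cfsg.Agent.Lib.Helper26.J3Stmt

/-! S3366 piece CT: every coset of `R` contains an element centralizing `t`. -/

set_option autoImplicit false
universe u

namespace Cfsg.Agent.Lib.Helper15.J3CT

open Cfsg.Agent.Lib.Helper26.J3Stmt

theorem main : CT.{u} := by
  intro X _ hH t ht x
  obtain ⟨htt, -, hcomm, -⟩ := ht
  obtain ⟨-, -, -, hexp, -⟩ := hH
  have hc := hcomm x
  refine ⟨x * t * x⁻¹ * t⁻¹, hc, ?_⟩
  have h3 := hexp _ hc
  have htinv : t⁻¹ = t := inv_eq_of_mul_eq_one_left htt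
  have key : (x * t * x⁻¹ * t⁻¹ * x) * t * (t * (x * t * x⁻¹ * t⁻¹ * x))⁻¹
      = (x * t * x⁻¹ * t⁻¹) ^ 3 := by
    simp only [htinv, mul_inv_rev, inv_inv, pow_succ, pow_zero, one_mul, mul_assoc]
  rw [h3] at key
  exact mul_inv_eq_one.mp key

end Cfsg.Agent.Lib.Helper15.J3CT
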