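import Mathlib
import Cfsg.Agent.Lib.Helper26.J3Stmt

/-! S3366 piece DEX: an element `d` of order 3 mod `R` centralizing `t`. -/

set_option autoImplicit false
universe u

namespace Cfsg.Agent.Lib.Helper15.J3DEX

open Cfsg.Agent.Lib.Helper26.J3Stmt

theorem exA : ∃ A : SL, A ≠ 1 ∧ A ^ 3 = 1 := by decide +kernel

theorem main : DEX.{u} := by
  intro hCT X _ hH t ht
  have hH' := hH
  obtain ⟨-, -, -, -, ⟨e⟩, -, -⟩ := hH'
  obtain ⟨A, hA1, hA3⟩ := exA
  obtain ⟨q, hq⟩ := e.surjective A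
  obtain ⟨x, rfl⟩ := QuotientGroup.mk_surjective q
  obtain ⟨r, hr, hcomm⟩ := hCT X hH t ht x
  have hmk : (QuotientGroup.mk (r * x) : X ⧸ Cfsg.pCore 3 X) = QuotientGroup.mk x := by
    rw [QuotientGroup.mk_mul, (QuotientGroup.eq_one_iff r).mpr hr, one_mul]
  refine ⟨r * x, hcomm, ?_, ?_⟩
  · intro hd
    apply hA1
    rw [← hq, ← hmk, (QuotientGroup.eq_one_iff (r * x)).mpr hd, map_one]
  · rw [← QuotientGroup.eq_one_iff, QuotientGroup.mk_pow, hmk]
    apply e.injective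
    rw [map_pow, hq, hA3, map_one]

end Cfsg.Agent.Lib.Helper15.J3DEX
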