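import Mathlib
import Cfsg.Agent.Lib.Helper26.J3Stmt

/-! S3366 piece ZF2: `Z(R)` is central in `X`. -/

set_option autoImplicit false
universe u

namespace Cfsg.Agent.Lib.Helper15.J3ZF2

open Cfsg.Agent.Lib.Helper26.J3Stmt

set_option maxHeartbeats 4000000 in
theorem sl_sq : ∀ A : SL, ∃ a b : SL, A = a * a * (b * b) := by decide +kernel

theorem mem_Zc {X : Type u} [Group X] (z : X) :
    z ∈ Zc X ↔ z ∈ R X ∧ ∀ r ∈ R X, r * z = z * r := by
  constructor
  · rintro ⟨y, hy, rfl⟩
    refine ⟨y.2, fun r hr => ?_⟩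
    have := Subgroup.mem_center_iff.mp hy ⟨r, hr⟩
    exact congrArg Subtype.val this
  · rintro ⟨hz, h⟩
    exact ⟨⟨z, hz⟩, Subgroup.mem_center_iff.mpr (fun g => Subtype.ext (h g.1 g.2)), rfl⟩

theorem card_Zc {X : Type u} [Group X] (hH : Hyp X) : Nat.card (Zc X) = 3 := by
  obtain ⟨-, hES, -⟩ := hH
  have := hES.2
  rw [Zc, Subgroup.card_map_of_injective (Subgroup.subtype_injective _)]
  exact this

theorem conj_mem_R {X : Type u} [Group X] {r : X} (hr : r ∈ R X) (x : X) :
    x * r * x⁻¹ ∈ R X := (Cfsg.pCore_normal 3 X).conj_mem r hr x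

theorem conj_mem_R' {X : Type u} [Group X] {r : X} (hr : r ∈ R X) (x : X) :
    x⁻¹ * r * x ∈ R X := by
  have := (Cfsg.pCore_normal 3 X).conj_mem r hr x⁻¹
  simpa using this

theorem conj_mem_Zc {X : Type u} [Group X] {z : X} (hz : z ∈ Zc X) (x : X) :
    x * z * x⁻¹ ∈ Zc X := by
  rw [mem_Zc] at hz ⊢
  obtain ⟨hzR, hzc⟩ := hz
  refine ⟨conj_mem_R hzR x, fun r hr => ?_⟩
  have h2 := hzc _ (conj_mem_R' hr x)
  calc r * (x * z * x⁻¹) = x * ((x⁻¹ * r * x) * z) * x⁻¹ := by group
    _ = x * (z * (x⁻¹ * r * x)) * x⁻¹ := by rw [h2]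
    _ = x * z * x⁻¹ * r := by group

/-- every element of `Z(R)` is `1`, `z` or `z^2` for a nontrivial `z`. -/
theorem Zc_cases {X : Type u} [Group X] (hH : Hyp X) {z : X} (hz : z ∈ Zc X) (hz1 : z ≠ 1) :
    ∀ w ∈ Zc X, w = 1 ∨ w = z ∨ w = z ^ 2 := by
  have hcard := card_Zc hH
  obtain ⟨hfin, -, -, hexp, -⟩ := hH
  have hzR : z ∈ R X := ((mem_Zc z).mp hz).1
  have hz3 : z ^ 3 = 1 := hexp z hzR
  intro w hw
  have : Fact (Nat.Prime 3) := ⟨Nat.prime_three⟩
  have htop := zpowers_eq_top_of_prime_card (G := Zc X) (p := 3) hcard (g := ⟨z, hz⟩) (by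
    intro h; apply hz1; exact congrArg Subtype.val h)
  have hmem : (⟨w, hw⟩ : Zc X) ∈ Subgroup.zpowers (⟨z, hz⟩ : Zc X) := by rw [htop]; trivial
  obtain ⟨k, hk⟩ := Subgroup.mem_zpowers_iff.mp hmem
  have hk' : z ^ k = w := by
    have := congrArg Subtype.val hk
    simpa using this
  have ho : orderOf z = 3 := orderOf_eq_prime hz3 hz1
  have h1 : z ^ (k % 3) = w := by
    have := zpow_mod_orderOf z k
    rw [ho] at this
    rw [← hk']; exact_mod_cast this
  have h2 : 0 ≤ k % 3 := Int.emod_nonneg k (by norm_num)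
  have h3 : k % 3 < 3 := Int.emod_lt_of_pos k (by norm_num)
  obtain ⟨m, hm⟩ : ∃ m : ℤ, m = k % 3 := ⟨_, rfl⟩
  rw [← hm] at h1 h2 h3
  interval_cases m
  · left; simpa using h1.symm
  · right; left; simpa using h1.symm
  · right; right; rw [← h1]; norm_cast

theorem main : ZF2.{u} := by
  intro X _ hH z hz x
  have hH' := hH
  obtain ⟨hfin, -, -, hexp, ⟨e⟩, -, -⟩ := hH'
  by_cases hz1 : z = 1
  · subst hz1; simp
  have hzR : z ∈ R X := ((mem_Zc z).mp hz).1
  have hz3 : z ^ 3 = 1 := hexp z hzR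
  have hpow := Zc_cases hH hz hz1
  have hsq : ∀ y : X, Commute (y * y) z := by
    intro y
    rcases hpow _ (conj_mem_Zc hz y) with h | h | h
    · exfalso; apply hz1
      have : z = y⁻¹ * (y * z * y⁻¹) * y := by group
      rw [this, h]; group
    · have hyz : y * z = z * y := by
        have := congrArg (· * y) h
        simpa [mul_assoc] using this
      exact (show Commute y z from hyz).mul_left hyz
    · rw [pow_two] at h
      have hyz : y * z = z * z * y := by
        have := congrArg (· * y) h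
        simpa [mul_assoc] using this
      show y * y * z = z * (y * y)
      calc y * y * z = y * (y * z) := by rw [mul_assoc]
        _ = y * (z * z * y) := by rw [hyz]
        _ = (y * z) * (z * y) := by simp only [mul_assoc]
        _ = (z * z * y) * (z * y) := by rw [hyz]
        _ = z * z * (y * z) * y := by simp only [mul_assoc]
        _ = z * z * (z * z * y) * y := by rw [hyz]
        _ = z ^ 3 * z * (y * y) := by simp only [pow_succ, pow_zero, one_mul, mul_assoc]
        _ = z * (y * y) := by rw [hz3, one_mul]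
  obtain ⟨a, b, hab⟩ := sl_sq (e (QuotientGroup.mk x))
  obtain ⟨qa, hqa⟩ := e.surjective a
  obtain ⟨xa, rfl⟩ := QuotientGroup.mk_surjective qa
  obtain ⟨qb, hqb⟩ := e.surjective b
  obtain ⟨xb, rfl⟩ := QuotientGroup.mk_surjective qb
  have hmk : (QuotientGroup.mk (xa * xa * (xb * xb)) : X ⧸ Cfsg.pCore 3 X) = QuotientGroup.mk x := by
    apply e.injective
    rw [hab, ← hqa, ← hqb]
    simp only [QuotientGroup.mk_mul, map_mul]
  have hr : (xa * xa * (xb * xb))⁻¹ * x ∈ R X := by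
    rw [QuotientGroup.eq] at hmk
    exact hmk
  have hrz : Commute ((xa * xa * (xb * xb))⁻¹ * x) z := ((mem_Zc z).mp hz).2 _ hr
  have hx : x = (xa * xa) * ((xb * xb) * ((xa * xa * (xb * xb))⁻¹ * x)) := by group
  rw [hx]
  exact ((hsq xa).mul_left ((hsq xb).mul_left hrz)).eq

end Cfsg.Agent.Lib.Helper15.J3ZF2
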