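import Mathlib
import Cfsg.Agent.Lib.Helper44.PGStmt

/-!
# S2474 / GNEC1: necessity for `r * s` at Gram-matrix level
-/

set_option autoImplicit false

namespace Cfsg.Agent.Lib.Helper15.PGGNEC1

open Matrix Polynomial
open Cfsg.Agent.Lib.Helper44.PGStmt Cfsg.Agent.Lib.Helper44.BCStmt

universe u

theorem isom_pow {F : Type u} [Field F] {ι : Type} [Fintype ι] [DecidableEq ι]
    (G x : Matrix ι ι F) (h : xᵀ * G * x = G) (j : ℕ) : (x ^ j)ᵀ * G * x ^ j = G := by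
  induction j with
  | zero => simp
  | succ j ih =>
    rw [pow_succ, Matrix.transpose_mul]
    calc xᵀ * (x ^ j)ᵀ * G * (x ^ j * x) = xᵀ * ((x ^ j)ᵀ * G * x ^ j) * x := by
          simp only [Matrix.mul_assoc]
      _ = G := by rw [ih, h]

theorem fix_of_pow {F : Type u} [Field F] {κ : Type} [Fintype κ] [DecidableEq κ]
    (M : Matrix κ κ F) (r s : ℕ) (hM : M ^ r = 1) (hcop : Nat.Coprime s r) (hr : 1 < r)
    (v : κ → F) (hv : (M ^ s) *ᵥ v = v) : M *ᵥ v = v := by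
  obtain ⟨a, -, ha⟩ := Nat.exists_mul_mod_eq_one_of_coprime hcop hr
  have h1 : ∀ n : ℕ, ((M ^ s) ^ n) *ᵥ v = v := by
    intro n
    induction n with
    | zero => simp
    | succ n ih => rw [pow_succ, ← Matrix.mulVec_mulVec, hv, ih]
  have h2 : M ^ (s * a) = M := by
    have h3 : r * (s * a / r) + 1 = s * a := by
      have := Nat.div_add_mod (s * a) r
      rw [ha] at this
      exact this
    rw [← h3, pow_succ, pow_mul, hM, one_pow, one_mul]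
  have h4 := h1 a
  rw [← pow_mul, h2] at h4
  exact h4

theorem prime_hyp {F : Type u} [Field F] {κ : Type} [Fintype κ] [DecidableEq κ]
    (M : Matrix κ κ F) (r : ℕ) (hr : r.Prime) (hfix : ∀ v : κ → F, M *ᵥ v = v → v = 0) :
    ∀ ℓ : ℕ, ℓ.Prime → ℓ ∣ r → ∀ v : κ → F, (M ^ (r / ℓ)) *ᵥ v = v → v = 0 := by
  intro ℓ hℓ hℓr v hv
  have hℓe : ℓ = r := (Nat.prime_dvd_prime_iff_eq hℓ hr).1 hℓr
  rw [hℓe, Nat.div_self hr.pos, pow_one] at hv
  exact hfix v hv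

theorem decomp (hGD : GDecomp.{u}) (hBD : BlockDiag.{u}) (hBF : BlockFacts.{u})
    (hGBF : GBlockFacts.{u})
    (F : Type u) [Field F] (ι : Type) [Fintype ι] [DecidableEq ι] (G T Y : Matrix ι ι F) (r : ℕ)
    (hdet : G.det ≠ 0) (hT : Tᵀ * G * T = G) (hY : Yᵀ * G * Y = G) (hr0 : 0 < r)
    (hrF : (r : F) ≠ 0) (hTr : T ^ r = 1) (hT1 : T ≠ 1) (hYT : Y * T = T * Y) :
    ∃ (k₁ k₂ : ℕ) (G₁ Y₁ : Matrix (Fin k₁) (Fin k₁) F) (G₂ T₂ Y₂ : Matrix (Fin k₂) (Fin k₂) F)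
      (J : (Fin k₁ ⊕ Fin k₂ → F) ≃ₗ[F] (ι → F)),
      G₁.det ≠ 0 ∧ G₂.det ≠ 0 ∧ T₂ᵀ * G₂ * T₂ = G₂ ∧ T₂ ^ r = 1 ∧
      (∀ v : Fin k₂ → F, T₂ *ᵥ v = v → v = 0) ∧
      (∀ u : Fin k₁ ⊕ Fin k₂ → F,
        T *ᵥ (J u) = J (Sum.elim (u ∘ Sum.inl) (T₂ *ᵥ (u ∘ Sum.inr)))) ∧
      (∀ u : Fin k₁ ⊕ Fin k₂ → F,
        Y *ᵥ (J u) = J (Sum.elim (Y₁ *ᵥ (u ∘ Sum.inl)) (Y₂ *ᵥ (u ∘ Sum.inr)))) ∧
      Y₂ * T₂ = T₂ * Y₂ ∧ Y₁ᵀ * G₁ * Y₁ = G₁ ∧ Y₂ᵀ * G₂ * Y₂ = G₂ ∧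
      (∀ j : ℕ, Y ^ j = 1 ↔ Y₁ ^ j = 1 ∧ Y₂ ^ j = 1) ∧ 0 < k₂ ∧
      k₁ + k₂ = Fintype.card ι := by
  obtain ⟨k₁, k₂, G₁, G₂, T₂, J, hd1, hd2, hT2iso, hT2r, hfix, hform, hTblk, -, -⟩ :=
    hGD F ι G T r hdet hT hr0 hrF hTr
  obtain ⟨Y₁, Y₂, hYblk, hY2T2⟩ := hBD F ι T Y k₁ k₂ T₂ J hfix hTblk hYT
  obtain ⟨hY1iso, hY2iso⟩ := hGBF F ι k₁ k₂ J G Y G₁ Y₁ G₂ Y₂ hform hYblk hY
  have hpow := (hBF F ι k₁ k₂ J Y Y₁ Y₂ hYblk).1
  have hk2 : 0 < k₂ := by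
    by_contra hk
    have hk0 : k₂ = 0 := by omega
    subst hk0
    apply hT1
    apply Cfsg.Agent.Lib.Helper44.OMat.matrix_ext_mulVec
    intro w
    rw [Matrix.one_mulVec]
    have h1 := hTblk (J.symm w)
    rw [LinearEquiv.apply_symm_apply] at h1
    rw [h1]
    have h2 : Sum.elim ((J.symm w) ∘ Sum.inl) (T₂ *ᵥ ((J.symm w) ∘ Sum.inr)) = J.symm w := by
      funext i
      rcases i with i | i
      · rfl
      · exact i.elim0
    rw [h2, LinearEquiv.apply_symm_apply]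
  have hcard : k₁ + k₂ = Fintype.card ι := by
    have h := LinearEquiv.finrank_eq J
    rw [Module.finrank_fintype_fun_eq_card, Module.finrank_fintype_fun_eq_card,
      Fintype.card_sum, Fintype.card_fin, Fintype.card_fin] at h
    exact h
  exact ⟨k₁, k₂, G₁, Y₁, G₂, T₂, Y₂, J, hd1, hd2, hT2iso, hT2r, hfix, hTblk, hYblk, hY2T2,
    hY1iso, hY2iso, hpow, hk2, hcard⟩

theorem main (hGD : GDecomp.{u}) (hBD : BlockDiag.{u}) (hBF : BlockFacts.{u})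
    (hGBF : GBlockFacts.{u}) (hPT : PrimeTor.{u}) (hTB : GTorBound.{u}) : GNecI.{u} := by
  intro F _ _ p _ _ ι _ _ G x r s _ hdet hx hr hs hrs hr2 hs2 hrp hsp hord
  have hrF : (r : F) ≠ 0 := by
    intro h
    rw [CharP.cast_eq_zero_iff F p] at h
    exact hrp ((Nat.prime_dvd_prime_iff_eq (Fact.out : p.Prime) hr).1 h).symm
  have hsF : (s : F) ≠ 0 := by
    intro h
    rw [CharP.cast_eq_zero_iff F p] at h
    exact hsp ((Nat.prime_dvd_prime_iff_eq (Fact.out : p.Prime) hs).1 h).symm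
  have h2r : 2 < r := lt_of_le_of_ne hr.two_le (Ne.symm hr2)
  have h2s : 2 < s := lt_of_le_of_ne hs.two_le (Ne.symm hs2)
  have hcop : Nat.Coprime r s := (Nat.coprime_primes hr hs).2 hrs
  obtain ⟨T, hTdef⟩ : ∃ T : Matrix ι ι F, T = x ^ s := ⟨_, rfl⟩
  obtain ⟨Y, hYdef⟩ : ∃ Y : Matrix ι ι F, Y = x ^ r := ⟨_, rfl⟩
  have hTpow : ∀ j : ℕ, T ^ j = 1 ↔ r ∣ j := by
    intro j
    rw [hTdef, ← pow_mul, hord, mul_comm r s, Nat.mul_dvd_mul_iff_left hs.pos]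
  have hYpow : ∀ j : ℕ, Y ^ j = 1 ↔ s ∣ j := by
    intro j
    rw [hYdef, ← pow_mul, hord, Nat.mul_dvd_mul_iff_left hr.pos]
  have hTiso : Tᵀ * G * T = G := by rw [hTdef]; exact isom_pow G x hx s
  have hYiso : Yᵀ * G * Y = G := by rw [hYdef]; exact isom_pow G x hx r
  have hTr : T ^ r = 1 := (hTpow r).2 dvd_rfl
  have hYs : Y ^ s = 1 := (hYpow s).2 dvd_rfl
  have hT1 : T ≠ 1 := by
    intro h
    have h1 := (hTpow 1).1 (by rw [pow_one]; exact h)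
    have h2 := Nat.le_of_dvd one_pos h1
    omega
  have hY1 : Y ≠ 1 := by
    intro h
    have h1 := (hYpow 1).1 (by rw [pow_one]; exact h)
    have h2 := Nat.le_of_dvd one_pos h1
    omega
  have hYT : Y * T = T * Y := by
    rw [hTdef, hYdef, ← pow_add, ← pow_add, add_comm]
  obtain ⟨k₁, k₂, G₁, Y₁, G₂, T₂, Y₂, J, hd1, hd2, hT2iso, hT2r, hfix, hTblk, hYblk, hY2T2,
    hY1iso, hY2iso, hpow, hk2, hcard⟩ :=
    decomp hGD hBD hBF hGBF F ι G T Y r hdet hTiso hYiso hr.pos hrF hTr hT1 hYT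
  have hY12s := (hpow s).1 hYs
  by_cases hY1ne : Y₁ = 1
  swap
  · left
    obtain ⟨k', hk'1, hk'2, hk'3⟩ :=
      hPT F p (Fin k₁) G₁ Y₁ s hd1 hY1iso hs hs2 hsp hY12s.1 hY1ne
    obtain ⟨k'', hk''1, hk''2, hk''3⟩ :=
      hTB F (Fin k₂) G₂ T₂ r (by rw [Fintype.card_fin]; exact hk2) hd2 hT2iso h2r hT2r
        (prime_hyp T₂ r hr hfix)
    rw [Fintype.card_fin] at hk'2 hk''2
    exact ⟨k'', k', hk''1, hk'1, by omega, hk''3, hk'3⟩
  · obtain ⟨k₁', k₂', G₁', T₁', G₂', Y₂', T₂', J', hd1', hd2', hY2iso', hY2s', hfix', hYblk',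
      hTblk', hT2Y2', hT1iso', hT2iso', hpow', hk2', hcard'⟩ :=
      decomp hGD hBD hBF hGBF F ι G Y T s hdet hYiso hTiso hs.pos hsF hYs hY1 hYT.symm
    have hT12r := (hpow' r).1 hTr
    by_cases hT1ne : T₁' = 1
    swap
    · left
      obtain ⟨k', hk'1, hk'2, hk'3⟩ :=
        hPT F p (Fin k₁') G₁' T₁' r hd1' hT1iso' hr hr2 hrp hT12r.1 hT1ne
      obtain ⟨k'', hk''1, hk''2, hk''3⟩ :=
        hTB F (Fin k₂') G₂' Y₂' s (by rw [Fintype.card_fin]; exact hk2') hd2' hY2iso' h2s hY2s'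
          (prime_hyp Y₂' s hs hfix')
      rw [Fintype.card_fin] at hk'2 hk''2
      exact ⟨k', k'', hk'1, hk''1, by omega, hk'3, hk''3⟩
    · right
      have hY2fix : ∀ w : Fin k₂ → F, Y₂ *ᵥ w = w → w = 0 := by
        intro w hw
        have e1 : Y *ᵥ (J (Sum.elim (0 : Fin k₁ → F) w)) = J (Sum.elim (0 : Fin k₁ → F) w) := by
          rw [hYblk, hY1ne, Sum.elim_comp_inl, Sum.elim_comp_inr, hw, Matrix.one_mulVec]
        obtain ⟨u', hu'⟩ : ∃ u', J' u' = J (Sum.elim (0 : Fin k₁ → F) w) :=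
          ⟨J'.symm _, J'.apply_symm_apply _⟩
        have e2 : Y₂' *ᵥ (u' ∘ Sum.inr) = u' ∘ Sum.inr := by
          have h1 := hYblk' u'
          rw [hu', e1, ← hu'] at h1
          have h2 := J'.injective h1
          have h3 := congrArg (fun f => f ∘ Sum.inr) h2
          simp only [Sum.elim_comp_inr] at h3
          exact h3.symm
        have e3 : u' ∘ Sum.inr = 0 := hfix' _ e2
        have e4 : T *ᵥ (J (Sum.elim (0 : Fin k₁ → F) w)) = J (Sum.elim (0 : Fin k₁ → F) w) := by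
          rw [← hu', hTblk', hT1ne, e3, Matrix.mulVec_zero, Matrix.one_mulVec]
          congr 1
          funext i
          rcases i with i | i
          · rfl
          · exact (congrFun e3 i).symm
        have e5 := hTblk (Sum.elim (0 : Fin k₁ → F) w)
        rw [e4, Sum.elim_comp_inl, Sum.elim_comp_inr] at e5
        have e6 := J.injective e5
        have e7 := congrArg (fun f => f ∘ Sum.inr) e6
        simp only [Sum.elim_comp_inr] at e7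
        exact hfix w e7.symm
      have hcomm : Commute T₂ Y₂ := hY2T2.symm
      have hY2s : Y₂ ^ s = 1 := hY12s.2
      have hZiso : (T₂ * Y₂)ᵀ * G₂ * (T₂ * Y₂) = G₂ := by
        rw [Matrix.transpose_mul]
        calc Y₂ᵀ * T₂ᵀ * G₂ * (T₂ * Y₂) = Y₂ᵀ * (T₂ᵀ * G₂ * T₂) * Y₂ := by
              simp only [Matrix.mul_assoc]
          _ = G₂ := by rw [hT2iso, hY2iso]
      have hZpow : (T₂ * Y₂) ^ (r * s) = 1 := by
        rw [hcomm.mul_pow, pow_mul, hT2r, one_pow, one_mul, mul_comm r s, pow_mul, hY2s, one_pow]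
      obtain ⟨k, hk1, hk2'', hk3⟩ :=
        hTB F (Fin k₂) G₂ (T₂ * Y₂) (r * s) (by rw [Fintype.card_fin]; exact hk2) hd2 hZiso
          (by nlinarith) hZpow (by
            intro ℓ hℓ hℓd v hv
            rcases (Nat.Prime.dvd_mul hℓ).1 hℓd with h | h
            · have hℓr : ℓ = r := (Nat.prime_dvd_prime_iff_eq hℓ hr).1 h
              rw [hℓr, Nat.mul_div_cancel_left s hr.pos, hcomm.mul_pow, hY2s, mul_one] at hv
              exact hfix v (fix_of_pow T₂ r s hT2r hcop.symm hr.one_lt v hv)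
            · have hℓs : ℓ = s := (Nat.prime_dvd_prime_iff_eq hℓ hs).1 h
              rw [hℓs, Nat.mul_div_cancel r hs.pos, hcomm.mul_pow, hT2r, one_mul] at hv
              exact hY2fix v (fix_of_pow Y₂ s r hY2s hcop hs.one_lt v hv))
      rw [Fintype.card_fin] at hk2''
      exact ⟨k, hk1, by omega, hk3⟩

end Cfsg.Agent.Lib.Helper15.PGGNEC1
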