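import Mathlib
import Cfsg.Agent.Lib.Helper33.SpecElts2

set_option autoImplicit false

namespace Cfsg.Agent.Lib.Helper15.SpecSL

/-- transvection-type automorphism of an abelian group of order `p^2` realised by `hSL`. -/
theorem exists_transv {G : Type*} [Group G] [Finite G] {p : ℕ} [Fact p.Prime]
    (A : Subgroup G) (hAcard : Nat.card A = p ^ 2) (hAexp : ∀ a ∈ A, a ^ p = 1)
    (hSL : ∀ φ : MulAut A, orderOf φ = p → ∃ g : G, ∀ a : A, (φ a : G) = g * (a : G) * g⁻¹)
    (y w : G) (hy : y ∈ A) (hw : w ∈ A) (hy1 : y ≠ 1) (hwy : w ∉ Subgroup.zpowers y) :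
    ∃ g : G, g * y * g⁻¹ = y ∧ g * w * g⁻¹ = w * y := by
  have hp : p.Prime := Fact.out
  have hcomm : ∀ a b : A, a * b = b * a := fun a b =>
    (IsPGroup.isMulCommutative_of_card_eq_prime_sq hAcard).is_comm.comm a b
  obtain ⟨y', hy'⟩ : ∃ y' : A, y' = ⟨y, hy⟩ := ⟨_, rfl⟩
  obtain ⟨w', hw'⟩ : ∃ w' : A, w' = ⟨w, hw⟩ := ⟨_, rfl⟩
  have hy'1 : y' ≠ 1 := by
    rw [hy']
    intro h
    exact hy1 (congrArg Subtype.val h)
  have hpow : ∀ a : A, a ^ p = 1 := by
    intro a
    ext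
    simpa using hAexp a a.2
  have hy'ord : orderOf y' = p := orderOf_eq_prime (hpow y') hy'1
  have hYn : (Subgroup.zpowers y').Normal := by
    constructor
    intro n hn g
    rw [hcomm g n, mul_inv_cancel_right]
    exact hn
  have hYcard : Nat.card (Subgroup.zpowers y') = p := by
    rw [Nat.card_zpowers, hy'ord]
  have hq : Nat.card (A ⧸ Subgroup.zpowers y') = p := by
    have h1 := Subgroup.card_eq_card_quotient_mul_card_subgroup (Subgroup.zpowers y')
    rw [hAcard, hYcard] at h1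
    have hp0 : 0 < p := hp.pos
    have : p ^ 2 = p * p := by ring
    rw [this] at h1
    exact (Nat.eq_of_mul_eq_mul_right hp0 h1).symm
  have hw'Y : w' ∉ Subgroup.zpowers y' := by
    intro h
    obtain ⟨k, hk⟩ := Subgroup.mem_zpowers_iff.1 h
    apply hwy
    refine Subgroup.mem_zpowers_iff.2 ⟨k, ?_⟩
    have := congrArg Subtype.val hk
    rw [hy', hw'] at this
    simpa using this
  obtain ⟨c, hc⟩ : ∃ c : A ⧸ Subgroup.zpowers y', c = (w' : A ⧸ Subgroup.zpowers y') := ⟨_, rfl⟩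
  have hc1 : c ≠ 1 := by
    rw [hc]
    intro h
    exact hw'Y ((QuotientGroup.eq_one_iff w').1 h)
  have hgen : ∀ q : A ⧸ Subgroup.zpowers y', q ∈ Subgroup.zpowers c := by
    intro q
    rw [zpowers_eq_top_of_prime_card hq hc1]
    exact Subgroup.mem_top q
  have hcp : c ^ p = 1 := by
    rw [← hq]
    exact pow_card_eq_one'
  have hcord : orderOf c = p := orderOf_eq_prime hcp hc1
  have hdvd : orderOf y' ∣ orderOf c := by rw [hy'ord, hcord]
  obtain ⟨f0, hf0⟩ : ∃ f0 : A ⧸ Subgroup.zpowers y' →* A, f0 = monoidHomOfForallMemZpowers hgen hdvd :=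
    ⟨_, rfl⟩
  have hf0c : f0 c = y' := by
    rw [hf0]
    exact monoidHomOfForallMemZpowers_apply_gen hgen hdvd
  obtain ⟨f, hf⟩ : ∃ f : A →* A, f = f0.comp (QuotientGroup.mk' (Subgroup.zpowers y')) := ⟨_, rfl⟩
  have hfw : f w' = y' := by
    rw [hf]
    simp only [MonoidHom.comp_apply, QuotientGroup.mk'_apply]
    rw [← hc, hf0c]
  have hfy : f y' = 1 := by
    rw [hf]
    simp only [MonoidHom.comp_apply, QuotientGroup.mk'_apply]
    have : ((y' : A) : A ⧸ Subgroup.zpowers y') = 1 :=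
      (QuotientGroup.eq_one_iff y').2 (Subgroup.mem_zpowers y')
    rw [this, map_one]
  have hff : ∀ a : A, f (f a) = 1 := by
    intro a
    have h1 : (a : A ⧸ Subgroup.zpowers y') ∈ Subgroup.zpowers c := hgen _
    obtain ⟨k, hk⟩ := Subgroup.mem_zpowers_iff.1 h1
    have h2 : f a = y' ^ k := by
      rw [hf]
      simp only [MonoidHom.comp_apply, QuotientGroup.mk'_apply]
      rw [← hk, map_zpow, hf0c]
    rw [h2, map_zpow, hfy, one_zpow]
  obtain ⟨φ, hφ⟩ : ∃ φ : MulAut A, ∀ a, φ a = a * f a := by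
    refine ⟨{ toFun := fun a => a * f a
              invFun := fun a => a * (f a)⁻¹
              left_inv := ?_
              right_inv := ?_
              map_mul' := ?_ }, fun a => rfl⟩
    · intro a
      show a * f a * (f (a * f a))⁻¹ = a
      rw [map_mul, hff, mul_one, mul_inv_cancel_right]
    · intro a
      show a * (f a)⁻¹ * f (a * (f a)⁻¹) = a
      rw [map_mul, map_inv, hff, inv_one, mul_one, inv_mul_cancel_right]
    · intro a b
      show a * b * f (a * b) = a * f a * (b * f b)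
      rw [map_mul, mul_assoc, mul_assoc, ← mul_assoc b (f a) (f b), hcomm b (f a), mul_assoc]
  have hφk : ∀ (k : ℕ) (a : A), (φ ^ k) a = a * (f a) ^ k := by
    intro k
    induction k with
    | zero => intro a; simp
    | succ k ih =>
      intro a
      rw [pow_succ', MulAut.mul_apply, ih, hφ, map_mul, map_pow, hff, one_pow, mul_one, pow_succ,
        mul_assoc]
  have hφp : φ ^ p = 1 := by
    ext a
    rw [hφk, hpow, mul_one]
    rfl
  have hφ1 : φ ≠ 1 := by
    intro h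
    have h1 : φ w' = w' := by rw [h]; rfl
    rw [hφ, hfw] at h1
    exact hy'1 (mul_eq_left.1 h1)
  have hφord : orderOf φ = p := orderOf_eq_prime hφp hφ1
  obtain ⟨g, hg⟩ := hSL φ hφord
  refine ⟨g, ?_, ?_⟩
  · have h1 := hg y'
    rw [hφ, hfy, mul_one, hy'] at h1
    exact h1.symm
  · have h1 := hg w'
    rw [hφ, hfw, hw', hy'] at h1
    simpa using h1.symm


/-- two subgroups of order `p ^ 2` sharing `z` of order `p` and some `x ∉ ⟨z⟩` coincide. -/
theorem eq_of_common {G : Type*} [Group G] [Finite G] {p : ℕ} [Fact p.Prime]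
    (A B : Subgroup G) (hA : Nat.card A = p ^ 2) (hB : Nat.card B = p ^ 2)
    (z : G) (hz1 : z ≠ 1) (hzp : z ^ p = 1) (hzA : z ∈ A) (hzB : z ∈ B)
    (x : G) (hxA : x ∈ A) (hxB : x ∈ B) (hxz : x ∉ Subgroup.zpowers z) : A = B := by
  have hp : p.Prime := Fact.out
  have hzc : Nat.card (Subgroup.zpowers z) = p := by
    rw [Nat.card_zpowers, orderOf_eq_prime hzp hz1]
  have hle : Subgroup.zpowers z ≤ A ⊓ B := by
    rw [Subgroup.zpowers_le]
    exact ⟨hzA, hzB⟩
  have hd1 : p ∣ Nat.card (A ⊓ B : Subgroup G) := by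
    rw [← hzc]
    exact Subgroup.card_dvd_of_le hle
  have hd2 : Nat.card (A ⊓ B : Subgroup G) ∣ p ^ 2 := by
    rw [← hA]
    exact Subgroup.card_dvd_of_le inf_le_left
  obtain ⟨k, hk, hkc⟩ := (Nat.dvd_prime_pow hp).1 hd2
  have hk0 : k ≠ 0 := by
    intro h
    rw [h, pow_zero] at hkc
    rw [hkc] at hd1
    exact hp.one_lt.ne' (Nat.dvd_one.1 hd1)
  have hk1 : k ≠ 1 := by
    intro h
    rw [h, pow_one] at hkc
    have : Subgroup.zpowers z = A ⊓ B :=
      Subgroup.eq_of_le_of_card_ge hle (by rw [hzc, hkc])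
    apply hxz
    rw [this]
    exact ⟨hxA, hxB⟩
  have hk2 : k = 2 := by omega
  rw [hk2] at hkc
  have h1 : A ⊓ B = A := Subgroup.eq_of_le_of_card_ge inf_le_left (by rw [hkc, hA])
  have h2 : A ⊓ B = B := Subgroup.eq_of_le_of_card_ge inf_le_right (by rw [hkc, hB])
  rw [← h1]
  exact h2

/-- the centre `⟨z⟩` of `P` lies in every subgroup of order `p ^ 2` of `P`. -/
theorem z_mem {G : Type*} [Group G] [Finite G] {p : ℕ} [Fact p.Prime]
    (P : Sylow p G) (hcard : Nat.card P = p ^ 3) (hexp : ∀ a ∈ P, a ^ p = 1)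
    (z : G) (hz : z ∈ P) (hz1 : z ≠ 1) (hzc : ∀ a ∈ P, a * z = z * a)
    (hcen : ∀ a ∈ P, (∀ b ∈ P, a * b = b * a) → a ∈ Subgroup.zpowers z)
    (A : Subgroup G) (hAP : A ≤ (P : Subgroup G)) (hAcard : Nat.card A = p ^ 2) : z ∈ A := by
  have hp : p.Prime := Fact.out
  by_contra hzA
  have hzp : z ^ p = 1 := hexp z hz
  have hzcard : Nat.card (Subgroup.zpowers z) = p := by
    rw [Nat.card_zpowers, orderOf_eq_prime hzp hz1]
  have hcommA : ∀ a b : A, a * b = b * a := fun a b =>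
    (IsPGroup.isMulCommutative_of_card_eq_prime_sq hAcard).is_comm.comm a b
  -- an element of `A` outside `⟨z⟩`
  have hex : ∃ a ∈ A, a ∉ Subgroup.zpowers z := by
    by_contra hcon
    push Not at hcon
    have hle : A ≤ Subgroup.zpowers z := hcon
    have h1 := Nat.le_of_dvd (by rw [hzcard]; exact hp.pos) (Subgroup.card_dvd_of_le hle)
    rw [hAcard, hzcard] at h1
    have : p * 2 ≤ p * p := Nat.mul_le_mul_left p hp.two_le
    nlinarith [hp.two_le]
  obtain ⟨a, haA, haz⟩ := hex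
  obtain ⟨C, hC⟩ : ∃ C : Subgroup G, C = Subgroup.centralizer ({a} : Set G) ⊓ (P : Subgroup G) :=
    ⟨_, rfl⟩
  have hAC : A ≤ C := by
    intro b hb
    rw [hC]
    refine Subgroup.mem_inf.2 ⟨?_, hAP hb⟩
    rw [Subgroup.mem_centralizer_iff]
    intro h hh
    rw [Set.mem_singleton_iff] at hh
    rw [hh]
    have := hcommA ⟨a, haA⟩ ⟨b, hb⟩
    exact congrArg Subtype.val this
  have hzC : z ∈ C := by
    rw [hC]
    refine Subgroup.mem_inf.2 ⟨?_, hz⟩
    rw [Subgroup.mem_centralizer_iff]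
    intro h hh
    rw [Set.mem_singleton_iff] at hh
    rw [hh]
    exact hzc a (hAP haA)
  have hCP : C ≤ (P : Subgroup G) := by
    rw [hC]
    exact inf_le_right
  have hd1 : p ^ 2 ∣ Nat.card C := by
    rw [← hAcard]
    exact Subgroup.card_dvd_of_le hAC
  have hd2 : Nat.card C ∣ p ^ 3 := by
    have hcard' : Nat.card (P : Subgroup G) = p ^ 3 := hcard
    rw [← hcard']
    exact Subgroup.card_dvd_of_le hCP
  obtain ⟨k, hk, hkc⟩ := (Nat.dvd_prime_pow hp).1 hd2
  have hk2 : 2 ≤ k := by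
    rw [hkc] at hd1
    exact (Nat.pow_dvd_pow_iff_le_right hp.one_lt).1 hd1
  have hkne : k ≠ 2 := by
    intro h
    rw [h] at hkc
    have : A = C := Subgroup.eq_of_le_of_card_ge hAC (by rw [hkc, hAcard])
    apply hzA
    rw [this]
    exact hzC
  have hk3 : k = 3 := by omega
  rw [hk3] at hkc
  have hCeq : C = (P : Subgroup G) := by
    have hcard' : Nat.card (P : Subgroup G) = p ^ 3 := hcard
    exact Subgroup.eq_of_le_of_card_ge hCP (by rw [hkc, hcard'])
  apply haz
  apply hcen a (hAP haA)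
  intro b hb
  have hb' : b ∈ C := by rw [hCeq]; exact hb
  rw [hC] at hb'
  have := (Subgroup.mem_inf.1 hb').1
  rw [Subgroup.mem_centralizer_iff] at this
  exact this a (Set.mem_singleton a)

/-- **A1'**: the special element of `N_G(P)` from the `SL₂`-hypothesis on one plane `A`. -/
theorem special_of_sl {G : Type*} [Group G] [Finite G] {p : ℕ} [Fact p.Prime]
    (P : Sylow p G) (hcard : Nat.card P = p ^ 3) (hexp : ∀ a ∈ P, a ^ p = 1)
    (z : G) (hz : z ∈ P) (hz1 : z ≠ 1) (hzc : ∀ a ∈ P, a * z = z * a)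
    (hcen : ∀ a ∈ P, (∀ b ∈ P, a * b = b * a) → a ∈ Subgroup.zpowers z)
    (A : Subgroup G) (hAP : A ≤ (P : Subgroup G)) (hAcard : Nat.card A = p ^ 2)
    (hSL : ∀ φ : MulAut A, orderOf φ = p → ∃ g : G, ∀ a : A, (φ a : G) = g * (a : G) * g⁻¹)
    (t s : ℕ) (hts : t * s ≡ 1 [MOD p]) (x : G) (hx : x ∈ A) (hxz : x ∉ Subgroup.zpowers z) :
    ∃ n : G, n ∈ Subgroup.normalizer ((P : Subgroup G) : Set G) ∧ n * z * n⁻¹ = z ^ t ∧
      n * x * n⁻¹ = x ^ s := by
  have hp : p.Prime := Fact.out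
  have hzA : z ∈ A := z_mem P hcard hexp z hz hz1 hzc hcen A hAP hAcard
  have hAexp : ∀ a ∈ A, a ^ p = 1 := fun a ha => hexp a (hAP ha)
  have hx1 : x ≠ 1 := by
    rintro rfl
    exact hxz (Subgroup.one_mem _)
  have hzp : z ^ p = 1 := hexp z hz
  have hxp : x ^ p = 1 := hexp x (hAP hx)
  have hzx : z ∉ Subgroup.zpowers x := by
    intro hmem
    have hle : Subgroup.zpowers z ≤ Subgroup.zpowers x := by
      rw [Subgroup.zpowers_le]
      exact hmem
    have hcz' : Nat.card (Subgroup.zpowers z) = p := by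
      rw [Nat.card_zpowers, orderOf_eq_prime hzp hz1]
    have hcx' : Nat.card (Subgroup.zpowers x) = p := by
      rw [Nat.card_zpowers, orderOf_eq_prime hxp hx1]
    have heq : Subgroup.zpowers z = Subgroup.zpowers x :=
      Subgroup.eq_of_le_of_card_ge hle (by rw [hcz', hcx'])
    apply hxz
    rw [heq]
    exact Subgroup.mem_zpowers x
  obtain ⟨v, hvx, hvz⟩ := exists_transv A hAcard hAexp hSL x z hx hzA hx1 hzx
  exact Cfsg.Agent.Lib.Helper33.SpecElts2.special_of_uv P hcard hexp z hz hz1 hzc hcen t s hts x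
    (hAP hx) hxz v hvx hvz

end Cfsg.Agent.Lib.Helper15.SpecSL
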