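import Mathlib
import Cfsg.Agent.Lib.Helper15.SpecSL
import Cfsg.Agent.Lib.Helper10.RVSetup
import Cfsg.Agent.Lib.Helper93.Gl2Three

set_option autoImplicit false

namespace Cfsg.Agent.Lib.Helper15.RV3

open Cfsg.Agent.Lib.Helper15

/-- Three `SL₂`-planes in an extraspecial Sylow `p`-subgroup of order `p ^ 3` and exponent `p`
force `p < 17`; the Klein-type commutation lemma `K1p` is an explicit hypothesis. -/
theorem main_of_klein
    (K1p : ∀ (H' : Type) [Group H'] [Finite H'] (m : ℕ), 6 ≤ m →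
      (∀ h : H', h ∉ Subgroup.center H' → ∀ a b : H', a * h = h * a → b * h = h * b →
        a * b = b * a) →
      (∀ h : H', h ∉ Subgroup.center H' → ∀ a b : H',
        (a * h * a⁻¹) * h = h * (a * h * a⁻¹) → (b * h * b⁻¹) * h = h * (b * h * b⁻¹) →
        a * h ≠ h * a → b * h ≠ h * b → (a⁻¹ * b) * h = h * (a⁻¹ * b)) →
      ∀ (S : Set H'), (∀ s ∈ S, ∀ g : H', g * s * g⁻¹ ∈ S) →
      (∀ s ∈ S, ∀ k : ℕ, s ^ k ∈ Subgroup.center H' → m ∣ k) →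
      ∀ (s₁ s₂ : H'), s₁ ∈ S → s₂ ∈ S → s₁ * s₂ = s₂ * s₁)
    {G : Type*} [Group G] [Finite G] {p : ℕ} [Fact p.Prime] (P : Sylow p G)
    (hZ : Nat.card (Subgroup.center ↥P) = p) (hcard : Nat.card P = p ^ 3)
    (hexp : ∀ a : ↥P, a ^ p = 1)
    (A : Fin 3 → Subgroup G) (hA : Function.Injective A) (hAP : ∀ i, A i ≤ (P : Subgroup G))
    (hAcard : ∀ i, Nat.card ↥(A i) = p ^ 2)
    (hSL : ∀ i, ∀ φ : MulAut ↥(A i), orderOf φ = p →
      ∃ g : G, ∀ a : ↥(A i), (φ a : G) = g * (a : G) * g⁻¹) :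
    p < 17 := by
  by_contra hp17
  push Not at hp17
  have hp : p.Prime := Fact.out
  have : NeZero p := ⟨hp.ne_zero⟩
  -- a generator of the centre
  have hnt : Nontrivial (Subgroup.center ↥P) := by
    rw [← Finite.one_lt_card_iff_nontrivial, hZ]
    exact hp.one_lt
  obtain ⟨zc, hzc1⟩ := exists_ne (1 : Subgroup.center ↥P)
  obtain ⟨z₀, hz₀⟩ : ∃ z₀ : ↥P, z₀ = (zc : ↥P) := ⟨_, rfl⟩
  have hz₀c : z₀ ∈ Subgroup.center ↥P := by
    rw [hz₀]
    exact zc.2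
  have hz₀1 : z₀ ≠ 1 := by
    rw [hz₀]
    intro h
    exact hzc1 (Subtype.ext h)
  obtain ⟨z, hzdef⟩ : ∃ z : G, z = (z₀ : G) := ⟨_, rfl⟩
  have hzP : z ∈ (P : Subgroup G) := by
    rw [hzdef]
    exact z₀.2
  have hz1 : z ≠ 1 := by
    rw [hzdef]
    intro h
    exact hz₀1 (Subtype.ext h)
  have hexp' : ∀ a ∈ (P : Subgroup G), a ^ p = 1 := by
    intro a ha
    have := hexp ⟨a, ha⟩
    exact congrArg Subtype.val this
  have hzcomm : ∀ a ∈ (P : Subgroup G), a * z = z * a := by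
    intro a ha
    have := Subgroup.mem_center_iff.1 hz₀c ⟨a, ha⟩
    rw [hzdef]
    exact congrArg Subtype.val this
  have hz₀p : z₀ ^ p = 1 := hexp z₀
  have hzpc : Nat.card (Subgroup.zpowers z₀) = p := by
    rw [Nat.card_zpowers, orderOf_eq_prime hz₀p hz₀1]
  have hceq : Subgroup.zpowers z₀ = Subgroup.center ↥P :=
    Subgroup.eq_of_le_of_card_ge (by rw [Subgroup.zpowers_le]; exact hz₀c) (by rw [hzpc, hZ])
  have hdown : ∀ y₀ : ↥P, y₀ ∈ Subgroup.center ↥P → (y₀ : G) ∈ Subgroup.zpowers z := by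
    intro y₀ hy
    rw [← hceq] at hy
    obtain ⟨k, hk⟩ := Subgroup.mem_zpowers_iff.1 hy
    refine Subgroup.mem_zpowers_iff.2 ⟨k, ?_⟩
    have := congrArg Subtype.val hk
    rw [hzdef]
    simpa using this
  have hcen : ∀ a ∈ (P : Subgroup G), (∀ b ∈ (P : Subgroup G), a * b = b * a) →
      a ∈ Subgroup.zpowers z := by
    intro a ha hab
    have h1 : (⟨a, ha⟩ : ↥P) ∈ Subgroup.center ↥P := by
      rw [Subgroup.mem_center_iff]
      intro g
      apply Subtype.ext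
      exact (hab g g.2).symm
    exact hdown _ h1
  -- the points `x i`
  have hx : ∀ i, ∃ x ∈ A i, x ∉ Subgroup.zpowers z := by
    intro i
    by_contra hcon
    push Not at hcon
    have hle : A i ≤ Subgroup.zpowers z := hcon
    have hzc' : Nat.card (Subgroup.zpowers z) = p := by
      rw [Nat.card_zpowers, orderOf_eq_prime (hexp' z hzP) hz1]
    have h1 := Nat.le_of_dvd (by rw [hzc']; exact hp.pos) (Subgroup.card_dvd_of_le hle)
    rw [hAcard, hzc'] at h1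
    nlinarith [hp.two_le]
  choose x hxA hxz using hx
  -- a primitive root
  obtain ⟨t', ht'⟩ : ∃ t' : (ZMod p)ˣ, orderOf t' = p - 1 := by
    obtain ⟨g, hg⟩ := IsCyclic.exists_generator (α := (ZMod p)ˣ)
    refine ⟨g, ?_⟩
    rw [orderOf_eq_card_of_forall_mem_zpowers hg, Nat.card_eq_fintype_card, ZMod.card_units]
  obtain ⟨t, ht⟩ : ∃ t : ℕ, t = ((t' : ZMod p)).val := ⟨_, rfl⟩
  obtain ⟨s, hs⟩ : ∃ s : ℕ, s = (((t'⁻¹ : (ZMod p)ˣ) : ZMod p)).val := ⟨_, rfl⟩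
  have htc : (t : ZMod p) = (t' : ZMod p) := by rw [ht, ZMod.natCast_zmod_val]
  have hsc : (s : ZMod p) = ((t'⁻¹ : (ZMod p)ˣ) : ZMod p) := by rw [hs, ZMod.natCast_zmod_val]
  have hts : t * s ≡ 1 [MOD p] := by
    rw [← ZMod.natCast_eq_natCast_iff]
    push_cast
    rw [htc, hsc, ← Units.val_mul, mul_inv_cancel, Units.val_one]
  -- the special elements
  have hn : ∀ i, ∃ n : G, n ∈ Subgroup.normalizer ((P : Subgroup G) : Set G) ∧
      n * z * n⁻¹ = z ^ t ∧ n * x i * n⁻¹ = x i ^ s := fun i =>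
    SpecSL.special_of_sl P hcard hexp' z hzP hz1 hzcomm hcen (A i) (hAP i) (hAcard i) (hSL i)
      t s hts (x i) (hxA i) (hxz i)
  choose n hnN hnz hnx using hn
  obtain ⟨c, R, hcb, hcadd, hR, hmain⟩ := Cfsg.Agent.Lib.Helper10.RVSetup.setup P hZ hcard hexp
  obtain ⟨x₀, hx₀⟩ : ∃ x₀ : Fin 3 → ↥P, ∀ i, x₀ i = ⟨x i, hAP i (hxA i)⟩ := ⟨_, fun i => rfl⟩
  have hx₀v : ∀ i, ((x₀ i : ↥P) : G) = x i := by
    intro i
    rw [hx₀]
  obtain ⟨v, hv⟩ : ∃ v : Fin 3 → (Fin 2 → ZMod p), ∀ i, v i = c (QuotientGroup.mk (x₀ i)) :=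
    ⟨_, fun _ => rfl⟩
  have hx₀nc : ∀ i, x₀ i ∉ Subgroup.center ↥P := by
    intro i hmem
    have := hdown _ hmem
    rw [hx₀v] at this
    exact hxz i this
  have hspec : ∀ i, (R ⟨n i, hnN i⟩ : Matrix (Fin 2) (Fin 2) (ZMod p)).mulVec (v i) =
      ((t'⁻¹ : (ZMod p)ˣ) : ZMod p) • v i ∧
      Matrix.det (R ⟨n i, hnN i⟩ : Matrix (Fin 2) (Fin 2) (ZMod p)) = (t' : ZMod p) := by
    intro i
    have h := hmain z₀ hz₀c hz₀1 (n i) (hnN i) t s hts (by rw [← hzdef]; exact hnz i) (x₀ i)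
      (hx₀nc i) (by rw [hx₀v]; exact hnx i)
    rw [hsc, htc, ← hv] at h
    exact h
  have hc1 : c 1 = 0 := Cfsg.Agent.Lib.Helper10.RVSetup.c_one c hcadd
  have hv0 : ∀ i, v i ≠ 0 := by
    intro i h0
    rw [hv, ← hc1] at h0
    have := hcb.1 h0
    exact hx₀nc i ((QuotientGroup.eq_one_iff _).1 this)
  have hzA : ∀ i, z ∈ A i := fun i =>
    SpecSL.z_mem P hcard hexp' z hzP hz1 hzcomm hcen (A i) (hAP i) (hAcard i)
  have hprop : ∀ i j, i ≠ j → ∀ k : ZMod p, v j ≠ k • v i := by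
    intro i j hij k hk
    apply hij
    apply hA
    have h1 : c (QuotientGroup.mk (x₀ j)) = c ((QuotientGroup.mk (x₀ i)) ^ k.val) := by
      rw [Cfsg.Agent.Lib.Helper10.RVSetup.c_pow c hcadd, ZMod.natCast_zmod_val, ← hv, ← hv]
      exact hk
    have h2 := hcb.1 h1
    rw [← QuotientGroup.mk_pow, QuotientGroup.eq] at h2
    have h3 := hdown _ h2
    obtain ⟨m, hm⟩ := Subgroup.mem_zpowers_iff.1 h3
    have h4 : (x j)⁻¹ * x i ^ k.val = z ^ m := by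
      rw [hm]
      simp [hx₀v]
    have hxjAi : x j ∈ A i := by
      have : x j = x i ^ k.val * (z ^ m)⁻¹ := by
        rw [← h4]
        group
      rw [this]
      exact Subgroup.mul_mem _ (Subgroup.pow_mem _ (hxA i) _)
        (Subgroup.inv_mem _ (Subgroup.zpow_mem _ (hzA i) _))
    exact SpecSL.eq_of_common (A i) (A j) (hAcard i) (hAcard j) z hz1 (hexp' z hzP) (hzA i)
      (hzA j) (x j) hxjAi (hxA j) (hxz j)
  refine Cfsg.Agent.Lib.Helper93.Gl2Three.gl2_three_of_klein K1p p hp17 R.range hR t' ht'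
    (v 0) (v 1) (v 2) (hv0 0) (hv0 1) (hv0 2) (hprop 0 1 (by decide)) (hprop 0 2 (by decide))
    (hprop 1 2 (by decide)) ?_
  intro w hw
  rcases hw with rfl | rfl | rfl
  · exact ⟨R ⟨n 0, hnN 0⟩, ⟨_, rfl⟩, hspec 0⟩
  · exact ⟨R ⟨n 1, hnN 1⟩, ⟨_, rfl⟩, hspec 1⟩
  · exact ⟨R ⟨n 2, hnN 2⟩, ⟨_, rfl⟩, hspec 2⟩

end Cfsg.Agent.Lib.Helper15.RV3
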