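import Mathlib
import Cfsg.Agent.Lib.Helper38.Sp4Stmt

set_option autoImplicit false

/-! Piece [SYL1] of S5320 (helper38's blueprint): in the self-normalizing case `S0` is a Sylow
`2`-subgroup. -/

namespace Cfsg.Agent.Lib.Helper15.Sp4SYL1

open Cfsg.Agent.Lib.Helper38.Sp4Stmt

universe u v

theorem main : SYL1.{u, v} := by
  intro hSYLN hS2G hNORM G L _ _ _ ψ τ ε Q hD hQ hself
  have : Fact (Nat.Prime 2) := Nat.fact_prime_two
  apply hSYLN G 2 (S0 ψ τ Q)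
  · exact hS2G G L ψ τ ε Q hD hQ
  · intro n hn _
    obtain ⟨s, hs, a, ha, rfl⟩ := hNORM G L ψ τ ε Q hD hQ n hn
    have haQ : a ∈ Q := hself a ha
    have h1 : ψ (a, a) ∈ S0 ψ τ Q :=
      Subgroup.subset_closure (Or.inr ⟨a, haQ, a, haQ, rfl⟩)
    exact Subgroup.mul_mem _ hs h1

end Cfsg.Agent.Lib.Helper15.Sp4SYL1
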