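import Mathlib
import Cfsg.Agent.Lib.Helper38.Sp4Stmt

set_option autoImplicit false

/-! Piece [SYL2] of S5320 (helper38's blueprint): in the quaternion case `S0` is a Sylow
`2`-subgroup. -/

namespace Cfsg.Agent.Lib.Helper15.Sp4SYL2

open Cfsg.Agent.Lib.Helper38.Sp4Stmt

universe u v

theorem main : SYL2.{u, v} := by
  intro hSYLN hS2G hN2 G L _ _ _ ψ τ ε Q w hD hQ hQ8
  have : Fact (Nat.Prime 2) := Nat.fact_prime_two
  apply hSYLN G 2 (S0 ψ τ Q)
  · exact hS2G G L ψ τ ε Q hD hQ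
  · intro n hn hk
    exact (hN2 G L ψ τ ε Q w hD hQ hQ8).2.2 n hn hk

end Cfsg.Agent.Lib.Helper15.Sp4SYL2
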