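import Mathlib
import Cfsg.Agent.Lib.Helper32.T3Stmt

/-!
# S3701 / OMEGA: the linear character of `C_G(x1)` (by transfer into `T`)
-/

set_option autoImplicit false
set_option linter.style.haveILetI false

namespace Cfsg.Agent.Lib.Helper15.T3OMEGA

open Cfsg Cfsg.Agent.Lib.Helper32.T3Stmt

universe u

variable {G : Type u} [Group G] {T H : Subgroup G} {x1 x2 x3 u1 u2 u3 : G}

theorem x1_comm_T (hc : Cfg3 T H x1 x2 x3 u1 u2 u3) {t : G} (ht : t ∈ T) : Commute x1 t := by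
  obtain ⟨i, j, k, rfl⟩ := (hc.memT t).1 ht
  exact (((Commute.refl x1).pow_right i).mul_right
    ((show Commute x1 x2 from hc.c12).pow_right j)).mul_right
    ((show Commute x1 x3 from hc.c13).pow_right k)

theorem x2_comm_T (hc : Cfg3 T H x1 x2 x3 u1 u2 u3) {t : G} (ht : t ∈ T) : Commute x2 t := by
  obtain ⟨i, j, k, rfl⟩ := (hc.memT t).1 ht
  exact (((show Commute x2 x1 from hc.c12.symm).pow_right i).mul_right
    ((Commute.refl x2).pow_right j)).mul_right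
    ((show Commute x2 x3 from hc.c23).pow_right k)

theorem x3_comm_T (hc : Cfg3 T H x1 x2 x3 u1 u2 u3) {t : G} (ht : t ∈ T) : Commute x3 t := by
  obtain ⟨i, j, k, rfl⟩ := (hc.memT t).1 ht
  exact (((show Commute x3 x1 from hc.c13.symm).pow_right i).mul_right
    ((show Commute x3 x2 from hc.c23.symm).pow_right j)).mul_right
    ((Commute.refl x3).pow_right k)

theorem T_comm (hc : Cfg3 T H x1 x2 x3 u1 u2 u3) {s t : G} (hs : s ∈ T) (ht : t ∈ T) :
    Commute s t := by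
  obtain ⟨i, j, k, rfl⟩ := (hc.memT s).1 hs
  exact (((x1_comm_T hc ht).pow_left i).mul_left ((x2_comm_T hc ht).pow_left j)).mul_left
    ((x3_comm_T hc ht).pow_left k)

theorem x1_mem_T (hc : Cfg3 T H x1 x2 x3 u1 u2 u3) : x1 ∈ T :=
  (hc.memT x1).2 ⟨1, 0, 0, by simp⟩

theorem x2_mem_T (hc : Cfg3 T H x1 x2 x3 u1 u2 u3) : x2 ∈ T :=
  (hc.memT x2).2 ⟨0, 1, 0, by simp⟩

theorem eq_one_of_inv_eq {M : Type*} [Group M] {x : M} (h3 : x ^ 3 = 1) (h : x⁻¹ = x) :
    x = 1 := by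
  have h2 : x ^ 2 = 1 := by
    rw [pow_two]
    nth_rewrite 1 [← h]
    simp
  calc x = x ^ 3 * (x ^ 2)⁻¹ := by group
    _ = 1 := by rw [h3, h2]; simp

theorem eq_one_of_sq_eq_one {M : Type*} [Group M] {x : M} (h3 : x ^ 3 = 1) (h2 : x ^ 2 = 1) :
    x = 1 := by
  calc x = x ^ 3 * (x ^ 2)⁻¹ := by group
    _ = 1 := by rw [h3, h2]; simp

theorem u1_not_mem_T (hc : Cfg3 T H x1 x2 x3 u1 u2 u3) : u1 ∉ T := by
  intro h
  have hcomm := T_comm hc h (x2_mem_T hc)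
  have h12 := hc.a12
  rw [hcomm.eq, mul_inv_cancel_right] at h12
  exact hc.ne2 (eq_one_of_inv_eq hc.x23 h12.symm)

theorem mem_cent_cases (hc : Cfg3 T H x1 x2 x3 u1 u2 u3) {g : G}
    (hg : g ∈ Subgroup.centralizer ({x1} : Set G)) : g ∈ T ∨ g * u1 ∈ T := by
  rw [Subgroup.mem_centralizer_singleton_iff] at hg
  have hH := hc.loc x1 (x1_mem_T hc) hc.ne1 g hg
  obtain ⟨t, ht, h | h | h | h⟩ := (hc.memH g).1 hH
  · left
    rw [h]
    exact ht
  · right
    rw [h, mul_assoc, ← pow_two, hc.u1sq, mul_one]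
    exact ht
  · exfalso
    rw [h] at hg
    have h1 : t * u2 * x1 = t * x1 * u2 := by
      rw [hg, ← mul_assoc, (x1_comm_T hc ht).eq]
    have h2 : u2 * x1 = x1 * u2 := by
      have := congrArg (fun z => t⁻¹ * z) h1
      simpa [mul_assoc] using this
    have h21 := hc.a21
    rw [h2, mul_inv_cancel_right] at h21
    exact hc.ne1 (eq_one_of_inv_eq hc.x13 h21.symm)
  · exfalso
    rw [h] at hg
    have h1 : t * u3 * x1 = t * x1 * u3 := by
      rw [hg, ← mul_assoc, (x1_comm_T hc ht).eq]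
    have h2 : u3 * x1 = x1 * u3 := by
      have := congrArg (fun z => t⁻¹ * z) h1
      simpa [mul_assoc] using this
    have h31 := hc.a31
    rw [h2, mul_inv_cancel_right] at h31
    exact hc.ne1 (eq_one_of_inv_eq hc.x13 h31.symm)

theorem main : OMEGA.{u} := by
  intro G _ _ T H x1 x2 x3 u1 u2 u3 hc
  classical
  have hx1C : x1 ∈ Subgroup.centralizer ({x1} : Set G) :=
    Subgroup.mem_centralizer_singleton_iff.mpr rfl
  have hu1C : u1 ∈ Subgroup.centralizer ({x1} : Set G) :=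
    Subgroup.mem_centralizer_singleton_iff.mpr hc.a11
  have hidx : (T.subgroupOf (Subgroup.centralizer ({x1} : Set G))).index = 2 := by
    rw [Subgroup.index_eq_two_iff]
    refine ⟨⟨u1, hu1C⟩, fun b => ?_⟩
    rcases mem_cent_cases hc b.2 with hb | hb
    · right
      refine ⟨Subgroup.mem_subgroupOf.mpr hb, fun hba => ?_⟩
      have hba' : (b : G) * u1 ∈ T := Subgroup.mem_subgroupOf.mp hba
      apply u1_not_mem_T hc
      have := T.mul_mem (T.inv_mem hb) hba'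
      simpa using this
    · left
      refine ⟨Subgroup.mem_subgroupOf.mpr hb, fun hb' => ?_⟩
      have hb'' : (b : G) ∈ T := Subgroup.mem_subgroupOf.mp hb'
      apply u1_not_mem_T hc
      have := T.mul_mem (T.inv_mem hb'') hb
      simpa using this
  have hx1T' : (⟨x1, hx1C⟩ : ↥(Subgroup.centralizer ({x1} : Set G))) ∈ (T.subgroupOf (Subgroup.centralizer ({x1} : Set G))) := Subgroup.mem_subgroupOf.mpr (x1_mem_T hc)
  obtain ⟨φ, hφ⟩ : ∃ φ : ↥(T.subgroupOf (Subgroup.centralizer ({x1} : Set G))) →* ℂˣ, φ ⟨⟨x1, hx1C⟩, hx1T'⟩ ≠ 1 := by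
    letI : CommGroup ↥(T.subgroupOf (Subgroup.centralizer ({x1} : Set G))) :=
      { (inferInstance : Group ↥(T.subgroupOf (Subgroup.centralizer ({x1} : Set G)))) with
        mul_comm := fun a b => Subtype.ext (Subtype.ext
          (T_comm hc (Subgroup.mem_subgroupOf.mp a.2) (Subgroup.mem_subgroupOf.mp b.2)).eq) }
    have : NeZero (Monoid.exponent ↥(T.subgroupOf (Subgroup.centralizer ({x1} : Set G)))) := ⟨Monoid.exponent_ne_zero_of_finite⟩
    exact CommGroup.exists_apply_ne_one_of_hasEnoughRootsOfUnity _ ℂ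
      (fun h => hc.ne1 (congrArg (fun z : ↥(T.subgroupOf (Subgroup.centralizer ({x1} : Set G))) => ((z : ↥(Subgroup.centralizer ({x1} : Set G))) : G)) h))
  have hkey : ∀ (k : ℕ) (g₀ : ↥(Subgroup.centralizer ({x1} : Set G))),
      g₀⁻¹ * (⟨x1, hx1C⟩ : ↥(Subgroup.centralizer ({x1} : Set G))) ^ k * g₀ ∈ (T.subgroupOf (Subgroup.centralizer ({x1} : Set G))) →
      g₀⁻¹ * (⟨x1, hx1C⟩ : ↥(Subgroup.centralizer ({x1} : Set G))) ^ k * g₀ = (⟨x1, hx1C⟩ : ↥(Subgroup.centralizer ({x1} : Set G))) ^ k := by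
    intro k g₀ _
    have hcomm : Commute (⟨x1, hx1C⟩ : ↥(Subgroup.centralizer ({x1} : Set G))) g₀ := by
      apply Subtype.ext
      exact (Subgroup.mem_centralizer_singleton_iff.mp g₀.2).symm
    rw [mul_assoc, (hcomm.pow_left k).eq, inv_mul_cancel_left]
  have hcube : ∀ (ψ : ↥(Subgroup.centralizer ({x1} : Set G)) →* ℂˣ), ψ ⟨x1, hx1C⟩ ^ 3 = 1 := by
    intro ψ
    rw [← map_pow]
    have : (⟨x1, hx1C⟩ : ↥(Subgroup.centralizer ({x1} : Set G))) ^ 3 = 1 := by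
      apply Subtype.ext
      simp [hc.x13]
    rw [this, map_one]
  have hgen : ∀ (n : ℕ) (hn : (⟨x1, hx1C⟩ : ↥(Subgroup.centralizer ({x1} : Set G))) ^ n ∈ (T.subgroupOf (Subgroup.centralizer ({x1} : Set G)))), n = 2 →
      φ ⟨(⟨x1, hx1C⟩ : ↥(Subgroup.centralizer ({x1} : Set G))) ^ n, hn⟩ ≠ 1 := by
    intro n hn h2
    subst h2
    have e : (⟨(⟨x1, hx1C⟩ : ↥(Subgroup.centralizer ({x1} : Set G))) ^ 2, hn⟩ : ↥(T.subgroupOf (Subgroup.centralizer ({x1} : Set G)))) = (⟨⟨x1, hx1C⟩, hx1T'⟩ : ↥(T.subgroupOf (Subgroup.centralizer ({x1} : Set G)))) ^ 2 := rfl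
    rw [e, map_pow]
    intro h
    have h3 : φ ⟨⟨x1, hx1C⟩, hx1T'⟩ ^ 3 = 1 := by
      rw [← map_pow]
      have : (⟨⟨x1, hx1C⟩, hx1T'⟩ : ↥(T.subgroupOf (Subgroup.centralizer ({x1} : Set G)))) ^ 3 = 1 := by
        apply Subtype.ext
        apply Subtype.ext
        simp [hc.x13]
      rw [this, map_one]
    exact hφ (eq_one_of_sq_eq_one h3 h)
  have hVx1 : MonoidHom.transfer φ (⟨x1, hx1C⟩ : ↥(Subgroup.centralizer ({x1} : Set G))) ≠ 1 := by
    rw [MonoidHom.transfer_eq_pow φ ⟨x1, hx1C⟩ hkey]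
    exact hgen _ _ hidx
  have hinv : ∀ (ψ : ↥(Subgroup.centralizer ({x1} : Set G)) →* ℂˣ) (a b : ↥(Subgroup.centralizer ({x1} : Set G))), a * b * a⁻¹ = b⁻¹ → b ^ 3 = 1 → ψ b = 1 := by
    intro ψ a b hab hb3
    have h1 : ψ b = (ψ b)⁻¹ := by
      have := congrArg ψ hab
      rw [map_mul, map_mul, map_inv, map_inv, mul_comm (ψ a), mul_inv_cancel_right] at this
      exact this
    have h2 : ψ b ^ 2 = 1 := by
      rw [pow_two]
      nth_rewrite 1 [h1]
      simp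
    have h3 : ψ b ^ 3 = 1 := by rw [← map_pow, hb3, map_one]
    exact eq_one_of_sq_eq_one h3 h2
  refine ⟨(powMonoidHom 2).comp (MonoidHom.transfer φ), ⟨fun h => ?_, fun h => ?_, fun h => ?_,
    fun h => ?_⟩⟩
  · show MonoidHom.transfer φ (⟨x1, h⟩ : ↥(Subgroup.centralizer ({x1} : Set G))) ^ 2 ≠ 1
    intro h2
    exact hVx1 (eq_one_of_sq_eq_one (hcube _) h2)
  · show MonoidHom.transfer φ (⟨x2, h⟩ : ↥(Subgroup.centralizer ({x1} : Set G))) ^ 2 = 1
    rw [hinv (MonoidHom.transfer φ) ⟨u1, hu1C⟩ ⟨x2, h⟩ (Subtype.ext hc.a12)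
      (Subtype.ext (by simp [hc.x23])), one_pow]
  · show MonoidHom.transfer φ (⟨x3, h⟩ : ↥(Subgroup.centralizer ({x1} : Set G))) ^ 2 = 1
    rw [hinv (MonoidHom.transfer φ) ⟨u1, hu1C⟩ ⟨x3, h⟩ (Subtype.ext hc.a13)
      (Subtype.ext (by simp [hc.x33])), one_pow]
  · show MonoidHom.transfer φ (⟨u1, h⟩ : ↥(Subgroup.centralizer ({x1} : Set G))) ^ 2 = 1
    rw [← map_pow]
    have : (⟨u1, h⟩ : ↥(Subgroup.centralizer ({x1} : Set G))) ^ 2 = 1 := by
      apply Subtype.ext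
      simp [hc.u1sq]
    rw [this, map_one]

end Cfsg.Agent.Lib.Helper15.T3OMEGA
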