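import Mathlib
import Cfsg.Agent.Lib.Helper32.T3Stmt
import Cfsg.Agent.Lib.Helper32.S9Exc
import Cfsg.Agent.Lib.Helper15.T3OMEGA

/-!
# S3701 / PRODVAN: `exc` vanishes on products of two conjugates of `u1`
-/

set_option autoImplicit false

namespace Cfsg.Agent.Lib.Helper15.T3PRODVAN

open Cfsg Cfsg.Agent.Lib.Helper32.T3Stmt
open Cfsg.Agent.Lib.Helper15.T3OMEGA

universe u

variable {G : Type u} [Group G] {T H : Subgroup G} {x1 x2 x3 u1 u2 u3 : G}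

theorem x3_mem_T (hc : Cfg3 T H x1 x2 x3 u1 u2 u3) : x3 ∈ T :=
  (hc.memT x3).2 ⟨0, 0, 1, by simp⟩

theorem u1_conj_T (hc : Cfg3 T H x1 x2 x3 u1 u2 u3) {s : G} (hs : s ∈ T) :
    u1 * s * u1⁻¹ ∈ T := by
  obtain ⟨i, j, k, rfl⟩ := (hc.memT s).1 hs
  have e : u1 * (x1 ^ i * x2 ^ j * x3 ^ k) * u1⁻¹ =
      (u1 * x1 * u1⁻¹) ^ i * (u1 * x2 * u1⁻¹) ^ j * (u1 * x3 * u1⁻¹) ^ k := by
    rw [conj_pow, conj_pow, conj_pow]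
    group
  have e1 : u1 * x1 * u1⁻¹ = x1 := by rw [hc.a11, mul_inv_cancel_right]
  rw [e, e1, hc.a12, hc.a13]
  exact T.mul_mem (T.mul_mem (T.pow_mem (x1_mem_T hc) i)
    (T.pow_mem (T.inv_mem (x2_mem_T hc)) j)) (T.pow_mem (T.inv_mem (x3_mem_T hc)) k)

theorem T_pow3 (hc : Cfg3 T H x1 x2 x3 u1 u2 u3) {s : G} (hs : s ∈ T) : s ^ 3 = 1 := by
  obtain ⟨i, j, k, rfl⟩ := (hc.memT s).1 hs
  have h12 : Commute (x1 ^ i) (x2 ^ j) := (show Commute x1 x2 from hc.c12).pow_pow i j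
  have h3 : Commute (x1 ^ i * x2 ^ j) (x3 ^ k) :=
    ((show Commute x1 x3 from hc.c13).pow_pow i k).mul_left
      ((show Commute x2 x3 from hc.c23).pow_pow j k)
  rw [h3.mul_pow, h12.mul_pow, ← pow_mul, ← pow_mul, ← pow_mul, mul_comm i, mul_comm j,
    mul_comm k, pow_mul, pow_mul, pow_mul, hc.x13, hc.x23, hc.x33, one_pow, one_pow, one_pow,
    mul_one, mul_one]

theorem T_le_cent (hc : Cfg3 T H x1 x2 x3 u1 u2 u3) {s : G} (hs : s ∈ T) :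
    s ∈ Subgroup.centralizer ({x1} : Set G) :=
  Subgroup.mem_centralizer_singleton_iff.mpr (x1_comm_T hc hs).eq.symm

theorem conj_sq (hc : Cfg3 T H x1 x2 x3 u1 u2 u3) (c : G) : (c⁻¹ * u1 * c) ^ 2 = 1 := by
  have e : (c⁻¹ * u1 * c) ^ 2 = c⁻¹ * (u1 * u1) * c := by
    rw [pow_two]
    group
  rw [e, ← pow_two, hc.u1sq]
  group

/-- a conjugate of `u1` lying in `H` is `T`-conjugate to `u1` when `u1` is not fused to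
`u2`, `u3` -/
theorem conj_u1_in_H [Finite G] (hINV : INV.{u}) (hc : Cfg3 T H x1 x2 x3 u1 u2 u3)
    (h12 : ¬ IsConj u1 u2) (h13 : ¬ IsConj u1 u3) (c : G) (hw : c⁻¹ * u1 * c ∈ H) :
    ∃ s ∈ T, c⁻¹ * u1 * c = s * u1 * s⁻¹ := by
  rcases hINV hc _ hw (conj_sq hc c) with h | ⟨s, hs, h⟩ | ⟨s, hs, h⟩ | ⟨s, hs, h⟩
  · exfalso
    apply u1_not_mem_T hc
    have e : u1 = c * (c⁻¹ * u1 * c) * c⁻¹ := by group
    rw [e, h]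
    simp
  · exact ⟨s, hs, h⟩
  · exfalso
    apply h12
    rw [isConj_iff]
    refine ⟨s⁻¹ * c⁻¹, ?_⟩
    calc s⁻¹ * c⁻¹ * u1 * (s⁻¹ * c⁻¹)⁻¹ = s⁻¹ * (c⁻¹ * u1 * c) * s := by group
      _ = u2 := by rw [h]; group
  · exfalso
    apply h13
    rw [isConj_iff]
    refine ⟨s⁻¹ * c⁻¹, ?_⟩
    calc s⁻¹ * c⁻¹ * u1 * (s⁻¹ * c⁻¹)⁻¹ = s⁻¹ * (c⁻¹ * u1 * c) * s := by group
      _ = u3 := by rw [h]; group

theorem main (hTI : TI.{u}) (hINV : INV.{u}) : PRODVAN.{u} := by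
  intro G _ _ T H x1 x2 x3 u1 u2 u3 hc f hf h12 h13 h
  by_contra hne
  obtain ⟨t, hmem, hfne⟩ := Cfsg.Agent.Lib.Helper32.S9Exc.exc_support f _ hne
  obtain ⟨w₁, hw₁⟩ : ∃ w, w = t⁻¹ * u1 * t := ⟨_, rfl⟩
  obtain ⟨w₂, hw₂⟩ : ∃ w, w = (h⁻¹ * t)⁻¹ * u1 * (h⁻¹ * t) := ⟨_, rfl⟩
  have hprod : t⁻¹ * (u1 * (h * u1 * h⁻¹)) * t = w₁ * w₂ := by
    rw [hw₁, hw₂]
    group
  have hsq₁ : w₁ ^ 2 = 1 := by rw [hw₁]; exact conj_sq hc t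
  have hsq₂ : w₂ ^ 2 = 1 := by rw [hw₂]; exact conj_sq hc (h⁻¹ * t)
  have hinv₁ : w₁⁻¹ = w₁ := by
    rw [inv_eq_iff_mul_eq_one, ← pow_two, hsq₁]
  have hinv₂ : w₂⁻¹ = w₂ := by
    rw [inv_eq_iff_mul_eq_one, ← pow_two, hsq₂]
  have hmem' : w₁ * w₂ ∈ Subgroup.centralizer ({x1} : Set G) := hprod ▸ hmem
  have hfne' : f ⟨w₁ * w₂, hmem'⟩ ≠ 1 := by
    intro h0
    apply hfne
    rw [← h0]
    congr 1
    exact Subtype.ext hprod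
  have hu1C : u1 ∈ Subgroup.centralizer ({x1} : Set G) :=
    Subgroup.mem_centralizer_singleton_iff.mpr hc.a11
  -- the square of `z = w₁ * w₂` is a nonidentity element of `T`
  have hz : (w₁ * w₂) ^ 2 ∈ T ∧ f ⟨w₁ * w₂, hmem'⟩ ^ 3 = 1 := by
    rcases mem_cent_cases hc hmem' with hzT | hzT
    · refine ⟨T.pow_mem hzT 2, ?_⟩
      rw [← map_pow]
      have : (⟨w₁ * w₂, hmem'⟩ : ↥(Subgroup.centralizer ({x1} : Set G))) ^ 3 = 1 := Subtype.ext (T_pow3 hc hzT)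
      rw [this, map_one]
    · have hu1inv : u1⁻¹ = u1 := by
        rw [inv_eq_iff_mul_eq_one, ← pow_two, hc.u1sq]
      have hzs : w₁ * w₂ = w₁ * w₂ * u1 * u1 := by
        rw [mul_assoc (w₁ * w₂), ← pow_two, hc.u1sq, mul_one]
      refine ⟨?_, ?_⟩
      · have e : (w₁ * w₂) ^ 2 = (w₁ * w₂ * u1) * (u1 * (w₁ * w₂ * u1) * u1⁻¹) := by
          have e' : (w₁ * w₂ * u1) * (u1 * (w₁ * w₂ * u1) * u1⁻¹) =
              (w₁ * w₂) * (u1 * u1) * (w₁ * w₂) := by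
            simp [mul_assoc]
          rw [e', ← pow_two u1, hc.u1sq, mul_one, pow_two]
        rw [e]
        exact T.mul_mem hzT (u1_conj_T hc hzT)
      · have e : (⟨w₁ * w₂, hmem'⟩ : ↥(Subgroup.centralizer ({x1} : Set G))) =
            ⟨w₁ * w₂ * u1, T_le_cent hc hzT⟩ * ⟨u1, hu1C⟩ := Subtype.ext hzs
        rw [e, map_mul, hf.fu1 hu1C, mul_one, ← map_pow]
        have : (⟨w₁ * w₂ * u1, T_le_cent hc hzT⟩ : ↥(Subgroup.centralizer ({x1} : Set G))) ^ 3 = 1 := Subtype.ext (T_pow3 hc hzT)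
        rw [this, map_one]
  obtain ⟨hz2T, hf3⟩ := hz
  have hz2ne : (w₁ * w₂) ^ 2 ≠ 1 := by
    intro h1
    apply hfne'
    have h2 : f ⟨w₁ * w₂, hmem'⟩ ^ 2 = 1 := by
      rw [← map_pow]
      have : (⟨w₁ * w₂, hmem'⟩ : ↥(Subgroup.centralizer ({x1} : Set G))) ^ 2 = 1 := Subtype.ext h1
      rw [this, map_one]
    exact eq_one_of_sq_eq_one hf3 h2
  have hc₁ : w₁ * (w₁ * w₂) ^ 2 * w₁⁻¹ ∈ T := by
    have e : w₁ * (w₁ * w₂) ^ 2 * w₁⁻¹ = ((w₁ * w₂) ^ 2)⁻¹ := by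
      rw [← conj_pow, ← inv_pow]
      congr 1
      rw [mul_inv_rev, hinv₁, hinv₂]
      rw [← mul_assoc, ← pow_two, hsq₁, one_mul]
    rw [e]
    exact T.inv_mem hz2T
  have hc₂ : w₂ * (w₁ * w₂) ^ 2 * w₂⁻¹ ∈ T := by
    have e : w₂ * (w₁ * w₂) ^ 2 * w₂⁻¹ = ((w₁ * w₂) ^ 2)⁻¹ := by
      rw [← conj_pow, ← inv_pow]
      congr 1
      rw [mul_inv_rev, hinv₁, hinv₂]
      rw [mul_assoc, mul_assoc, ← pow_two, hsq₂, mul_one]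
    rw [e]
    exact T.inv_mem hz2T
  have hH₁ : w₁ ∈ H := hTI hc w₁ _ hz2T hz2ne hc₁
  have hH₂ : w₂ ∈ H := hTI hc w₂ _ hz2T hz2ne hc₂
  obtain ⟨s₁, hs₁, e₁⟩ := conj_u1_in_H hINV hc h12 h13 t (hw₁ ▸ hH₁)
  obtain ⟨s₂, hs₂, e₂⟩ := conj_u1_in_H hINV hc h12 h13 (h⁻¹ * t) (hw₂ ▸ hH₂)
  apply hfne'
  have e : (⟨w₁ * w₂, hmem'⟩ : ↥(Subgroup.centralizer ({x1} : Set G))) =
      ⟨s₁, T_le_cent hc hs₁⟩ * ⟨u1, hu1C⟩ * (⟨s₁, T_le_cent hc hs₁⟩ : ↥(Subgroup.centralizer ({x1} : Set G)))⁻¹ *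
        (⟨s₂, T_le_cent hc hs₂⟩ * ⟨u1, hu1C⟩ * (⟨s₂, T_le_cent hc hs₂⟩ : ↥(Subgroup.centralizer ({x1} : Set G)))⁻¹) := by
    apply Subtype.ext
    show w₁ * w₂ = s₁ * u1 * s₁⁻¹ * (s₂ * u1 * s₂⁻¹)
    rw [hw₁, hw₂, e₁, e₂]
  rw [e]
  simp only [map_mul, map_inv, hf.fu1 hu1C]
  simp

end Cfsg.Agent.Lib.Helper15.T3PRODVAN
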